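import Mathlib
import Cfsg.Agent.Helper8.Ord1440
import Cfsg.Agent.S0985
import Cfsg.Agent.Helper66.PGroupMisc

/-!
# Piece B of CALL S0976 (helper8): a simple group of order 4032 does not have 36 Sylow 7-subgroups
-/

set_option autoImplicit false
set_option linter.style.haveILetI false
set_option maxHeartbeats 1000000

namespace Cfsg.Agent.Helper41

open Subgroup Cfsg.Agent.Helper9.OrdTools Cfsg.Agent.Helper8.Ord459

variable {G : Type*} [Group G] [Finite G]

namespace Ord4032B

theorem arith_e : ∀ e c, e ∣ 6 → 1 < e → 112 = e * c → 7 ∣ c → e = 2 ∧ c = 56 := by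
  intro e c he h1 h h7
  have hle : e ≤ 6 := Nat.le_of_dvd (by norm_num) he
  interval_cases e <;> simp_all <;> omega

theorem arith_n : ∀ n, n ∣ 36 → n % 7 = 1 → n = 1 ∨ n = 36 := by
  intro n hn h
  have hle : n ≤ 36 := Nat.le_of_dvd (by norm_num) hn
  interval_cases n <;> simp_all

theorem arith_d : ∀ d, d ∣ 112 → 16 ∣ d → 7 ∣ d → d = 112 := by
  intro d h1 h2 h3
  have hle : d ≤ 112 := Nat.le_of_dvd (by norm_num) h1
  obtain ⟨k, rfl⟩ := h2
  have hk : k ≤ 7 := by omega
  interval_cases k <;> omega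

/-- the centralizer of a nonidentity element centralizing `P` and a subgroup `T ≤ N(P)` of
order `16` is `N(P)`. -/
theorem cent_eq [IsSimpleGroup G] (hG : Nat.card G = 4032) (P : Sylow 7 G)
    (hP : Nat.card (P : Subgroup G) = 7)
    (hN : Nat.card (normalizer ((P : Subgroup G) : Set G)) = 112)
    (T : Subgroup G) (hTN : T ≤ normalizer ((P : Subgroup G) : Set G))
    (hT : Nat.card T = 16)
    (u : G) (hu1 : u ≠ 1) (huP : ∀ x ∈ (P : Subgroup G), x * u = u * x)
    (huT : ∀ v ∈ T, v * u = u * v) :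
    centralizer ({u} : Set G) = normalizer ((P : Subgroup G) : Set G) := by
  haveI : Fact (Nat.Prime 7) := ⟨by norm_num⟩
  obtain ⟨X, hXdef⟩ : ∃ X : Subgroup G, X = centralizer ({u} : Set G) := ⟨_, rfl⟩
  rw [← hXdef]
  have hmemX : ∀ x, x ∈ X ↔ x * u = u * x := by
    intro x
    rw [hXdef, Subgroup.mem_centralizer_iff]
    constructor
    · intro h; exact (h u rfl).symm
    · intro h y hy; rw [Set.mem_singleton_iff.mp hy]; exact h.symm
  have hPX : (P : Subgroup G) ≤ X := fun x hx => (hmemX x).mpr (huP x hx)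
  have hTX : T ≤ X := fun x hx => (hmemX x).mpr (huT x hx)
  obtain ⟨n, hn7, hXcard⟩ := sylow_count_subgroup P X hPX
  obtain ⟨N, hNdef⟩ : ∃ N, N = normalizer ((P : Subgroup G) : Set G) := ⟨_, rfl⟩
  rw [← hNdef] at hN hTN hXcard ⊢
  have hPN : (P : Subgroup G) ≤ N := hNdef ▸ Subgroup.le_normalizer
  have hd1 : Nat.card (X ⊓ N : Subgroup G) ∣ 112 := hN ▸ Subgroup.card_dvd_of_le inf_le_right
  have hd2 : 16 ∣ Nat.card (X ⊓ N : Subgroup G) := hT ▸ Subgroup.card_dvd_of_le (le_inf hTX hTN)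
  have hd3 : 7 ∣ Nat.card (X ⊓ N : Subgroup G) :=
    hP ▸ Subgroup.card_dvd_of_le (le_inf hPX hPN)
  have hXG : Nat.card X ∣ 4032 := hG ▸ Subgroup.card_subgroup_dvd_card X
  have hna : ∃ a b : G, a * b ≠ b * a :=
    exists_not_comm' P (by rw [hP]; norm_num) (by rw [hP, hG]; norm_num)
  have hd := arith_d _ hd1 hd2 hd3
  have hNX : N ≤ X := by
    have h1 : X ⊓ N = N := by
      apply Subgroup.eq_of_le_of_card_ge inf_le_right
      rw [hd, hN]
    rw [← h1]
    exact inf_le_left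
  rw [hd] at hXcard
  have hn' : n ∣ 36 := by
    rw [hXcard] at hXG
    have h3 : (4032 : ℕ) = 112 * 36 := by norm_num
    rw [h3] at hXG
    exact Nat.dvd_of_mul_dvd_mul_left (by norm_num) hXG
  rcases arith_n n hn' hn7 with h1 | h1
  · symm
    apply Subgroup.eq_of_le_of_card_ge hNX
    rw [hXcard, h1, hN]
  · exfalso
    rw [h1] at hXcard
    have hXtop : X = ⊤ := by
      apply (Subgroup.card_eq_iff_eq_top X).mp
      rw [hXcard, hG]
    apply hu1
    apply eq_one_of_central hna u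
    intro g
    exact (hmemX g).mp (hXtop ▸ Subgroup.mem_top g)

/-- the key step: an element `g` of `S` normalizing `T` cannot conjugate an element of `K`
central in `T` into `K`, unless `g ∈ T`. -/
theorem step2 [IsSimpleGroup G] (hG : Nat.card G = 4032) (P : Sylow 7 G)
    (hP : Nat.card (P : Subgroup G) = 7)
    (hN : Nat.card (normalizer ((P : Subgroup G) : Set G)) = 112)
    (K T S : Subgroup G) (hKC : K ≤ centralizer ((P : Subgroup G) : Set G))
    (hTN : T ≤ normalizer ((P : Subgroup G) : Set G))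
    (hT : Nat.card T = 16) (hTS : T ≤ S) (hS : Nat.card S = 64)
    (g : G) (hgS : g ∈ S) (hgn' : ∀ v ∈ T, g⁻¹ * v * g ∈ T)
    (u : G) (hu1 : u ≠ 1) (huK : u ∈ K) (huT : ∀ v ∈ T, v * u = u * v)
    (hu' : g * u * g⁻¹ ∈ K) : g ∈ T := by
  haveI : Fact (Nat.Prime 7) := ⟨by norm_num⟩
  have hcent : ∀ w ∈ K, ∀ x ∈ (P : Subgroup G), x * w = w * x := by
    intro w hw x hx
    exact Subgroup.mem_centralizer_iff.mp (hKC hw) x hx
  have h1 := cent_eq hG P hP hN T hTN hT u hu1 (hcent u huK) huT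
  have hu1' : g * u * g⁻¹ ≠ 1 := by
    intro h
    apply hu1
    have : u = g⁻¹ * (g * u * g⁻¹) * g := by group
    rw [this, h]; group
  have huT' : ∀ v ∈ T, v * (g * u * g⁻¹) = (g * u * g⁻¹) * v := by
    intro v hv
    have e := huT _ (hgn' v hv)
    calc v * (g * u * g⁻¹) = g * (g⁻¹ * v * g * u) * g⁻¹ := by group
      _ = g * (u * (g⁻¹ * v * g)) * g⁻¹ := by rw [e]
      _ = g * u * g⁻¹ * v := by group
  have h2 := cent_eq hG P hP hN T hTN hT (g * u * g⁻¹) hu1' (hcent _ hu') huT'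
  have h3 : ∀ x ∈ normalizer ((P : Subgroup G) : Set G),
      g * x * g⁻¹ ∈ normalizer ((P : Subgroup G) : Set G) := by
    intro x hx
    rw [← h1, Subgroup.mem_centralizer_iff] at hx
    have hxu : u * x = x * u := hx u rfl
    rw [← h2, Subgroup.mem_centralizer_iff]
    intro y hy
    rw [Set.mem_singleton_iff.mp hy]
    calc g * u * g⁻¹ * (g * x * g⁻¹) = g * (u * x) * g⁻¹ := by group
      _ = g * (x * u) * g⁻¹ := by rw [hxu]
      _ = g * x * g⁻¹ * (g * u * g⁻¹) := by group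
  have h4 : ((g • P : Sylow 7 G) : Subgroup G) ≤ normalizer ((P : Subgroup G) : Set G) := by
    intro y hy
    rw [Sylow.coe_subgroup_smul, Subgroup.mem_smul_pointwise_iff_exists] at hy
    obtain ⟨x, hx, rfl⟩ := hy
    exact h3 x (Subgroup.le_normalizer hx)
  have h5 : P = g • P := Cfsg.Agent.Helper8.SylFix.eq_of_le_normalizer (g • P) P h4
  have h6 : g ∈ normalizer ((P : Subgroup G) : Set G) :=
    Sylow.smul_eq_iff_mem_normalizer.mp h5.symm
  have hTle : T ≤ S ⊓ normalizer ((P : Subgroup G) : Set G) := le_inf hTS hTN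
  have hc1 : Nat.card (S ⊓ normalizer ((P : Subgroup G) : Set G) : Subgroup G) ∣ 64 :=
    hS ▸ Subgroup.card_dvd_of_le inf_le_left
  have hc2 : Nat.card (S ⊓ normalizer ((P : Subgroup G) : Set G) : Subgroup G) ∣ 112 :=
    hN ▸ Subgroup.card_dvd_of_le inf_le_right
  have hc3 : Nat.card (S ⊓ normalizer ((P : Subgroup G) : Set G) : Subgroup G) ∣ 16 := by
    have := Nat.dvd_gcd hc1 hc2
    norm_num at this
    exact this
  have hle : Nat.card (S ⊓ normalizer ((P : Subgroup G) : Set G) : Subgroup G) ≤ Nat.card T := by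
    rw [hT]; exact Nat.le_of_dvd (by norm_num) hc3
  have heq : T = S ⊓ normalizer ((P : Subgroup G) : Set G) :=
    Subgroup.eq_of_le_of_card_ge hTle hle
  rw [heq]
  exact ⟨hgS, h6⟩

end Ord4032B

open Ord4032B in
theorem ord4032_n7_ne_36 [IsSimpleGroup G] (hG : Nat.card G = 4032) : Nat.card (Sylow 7 G) ≠ 36 := by
  intro hn
  haveI : Fact (Nat.Prime 7) := ⟨by norm_num⟩
  haveI : Fact (Nat.Prime 2) := ⟨Nat.prime_two⟩
  obtain ⟨P⟩ := (inferInstance : Nonempty (Sylow 7 G))
  have hP : Nat.card (P : Subgroup G) = 7 := by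
    have := sylow_card (p := 7) 1 576 (by rw [hG]; norm_num) (by norm_num) P
    simpa using this
  obtain ⟨-, -, -, hNn⟩ := sylow_num P (by rw [hP]; norm_num) (by rw [hP, hG]; norm_num)
  rw [hn, hG] at hNn
  have hN : Nat.card (normalizer ((P : Subgroup G) : Set G)) = 112 := by omega
  obtain ⟨e, he, he1, heN, h7C⟩ := normalizer_centralizer_prime P hP (by rw [hG]; norm_num)
  rw [hN] at heN
  obtain ⟨-, hC⟩ := arith_e e _ he he1 heN h7C
  have hCN : centralizer ((P : Subgroup G) : Set G) ≤ normalizer ((P : Subgroup G) : Set G) :=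
    Subgroup.centralizer_le_normalizer _
  obtain ⟨K, hK, hKC⟩ : ∃ K : Subgroup G, Nat.card K = 8 ∧
      K ≤ centralizer ((P : Subgroup G) : Set G) := by
    obtain ⟨K0, hK0⟩ := Sylow.exists_subgroup_card_pow_prime 2
      (show 2 ^ 3 ∣ Nat.card (centralizer ((P : Subgroup G) : Set G)) by rw [hC]; norm_num)
    refine ⟨K0.map (centralizer ((P : Subgroup G) : Set G)).subtype, ?_,
      Subgroup.map_subtype_le K0⟩
    rw [Subgroup.card_map_of_injective (Subgroup.subtype_injective _), hK0]; norm_num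
  obtain ⟨T, hT, hKT, hTN⟩ : ∃ T : Subgroup G, Nat.card T = 16 ∧ K ≤ T ∧
      T ≤ normalizer ((P : Subgroup G) : Set G) := by
    have hKN : K ≤ normalizer ((P : Subgroup G) : Set G) := hKC.trans hCN
    have hK' : Nat.card (K.subgroupOf (normalizer ((P : Subgroup G) : Set G))) = 2 ^ 3 := by
      rw [Nat.card_congr (Subgroup.subgroupOfEquivOfLe hKN).toEquiv, hK]; norm_num
    obtain ⟨T0, hT0, hle⟩ :=
      Sylow.exists_subgroup_card_pow_prime_le 2
        (show 2 ^ 4 ∣ Nat.card (normalizer ((P : Subgroup G) : Set G)) by rw [hN]; norm_num)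
        (K.subgroupOf (normalizer ((P : Subgroup G) : Set G))) hK' (by norm_num)
    refine ⟨T0.map (normalizer ((P : Subgroup G) : Set G)).subtype, ?_, ?_,
      Subgroup.map_subtype_le T0⟩
    · rw [Subgroup.card_map_of_injective (Subgroup.subtype_injective _), hT0]; norm_num
    · intro x hx
      exact ⟨⟨x, hKN hx⟩, hle (Subgroup.mem_subgroupOf.mpr hx), rfl⟩
  obtain ⟨S, hS, hTS⟩ : ∃ S : Subgroup G, Nat.card S = 2 ^ 6 ∧ T ≤ S := by
    have hT' : Nat.card T = 2 ^ 4 := by rw [hT]; norm_num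
    exact Sylow.exists_subgroup_card_pow_prime_le 2
      (show 2 ^ 6 ∣ Nat.card G by rw [hG]; norm_num) T hT' (by norm_num)
  have hS64 : Nat.card S = 64 := by rw [hS]; norm_num
  have hSp : IsPGroup 2 S := IsPGroup.of_card hS
  have hne : T ≠ S := by
    intro h
    rw [h, hS64] at hT
    omega
  obtain ⟨g, hgS, hgT, hg2, hgn⟩ := exists_sq_mem_normalizer S T hSp hTS hne
  have hgn' : ∀ v ∈ T, g⁻¹ * v * g ∈ T := by
    intro v hv
    have h1 : g⁻¹ * v * g = g * ((g ^ 2)⁻¹ * v * g ^ 2) * g⁻¹ := by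
      rw [pow_two]; group
    rw [h1]
    exact hgn _ (T.mul_mem (T.mul_mem (T.inv_mem hg2) hv) hg2)
  have hgN : g ∈ normalizer (T : Set G) := by
    rw [Subgroup.mem_normalizer_iff]
    intro h
    constructor
    · exact hgn h
    · intro hh
      have := hgn' _ hh
      have e : g⁻¹ * (g * h * g⁻¹) * g = h := by group
      rwa [e] at this
  set φ : MulAut T := T.normalizerMonoidHom ⟨g, hgN⟩ with hφdef
  have hφ : ∀ t : T, ((φ t : T) : G) = g * t * g⁻¹ := fun t => rfl
  have hidx1 : (K.subgroupOf T).index = 2 := by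
    have h1 := (K.subgroupOf T).card_mul_index
    rw [Nat.card_congr (Subgroup.subgroupOfEquivOfLe hKT).toEquiv, hK, hT] at h1
    omega
  have hidx2 : ((K.subgroupOf T).comap φ.toMonoidHom).index = 2 := by
    have := Subgroup.index_comap_of_surjective (K.subgroupOf T) (f := φ.toMonoidHom) φ.surjective
    rw [this, hidx1]
  haveI hn1 : (K.subgroupOf T).Normal := Subgroup.normal_of_index_eq_two hidx1
  haveI hn2 : ((K.subgroupOf T).comap φ.toMonoidHom).Normal :=
    Subgroup.normal_of_index_eq_two hidx2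
  have hD : (K.subgroupOf T ⊓ (K.subgroupOf T).comap φ.toMonoidHom) ≠ ⊥ := by
    intro h
    have h1 := Subgroup.index_inf_le (H := K.subgroupOf T) (K := (K.subgroupOf T).comap φ.toMonoidHom)
    rw [h, hidx1, hidx2, Subgroup.index_bot, hT] at h1
    omega
  have hTp : IsPGroup 2 T := IsPGroup.of_card (n := 4) (by rw [hT]; norm_num)
  obtain ⟨z, hzD, hz1, hzc⟩ := Cfsg.Agent.Helper66.exists_mem_center_of_normal 2 hTp
    (K.subgroupOf T ⊓ (K.subgroupOf T).comap φ.toMonoidHom) hD
  apply hgT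
  refine step2 hG P hP hN K T S hKC hTN hT hTS hS64 g hgS hgn' (z : G) ?_ ?_ ?_ ?_
  · intro h
    exact hz1 (Subtype.ext h)
  · exact Subgroup.mem_subgroupOf.mp hzD.1
  · intro v hv
    have := Subgroup.mem_center_iff.mp hzc ⟨v, hv⟩
    exact congrArg Subtype.val this
  · have h1 : φ z ∈ K.subgroupOf T := hzD.2
    have h2 := Subgroup.mem_subgroupOf.mp h1
    rw [hφ] at h2
    exact h2

end Cfsg.Agent.Helper41
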