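import Mathlib
import Cfsg.Agent.Helper32.JorDefs

set_option autoImplicit false

namespace Cfsg.Agent.Helper41.JorB1

open Equiv Cfsg.Agent.Helper32.Jor

variable {Ω : Type*} [Fintype Ω] [DecidableEq Ω]

/-- PIECE B1. If every set of fewer than `t` points is a Jordan complement (`G` is `t`-transitive)
then `G` is transitive on the subsets of size `≤ t`. -/
theorem exists_mv_eq (G : Subgroup (Perm Ω)) (t : ℕ)
    (hT : ∀ T : Finset Ω, T.card < t → JC G T)
    (X X' : Finset Ω) (hXX' : X.card = X'.card) (hXt : X.card ≤ t) :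
    ∃ g ∈ G, mv g X = X' := by
  classical
  induction hn : X.card generalizing X X' with
  | zero =>
    have hX : X = ∅ := Finset.card_eq_zero.mp hn
    have hX' : X' = ∅ := Finset.card_eq_zero.mp (by rw [← hXX', hn])
    subst hX hX'
    exact ⟨1, G.one_mem, mv_one _⟩
  | succ n ih =>
    obtain ⟨a, X₀, haX₀, rfl, hcard⟩ := Finset.card_eq_succ.mp hn
    have hn' : X'.card = n + 1 := by rw [← hXX', hn]
    obtain ⟨a', X₀', ha'X₀', rfl, hcard'⟩ := Finset.card_eq_succ.mp hn'
    obtain ⟨g₀, hg₀, hg₀X⟩ := ih X₀ X₀' (by rw [hcard, hcard']) (by omega) hcard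
    have hga : g₀ a ∉ X₀' := by
      rw [← hg₀X, apply_mem_mv]; exact haX₀
    have hJC : JC G X₀' := hT _ (by rw [hcard']; omega)
    obtain ⟨h, hh, hha, hhfix⟩ := JC_iff.mp hJC (g₀ a) hga a' ha'X₀'
    refine ⟨h * g₀, G.mul_mem hh hg₀, ?_⟩
    rw [mv_mul, mv_insert, hg₀X, mv_insert, hha, mv_eq_self_of_fix hhfix]

end Cfsg.Agent.Helper41.JorB1
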