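import Mathlib
import Cfsg.Agent.Helper32.JorDefs

set_option autoImplicit false

namespace Cfsg.Agent.Helper41.JorB2

open Equiv Cfsg.Agent.Helper32.Jor

variable {Ω : Type*} [Fintype Ω] [DecidableEq Ω]

/-- PIECE B2. `JC G T` and `JC G (insert a T)` for all `a ∉ T` give relative 2-transitivity. -/
theorem rel2_of_JC (G : Subgroup (Perm Ω)) (T : Finset Ω) (h1 : JC G T)
    (h2 : ∀ a, a ∉ T → JC G (insert a T)) : Rel2 G T := by
  intro a b a' b' ha hb ha' hb' hab hab'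
  obtain ⟨g₁, hg₁, hg₁a, hg₁fix⟩ := JC_iff.mp h1 a ha a' ha'
  have hg₁b : g₁ b ∉ T := by
    intro hmem
    have := hg₁fix _ hmem
    have hb2 : g₁ b = b := g₁.injective this
    exact hb (hb2 ▸ hmem)
  have hne : g₁ b ≠ a' := by
    intro h
    rw [← hg₁a] at h
    exact hab (g₁.injective h).symm
  have hnotin : g₁ b ∉ insert a' T := by
    simp only [Finset.mem_insert, not_or]
    exact ⟨hne, hg₁b⟩
  have hb'notin : b' ∉ insert a' T := by
    simp only [Finset.mem_insert, not_or]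
    exact ⟨fun h => hab' h.symm, hb'⟩
  obtain ⟨g₂, hg₂, hg₂b, hg₂fix⟩ := JC_iff.mp (h2 a' ha') (g₁ b) hnotin b' hb'notin
  refine ⟨g₂ * g₁, G.mul_mem hg₂ hg₁, ?_, ?_, ?_⟩
  · intro x hx
    rw [Perm.mul_apply, hg₁fix x hx]
    exact hg₂fix x (Finset.mem_insert_of_mem hx)
  · rw [Perm.mul_apply, hg₁a]
    exact hg₂fix a' (Finset.mem_insert_self _ _)
  · rw [Perm.mul_apply, hg₂b]

end Cfsg.Agent.Helper41.JorB2
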