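import Mathlib
import Cfsg.Agent.Helper32.JorDefs

set_option autoImplicit false

namespace Cfsg.Agent.Helper41.JorH3a

open Equiv Cfsg.Agent.Helper32.Jor

/-- PIECE H3a. The case of a Jordan set covering exactly two fibres. -/
theorem quasi_contra_two {G Ω X : Type*} [Group G] [MulAction G Ω] [Fintype Ω] [DecidableEq Ω]
    [MulAction G X] [Fintype X] [DecidableEq X] [FaithfulSMul G X] [MulAction.IsPretransitive G X]
    (π : Ω → X) (hπ : ∀ (g : G) (ω : Ω), π (g • ω) = g • π ω) (hπs : Function.Surjective π)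
    (hπni : ¬ Function.Injective π)
    (Γ : Finset Ω) (Γ' : Finset X) (hΓ : ∀ ω, ω ∈ Γ ↔ π ω ∈ Γ')
    (hJ : ∀ a ∈ Γ, ∀ b ∈ Γ, ∃ g : G, g • a = b ∧ ∀ x, x ∉ Γ → g • x = x)
    (h2 : Γ'.card = 2) : False := by
  classical
  obtain ⟨xa, xb, hab, hΓ'⟩ := Finset.card_eq_two.mp h2
  rw [Function.Injective] at hπni
  push_neg at hπni
  obtain ⟨ω, ω', hωω', hne⟩ := hπni
  obtain ⟨k, hk⟩ := MulAction.exists_smul_eq G (π ω) xa
  have h1 : π (k • ω) = xa := by rw [hπ, hk]
  have h2' : π (k • ω') = xa := by rw [hπ, ← hωω', hk]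
  have hne12 : k • ω ≠ k • ω' := fun h => hne (smul_left_cancel k h)
  have hxaΓ' : xa ∈ Γ' := by rw [hΓ']; simp
  have hm1 : k • ω ∈ Γ := (hΓ _).mpr (h1 ▸ hxaΓ')
  have hm2 : k • ω' ∈ Γ := (hΓ _).mpr (h2' ▸ hxaΓ')
  obtain ⟨g, hg, hgfix⟩ := hJ _ hm1 _ hm2
  have hfixX : ∀ y, y ∉ Γ' → g • y = y := by
    intro y hy
    obtain ⟨ξ, rfl⟩ := hπs y
    have : ξ ∉ Γ := fun h => hy ((hΓ ξ).mp h)
    rw [← hπ, hgfix ξ this]
  have hgxa : g • xa = xa := by
    calc g • xa = g • π (k • ω) := by rw [h1]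
      _ = π (g • k • ω) := (hπ _ _).symm
      _ = xa := by rw [hg, h2']
  have hgb : g • xb = xb := by
    by_contra hcon
    by_cases hy : g • xb ∈ Γ'
    · rw [hΓ'] at hy
      simp only [Finset.mem_insert, Finset.mem_singleton] at hy
      rcases hy with hy | hy
      · have : g • xb = g • xa := by rw [hy, hgxa]
        exact hab (smul_left_cancel g this).symm
      · exact hcon hy
    · have := hfixX _ hy
      exact hcon (smul_left_cancel g this)
  have hg1 : g = 1 := by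
    apply FaithfulSMul.eq_of_smul_eq_smul (α := X)
    intro y
    rw [one_smul]
    by_cases hy : y ∈ Γ'
    · rw [hΓ'] at hy
      simp only [Finset.mem_insert, Finset.mem_singleton] at hy
      rcases hy with rfl | rfl
      · exact hgxa
      · exact hgb
    · exact hfixX y hy
  rw [hg1, one_smul] at hg
  exact hne12 hg

end Cfsg.Agent.Helper41.JorH3a
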