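import Mathlib
import Cfsg.Agent.Helper40.KGLDefs
import Cfsg.Agent.Helper40.KSLDefs
import Cfsg.Agent.Helper40.KPSLDefs

set_option autoImplicit false

namespace Cfsg.Agent.Helper41

open Polynomial Cfsg.Agent.Helper40.KGL Cfsg.Agent.Helper40.KSL Cfsg.Agent.Helper40.KPSL
open scoped DirectSum
open Classical

universe u v

/-- PIECE V10 (CALL S2480, helper40) -/
theorem exists_expand_of_scaleRoots_eq {F : Type u} [Field F] [Fintype F] (ζ : Fˣ) (f : F[X])
    (hf : f.Monic) (h0 : f.coeff 0 ≠ 0) (hinv : f.scaleRoots (ζ : F) = f) :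
    ∃ h : F[X], h.Monic ∧ h.coeff 0 ≠ 0 ∧ f = Polynomial.expand F (orderOf ζ) h := by
  have ho : 0 < orderOf ζ := orderOf_pos ζ
  have hc : ∀ i, f.coeff i * (ζ : F) ^ (f.natDegree - i) = f.coeff i := by
    intro i
    conv_rhs => rw [← hinv]
    rw [coeff_scaleRoots]
  have hd : ∀ j, f.coeff j ≠ 0 → (ζ : F) ^ (f.natDegree - j) = 1 := by
    intro j hj
    have := hc j
    exact mul_left_cancel₀ hj (by rw [this, mul_one])
  have hdv : ∀ j, f.coeff j ≠ 0 → orderOf ζ ∣ f.natDegree - j := by
    intro j hj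
    apply orderOf_dvd_of_pow_eq_one
    apply Units.ext
    rw [Units.val_pow_eq_pow_val, hd j hj, Units.val_one]
  have hn : orderOf ζ ∣ f.natDegree := by simpa using hdv 0 h0
  have hdv' : ∀ j, f.coeff j ≠ 0 → orderOf ζ ∣ j := by
    intro j hj
    have hle : j ≤ f.natDegree := le_natDegree_of_ne_zero hj
    have := hdv j hj
    exact (Nat.dvd_sub_iff_right hle hn).mp this
  have hexp : f = Polynomial.expand F (orderOf ζ) (Polynomial.contract (orderOf ζ) f) := by
    ext i
    rw [coeff_expand ho]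
    split_ifs with hi
    · rw [coeff_contract ho.ne', Nat.div_mul_cancel hi]
    · by_contra hne
      exact hi (hdv' i hne)
  refine ⟨Polynomial.contract (orderOf ζ) f, ?_, ?_, hexp⟩
  · rw [← Polynomial.monic_expand_iff ho, ← hexp]; exact hf
  · rw [coeff_contract ho.ne', zero_mul]; exact h0

end Cfsg.Agent.Helper41
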