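import Mathlib
import Cfsg.Agent.Helper40.KGLDefs
import Cfsg.Agent.Helper40.KSLDefs
import Cfsg.Agent.Helper40.KPSLDefs

set_option autoImplicit false

namespace Cfsg.Agent.Helper41

open Polynomial Cfsg.Agent.Helper40.KGL Cfsg.Agent.Helper40.KSL Cfsg.Agent.Helper40.KPSL
open scoped DirectSum
open Classical

universe u v

/-- PIECE V2 (CALL S2480, helper40) -/
theorem ker_mulQ_eq_bot {F : Type u} [Field F] (f h : F[X]) (hc : IsCoprime h f) :
    LinearMap.ker (mulQ f h) = ⊥ := by
  obtain ⟨a, b, hab⟩ := hc
  rw [LinearMap.ker_eq_bot']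
  intro x hx
  have hx' : h • x = 0 := hx
  have hf : f • x = 0 := by
    induction x using Submodule.Quotient.induction_on with
    | H y =>
      rw [← Submodule.Quotient.mk_smul, Submodule.Quotient.mk_eq_zero,
        Submodule.mem_span_singleton]
      exact ⟨y, by rw [smul_eq_mul, smul_eq_mul, mul_comm]⟩
  calc x = (1 : F[X]) • x := (one_smul _ x).symm
    _ = (a * h + b * f) • x := by rw [hab]
    _ = a • (h • x) + b • (f • x) := by rw [add_smul, mul_smul, mul_smul]
    _ = 0 := by rw [hx', hf, smul_zero, smul_zero, add_zero]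

end Cfsg.Agent.Helper41
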