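import Mathlib
import Cfsg.Agent.Helper40.KGLDefs
import Cfsg.Agent.Helper40.KSLDefs
import Cfsg.Agent.Helper40.KPSLDefs

set_option autoImplicit false

namespace Cfsg.Agent.Helper41

open Polynomial Cfsg.Agent.Helper40.KGL Cfsg.Agent.Helper40.KSL Cfsg.Agent.Helper40.KPSL
open scoped DirectSum
open Classical

universe u v

/-- PIECE V6 (CALL S2480, helper40) -/
theorem finrank_ker_aeval_scaleRoots {F : Type u} [Field F] {V : Type v} [AddCommGroup V]
    [Module F V] (φ : Module.End F V) (ζ : Fˣ) (p : F[X]) (k : ℕ) :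
    Module.finrank F
        (LinearMap.ker (Polynomial.aeval ((ζ : F) • φ) ((p.scaleRoots (ζ : F)) ^ k))) =
      Module.finrank F (LinearMap.ker (Polynomial.aeval φ (p ^ k))) := by
  have h1 : Polynomial.aeval ((ζ : F) • φ) (p.scaleRoots (ζ : F)) =
      ((ζ : F) ^ p.natDegree) • Polynomial.aeval φ p := by
    have := Polynomial.scaleRoots_eval₂_mul_of_commute (p := p) (algebraMap F (Module.End F V)) φ
      (ζ : F) (Algebra.commutes _ _) (fun s₁ s₂ => Algebra.commutes _ _)
    rw [Polynomial.aeval_def, Polynomial.aeval_def, Algebra.smul_def, this, ← map_pow,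
      ← Algebra.smul_def]
  have h2 : Polynomial.aeval ((ζ : F) • φ) ((p.scaleRoots (ζ : F)) ^ k) =
      (((ζ : F) ^ p.natDegree) ^ k) • Polynomial.aeval φ (p ^ k) := by
    rw [map_pow, h1, _root_.smul_pow, map_pow]
  rw [h2, LinearMap.ker_smul]
  exact pow_ne_zero _ (pow_ne_zero _ ζ.ne_zero)

end Cfsg.Agent.Helper41
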