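import Mathlib
import Cfsg.Agent.Helper40.KGLDefs
import Cfsg.Agent.Helper40.KSLDefs
import Cfsg.Agent.Helper40.KPSLDefs

set_option autoImplicit false

namespace Cfsg.Agent.Helper41

open Polynomial Cfsg.Agent.Helper40.KGL Cfsg.Agent.Helper40.KSL Cfsg.Agent.Helper40.KPSL
open scoped DirectSum
open Classical

universe u v

/-- `∑ min(k+1, e) = ∑ min(k, e) + #{e ≥ k+1}`. -/
theorem kpslV8_step (S : Multiset ℕ) (k : ℕ) :
    (S.map (min (k + 1))).sum = (S.map (min k)).sum + S.countP (fun e => k + 1 ≤ e) := by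
  induction S using Multiset.induction_on with
  | empty => simp
  | cons a s ih =>
    rw [Multiset.map_cons, Multiset.sum_cons, Multiset.map_cons, Multiset.sum_cons, ih,
      Multiset.countP_cons]
    split_ifs with h
    · rw [min_eq_left h, min_eq_left (by omega : k ≤ a)]; omega
    · rw [min_eq_right (by omega : a ≤ k + 1), min_eq_right (by omega : a ≤ k)]; omega

/-- `#{e ≥ k} = #{e = k} + #{e ≥ k+1}`. -/
theorem kpslV8_count (S : Multiset ℕ) (k : ℕ) :
    S.countP (fun e => k ≤ e) = S.count k + S.countP (fun e => k + 1 ≤ e) := by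
  induction S using Multiset.induction_on with
  | empty => simp
  | cons a s ih =>
    rw [Multiset.countP_cons, Multiset.countP_cons, Multiset.count_cons, ih]
    split_ifs <;> omega

/-- The counts of the values `≥ 1` are determined by the `min`-sums. -/
theorem kpslV8_det (S T : Multiset ℕ)
    (h : ∀ k, (S.map (min k)).sum = (T.map (min k)).sum) (e : ℕ) :
    S.count (e + 1) = T.count (e + 1) := by
  have a1 := kpslV8_step S e
  have a2 := kpslV8_step S (e + 1)
  have a3 := kpslV8_count S (e + 1)
  have b1 := kpslV8_step T e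
  have b2 := kpslV8_step T (e + 1)
  have b3 := kpslV8_count T (e + 1)
  have c0 := h e
  have c1 := h (e + 1)
  have c2 := h (e + 1 + 1)
  omega

theorem kpslV8_minSum {α : Type u} (M : Multiset (α × ℕ)) (a : α) (k : ℕ) :
    minSum M a k = (((M.filter fun x => x.1 = a).map Prod.snd).map (min k)).sum := by
  unfold minSum
  rw [Multiset.map_map]
  congr

theorem kpslV8_cnt {α : Type u} (M : Multiset (α × ℕ)) (a : α) (e : ℕ) :
    M.count (a, e) = ((M.filter fun x => x.1 = a).map Prod.snd).count e := by
  rw [Multiset.count_map, Multiset.filter_filter, Multiset.count_eq_card_filter_eq]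
  congr 1
  apply Multiset.filter_congr
  intro x _
  constructor
  · rintro rfl; exact ⟨rfl, rfl⟩
  · rintro ⟨h1, h2⟩; exact Prod.ext h2.symm h1

/-- PIECE V8 (CALL S2480, helper40) -/
theorem map_eq_of_minSum_eq {α : Type u} (τ : Equiv.Perm α) (M : Multiset (α × ℕ))
    (hM : ∀ x ∈ M, 1 ≤ x.2) (h : ∀ (a : α) (k : ℕ), minSum M (τ a) k = minSum M a k) :
    M.map (fun x => (τ x.1, x.2)) = M := by
  have hcnt : ∀ (a : α) (e : ℕ), M.count (τ a, e) = M.count (a, e) := by
    intro a e
    rcases Nat.eq_zero_or_pos e with rfl | he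
    · rw [Multiset.count_eq_zero_of_notMem, Multiset.count_eq_zero_of_notMem]
      · intro hx; have := hM _ hx; simp at this
      · intro hx; have := hM _ hx; simp at this
    · obtain ⟨e', rfl⟩ : ∃ e', e = e' + 1 := ⟨e - 1, by omega⟩
      rw [kpslV8_cnt, kpslV8_cnt]
      apply kpslV8_det
      intro k
      rw [← kpslV8_minSum, ← kpslV8_minSum]
      exact h a k
  have hinj : Function.Injective (fun x : α × ℕ => (τ x.1, x.2)) := by
    rintro ⟨a, e⟩ ⟨b, e'⟩ hab
    simp only [Prod.mk.injEq, EmbeddingLike.apply_eq_iff_eq] at hab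
    exact Prod.ext hab.1 hab.2
  ext ⟨b, e⟩
  have := Multiset.count_map_eq_count' (fun x : α × ℕ => (τ x.1, x.2)) M hinj (τ.symm b, e)
  simp only [Equiv.apply_symm_apply] at this
  rw [this, ← hcnt (τ.symm b) e, Equiv.apply_symm_apply]

end Cfsg.Agent.Helper41
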