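import Mathlib
import Cfsg.Agent.Helper40.KGLDefs
import Cfsg.Agent.Helper40.KSLDefs
import Cfsg.Agent.Helper40.KPSLDefs

set_option autoImplicit false

namespace Cfsg.Agent.Helper41

open Polynomial Cfsg.Agent.Helper40.KGL Cfsg.Agent.Helper40.KSL Cfsg.Agent.Helper40.KPSL
open scoped DirectSum
open Classical

universe u v

/-- PIECE V9 (CALL S2480, helper40) -/
theorem datSeq_map_scaleRoots {F : Type u} [Field F] (n : ℕ) (ζ : F) (M : Multiset (F[X] × ℕ))
    (j : Fin n) :
    datSeq n (M.map (fun x => (x.1.scaleRoots ζ, x.2))) j = (datSeq n M j).scaleRoots ζ := by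
  have key : ∀ s : Multiset F[X], (s.map (fun p => p.scaleRoots ζ)).prod = s.prod.scaleRoots ζ := by
    intro s
    induction s using Multiset.induction_on with
    | empty => simp
    | cons a s ih => simp [ih, Polynomial.mul_scaleRoots_of_noZeroDivisors]
  unfold datSeq
  rw [Multiset.filter_map, Multiset.map_map, ← key, Multiset.map_map]
  rfl

end Cfsg.Agent.Helper41
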