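import Cfsg.Agent.Helper81.Blocks
import Cfsg.Agent.Helper79.Basic
import Cfsg.Agent.Helper80.CharIrr

/-!
# Piece K2 of CALL S0999 (helper9): `∑ θ θ̄` over a set of irreducible characters is a character
containing the trivial character with multiplicity the size of the set
-/

set_option autoImplicit false
open Cfsg
open scoped ComplexConjugate

universe u

namespace Cfsg.Agent.Helper41

theorem br_theta_decomp {G : Type u} [Group G] [Finite G] (Y : Finset (Cfsg.IrrCharacter G)) :
    ∃ c : Cfsg.IrrCharacter G → ℕ, c (Helper81.trivIrr G) = Y.card ∧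
      ∀ g : G, ∑ θ ∈ Y, (θ : G → ℂ) g * conj ((θ : G → ℂ) g)
        = ∑ᶠ χ : Cfsg.IrrCharacter G, (c χ : ℂ) * (χ : G → ℂ) g := by
  classical
  letI := Fintype.ofFinite G
  letI := Fintype.ofFinite (Cfsg.IrrCharacter G)
  have hchar : IsCharacter G (∑ θ ∈ Y, ((θ : G → ℂ) * fun g => conj ((θ : G → ℂ) g))) := by
    apply Helper79.isCharacter_sum
    intro θ _
    have hθ : IsCharacter G (θ : G → ℂ) := Helper79.irr_isCharacter θ
    exact Helper79.isCharacter_mul hθ (Helper79.isCharacter_conj hθ)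
  obtain ⟨n, ρ, hρ⟩ := hchar
  obtain ⟨m, hm⟩ := Helper81.exists_mult_of_mem_natSpanIrr (Helper81.character_mem_natSpanIrr ρ)
  rw [hρ] at hm
  refine ⟨m, ?_, ?_⟩
  · have h1 := Helper81.mult_eq_innerInv (fun χ => (m χ : ℂ)) (Helper81.trivIrr G)
    rw [← hm] at h1
    have h2 : Helper81.innerInv (∑ θ ∈ Y, ((θ : G → ℂ) * fun g => conj ((θ : G → ℂ) g)))
        (Helper81.trivIrr G : G → ℂ) = (Y.card : ℂ) := by
      unfold Helper81.innerInv
      have e : ∀ g : G, (∑ θ ∈ Y, ((θ : G → ℂ) * fun g => conj ((θ : G → ℂ) g))) g *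
          (Helper81.trivIrr G : G → ℂ) g⁻¹ = ∑ θ ∈ Y, (θ : G → ℂ) g * (θ : G → ℂ) g⁻¹ := by
        intro g
        rw [Helper81.trivIrr_apply, mul_one, Finset.sum_apply]
        refine Finset.sum_congr rfl (fun θ _ => ?_)
        rw [Pi.mul_apply, Helper80.isCharacter_inv (Helper79.irr_isCharacter θ)]
      rw [Finset.sum_congr rfl (fun g _ => e g), Finset.sum_comm, Finset.mul_sum]
      rw [Finset.sum_congr rfl (fun θ _ => Helper81.irr_orthonormal θ θ)]
      simp
    rw [h2] at h1
    exact_mod_cast h1.symm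
  · intro g
    rw [finsum_eq_sum_of_fintype]
    have := congrFun hm g
    simp only [Finset.sum_apply, Pi.mul_apply, Pi.smul_apply, smul_eq_mul] at this
    exact this

end Cfsg.Agent.Helper41
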