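import Mathlib

/-!
# Piece J3a of CALL S3888 (helper65): `bk_f2_kernel`, plus shared commutator calculus (`BkAux`)
-/

set_option autoImplicit false

namespace Cfsg.Agent.Helper41

namespace BkAux

variable {G : Type*} [Group G]

theorem conj_eq_of_comm_eq {g x c : G} (h : g * x * g⁻¹ * x⁻¹ = c) : g * x * g⁻¹ = c * x := by
  rw [← h]; group

theorem comm_eq_of_conj_eq {g x c : G} (h : g * x * g⁻¹ = c * x) : g * x * g⁻¹ * x⁻¹ = c := by
  rw [h]; group

theorem conj_central_mul {w : G} (hw : ∀ g : G, Commute w g) (g t : G) (k : ℕ) :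
    g * (w ^ k * t) * g⁻¹ = w ^ k * (g * t * g⁻¹) := by
  have hc : Commute (w ^ k) g := (hw g).pow_left k
  calc g * (w ^ k * t) * g⁻¹ = (g * w ^ k) * t * g⁻¹ := by group
    _ = (w ^ k * g) * t * g⁻¹ := by rw [hc.eq]
    _ = w ^ k * (g * t * g⁻¹) := by group

theorem conj_pow_central {x y w : G} (hw : ∀ g : G, Commute w g) (h : x * y * x⁻¹ = w * y)
    (k : ℕ) : x * y ^ k * x⁻¹ = w ^ k * y ^ k := by
  rw [← conj_pow, h, (hw y).mul_pow]

theorem pow_conj_central {x y w : G} (hw : ∀ g : G, Commute w g) (h : x * y * x⁻¹ = w * y)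
    (k : ℕ) : x ^ k * y * (x ^ k)⁻¹ = w ^ k * y := by
  induction k with
  | zero => simp
  | succ k ih =>
    calc x ^ (k + 1) * y * (x ^ (k + 1))⁻¹ = x * (x ^ k * y * (x ^ k)⁻¹) * x⁻¹ := by
          rw [pow_succ']; group
      _ = x * (w ^ k * y) * x⁻¹ := by rw [ih]
      _ = w ^ k * (x * y * x⁻¹) := conj_central_mul hw x y k
      _ = w ^ (k + 1) * y := by rw [h, pow_succ, mul_assoc]

theorem commute_of_conj_eq {c x : G} (h : c * x * c⁻¹ = x) : c * x = x * c := by
  calc c * x = c * x * c⁻¹ * c := by group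
    _ = x * c := by rw [h]

variable [Finite G] {p : ℕ} [Fact p.Prime]

/-- a nonabelian pair generates a subgroup of order `p ^ 3`. -/
theorem closure_pair_eq (E : Subgroup G) (hE : Nat.card E = p ^ 3) {x y : G} (hx : x ∈ E)
    (hy : y ∈ E) (hne : x * y ≠ y * x) : Subgroup.closure ({x, y} : Set G) = E := by
  have hp : p.Prime := Fact.out
  have hle : Subgroup.closure ({x, y} : Set G) ≤ E := by
    rw [Subgroup.closure_le]
    intro z hz
    rcases hz with rfl | rfl
    · exact hx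
    · exact hy
  have hxH : x ∈ Subgroup.closure ({x, y} : Set G) := Subgroup.subset_closure (by simp)
  have hyH : y ∈ Subgroup.closure ({x, y} : Set G) := Subgroup.subset_closure (by simp)
  have hdvd : Nat.card (Subgroup.closure ({x, y} : Set G)) ∣ p ^ 3 :=
    hE ▸ Subgroup.card_dvd_of_le hle
  obtain ⟨k, hk3, hk⟩ := (Nat.dvd_prime_pow hp).mp hdvd
  have hcomm : (∀ a b : Subgroup.closure ({x, y} : Set G), a * b = b * a) → False := by
    intro h
    apply hne
    have := h ⟨x, hxH⟩ ⟨y, hyH⟩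
    exact congrArg Subtype.val this
  interval_cases k
  · exfalso
    apply hcomm
    rw [pow_zero] at hk
    haveI : Subsingleton (Subgroup.closure ({x, y} : Set G)) :=
      (Nat.card_eq_one_iff_unique.mp hk).1
    intro a b
    exact Subsingleton.elim _ _
  · exfalso
    apply hcomm
    rw [pow_one] at hk
    haveI : IsCyclic (Subgroup.closure ({x, y} : Set G)) := isCyclic_of_prime_card hk
    intro a b
    obtain ⟨g, hg⟩ := IsCyclic.exists_generator (α := Subgroup.closure ({x, y} : Set G))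
    obtain ⟨i, rfl⟩ := Subgroup.mem_zpowers_iff.mp (hg a)
    obtain ⟨j, rfl⟩ := Subgroup.mem_zpowers_iff.mp (hg b)
    exact ((Commute.refl g).zpow_zpow i j).eq
  · exfalso
    exact hcomm (IsPGroup.commutative_of_card_eq_prime_sq hk)
  · exact Subgroup.eq_of_le_of_card_ge hle (by rw [hE, hk])

/-- an element commuting with a nonabelian pair of `E` centralizes `E`. -/
theorem mem_centralizer_of_comm (E : Subgroup G) (hE : Nat.card E = p ^ 3) {x y : G}
    (hx : x ∈ E) (hy : y ∈ E) (hne : x * y ≠ y * x) {c : G} (hcx : c * x = x * c)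
    (hcy : c * y = y * c) : c ∈ Subgroup.centralizer (E : Set G) := by
  have hcl := closure_pair_eq (p := p) E hE hx hy hne
  have hle : Subgroup.closure ({x, y} : Set G) ≤ Subgroup.centralizer ({c} : Set G) := by
    rw [Subgroup.closure_le]
    intro z hz
    rw [SetLike.mem_coe, Subgroup.mem_centralizer_iff]
    intro d hd
    rw [Set.mem_singleton_iff.mp hd]
    rcases hz with rfl | rfl
    · exact hcx
    · exact hcy
  rw [Subgroup.mem_centralizer_iff]
  intro h hh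
  have h1 : h ∈ Subgroup.centralizer ({c} : Set G) := hle (hcl ▸ hh)
  rw [Subgroup.mem_centralizer_iff] at h1
  exact (h1 c rfl).symm

/-- membership in `zpowers w` gives a natural exponent. -/
theorem exists_pow_of_mem_zpowers {w v : G} (h : v ∈ Subgroup.zpowers w) : ∃ a : ℕ, v = w ^ a := by
  have := (mem_powers_iff_mem_zpowers).mpr h
  obtain ⟨a, ha⟩ := (Submonoid.mem_powers_iff _ _).mp this
  exact ⟨a, ha.symm⟩

end BkAux

open BkAux

variable {G : Type*} [Group G] [Finite G] {p : ℕ} [Fact p.Prime]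

theorem bk_f2_kernel (hp : p ≠ 2) (n : ℕ) (hG : Nat.card G = p ^ n)
    (E : Subgroup G) [E.Normal] (hE : Nat.card E = p ^ 3) (hexp : ∀ e ∈ E, e ^ p = 1)
    (x y w : G) (hx : x ∈ E) (hy : y ∈ E) (hw : w ∈ E) (hw1 : w ≠ 1)
    (hwc : w ∈ Subgroup.center G) (hxy : x * y * x⁻¹ * y⁻¹ = w)
    (hY : ∀ g : G, g * y * g⁻¹ * y⁻¹ ∈ Subgroup.zpowers w) :
    ∀ g : G, g * x * g⁻¹ * x⁻¹ ∈ Subgroup.zpowers w →
      ∃ e ∈ E, ∃ c ∈ Subgroup.centralizer (E : Set G), g = e * c := by
  intro g hg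
  have hwC : ∀ g : G, Commute w g := fun g => (Subgroup.mem_center_iff.mp hwc g).symm
  have hne : x * y ≠ y * x := by
    intro h
    apply hw1
    rw [← hxy, h]; group
  have hxy' : x * y * x⁻¹ = w * y := conj_eq_of_comm_eq hxy
  obtain ⟨a, ha⟩ := exists_pow_of_mem_zpowers hg
  obtain ⟨b, hb⟩ := exists_pow_of_mem_zpowers (hY g)
  have hgx : g * x * g⁻¹ = w ^ a * x := conj_eq_of_comm_eq ha
  have hgy : g * y * g⁻¹ = w ^ b * y := conj_eq_of_comm_eq hb
  -- the correcting element of `E`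
  obtain ⟨e0, he0⟩ : ∃ e0 : G, e0 = x ^ b * (y ^ a)⁻¹ := ⟨_, rfl⟩
  have he0E : e0 ∈ E := he0 ▸ E.mul_mem (E.pow_mem hx b) (E.inv_mem (E.pow_mem hy a))
  have he0y : e0 * y * e0⁻¹ = w ^ b * y := by
    calc e0 * y * e0⁻¹ = x ^ b * y * (x ^ b)⁻¹ := by rw [he0]; group
      _ = w ^ b * y := pow_conj_central hwC hxy' b
  have h1 : (y ^ a)⁻¹ * x * y ^ a = w ^ a * x := by
    have h2 := conj_pow_central hwC hxy' a
    have h3 : x * y ^ a = w ^ a * y ^ a * x := by
      calc x * y ^ a = x * y ^ a * x⁻¹ * x := by group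
        _ = w ^ a * y ^ a * x := by rw [h2]
    have hc : Commute (w ^ a) ((y ^ a)⁻¹) := (hwC _).pow_left a
    calc (y ^ a)⁻¹ * x * y ^ a = (y ^ a)⁻¹ * (x * y ^ a) := by group
      _ = (y ^ a)⁻¹ * (w ^ a * y ^ a * x) := by rw [h3]
      _ = ((y ^ a)⁻¹ * w ^ a) * y ^ a * x := by group
      _ = (w ^ a * (y ^ a)⁻¹) * y ^ a * x := by rw [hc.eq]
      _ = w ^ a * x := by group
  have he0x : e0 * x * e0⁻¹ = w ^ a * x := by
    calc e0 * x * e0⁻¹ = x ^ b * ((y ^ a)⁻¹ * x * y ^ a) * (x ^ b)⁻¹ := by rw [he0]; group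
      _ = x ^ b * (w ^ a * x) * (x ^ b)⁻¹ := by rw [h1]
      _ = w ^ a * (x ^ b * x * (x ^ b)⁻¹) := conj_central_mul hwC _ _ a
      _ = w ^ a * x := by
        congr 1
        rw [← pow_succ, pow_succ', mul_assoc, mul_inv_cancel, mul_one]
  refine ⟨e0, he0E, e0⁻¹ * g, ?_, by group⟩
  apply mem_centralizer_of_comm (p := p) E hE hx hy hne
  · apply commute_of_conj_eq
    calc e0⁻¹ * g * x * (e0⁻¹ * g)⁻¹ = e0⁻¹ * (g * x * g⁻¹) * e0 := by group
      _ = e0⁻¹ * (e0 * x * e0⁻¹) * e0 := by rw [hgx, he0x]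
      _ = x := by group
  · apply commute_of_conj_eq
    calc e0⁻¹ * g * y * (e0⁻¹ * g)⁻¹ = e0⁻¹ * (g * y * g⁻¹) * e0 := by group
      _ = e0⁻¹ * (e0 * y * e0⁻¹) * e0 := by rw [hgy, he0y]
      _ = y := by group

end Cfsg.Agent.Helper41
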