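import Mathlib
import Cfsg.Agent.Helper41.BkJ3a

/-!
# Piece J3b of CALL S3888 (helper65): `bk_f2_pow`
-/

set_option autoImplicit false

namespace Cfsg.Agent.Helper41

open BkAux

variable {G : Type*} [Group G] [Finite G] {p : ℕ} [Fact p.Prime]

omit [Finite G] [Fact p.Prime] in
/-- iterated conjugation when `g u g⁻¹ = w ^ c * u` with `w` central. -/
theorem BkAux.iter_conj {g x u w : G} (hwC : ∀ g : G, Commute w g) (c : ℕ)
    (hgx : g * x * g⁻¹ = u * x) (hgu : g * u * g⁻¹ = w ^ c * u) (m : ℕ) :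
    g ^ m * x * (g ^ m)⁻¹ = w ^ (c * ∑ k ∈ Finset.range m, k) * u ^ m * x := by
  induction m with
  | zero => simp
  | succ m ih =>
    have hcu : Commute (w ^ c) u := (hwC u).pow_left c
    calc g ^ (m + 1) * x * (g ^ (m + 1))⁻¹ = g * (g ^ m * x * (g ^ m)⁻¹) * g⁻¹ := by
          rw [pow_succ']; group
      _ = g * (w ^ (c * ∑ k ∈ Finset.range m, k) * (u ^ m * x)) * g⁻¹ := by
          rw [ih]; simp only [mul_assoc]
      _ = w ^ (c * ∑ k ∈ Finset.range m, k) * (g * (u ^ m * x) * g⁻¹) :=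
          conj_central_mul hwC _ _ _
      _ = w ^ (c * ∑ k ∈ Finset.range m, k) * ((g * u * g⁻¹) ^ m * (g * x * g⁻¹)) := by
          rw [conj_pow]; group
      _ = w ^ (c * ∑ k ∈ Finset.range m, k) * ((w ^ c) ^ m * u ^ m * (u * x)) := by
          rw [hgu, hgx, hcu.mul_pow]
      _ = w ^ (c * ∑ k ∈ Finset.range (m + 1), k) * u ^ (m + 1) * x := by
          rw [Finset.sum_range_succ, mul_add, pow_add, ← pow_mul, pow_succ u m]
          simp only [mul_assoc]

theorem bk_f2_pow (hp : p ≠ 2) (n : ℕ) (hG : Nat.card G = p ^ n)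
    (E : Subgroup G) [E.Normal] (hE : Nat.card E = p ^ 3) (hexp : ∀ e ∈ E, e ^ p = 1)
    (x y w : G) (hx : x ∈ E) (hy : y ∈ E) (hw : w ∈ E) (hw1 : w ≠ 1)
    (hwc : w ∈ Subgroup.center G) (hxy : x * y * x⁻¹ * y⁻¹ = w)
    (hY : ∀ g : G, g * y * g⁻¹ * y⁻¹ ∈ Subgroup.zpowers w)
    (hX : ∀ g : G, ∃ i j : ℕ, g * x * g⁻¹ * x⁻¹ = y ^ i * w ^ j) :
    ∀ g : G, g ^ p ∈ Subgroup.centralizer (E : Set G) := by
  intro g
  have hpp : p.Prime := Fact.out
  have hwC : ∀ g : G, Commute w g := fun g => (Subgroup.mem_center_iff.mp hwc g).symm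
  have hne : x * y ≠ y * x := by
    intro h
    apply hw1
    rw [← hxy, h]; group
  have hwp : w ^ p = 1 := hexp w hw
  obtain ⟨b, hb⟩ := exists_pow_of_mem_zpowers (hY g)
  have hgy : g * y * g⁻¹ = w ^ b * y := conj_eq_of_comm_eq hb
  obtain ⟨i, j, hij⟩ := hX g
  obtain ⟨u, hu⟩ : ∃ u : G, u = y ^ i * w ^ j := ⟨_, rfl⟩
  rw [← hu] at hij
  have hgx : g * x * g⁻¹ = u * x := conj_eq_of_comm_eq hij
  have huE : u ∈ E := hu ▸ E.mul_mem (E.pow_mem hy i) (E.pow_mem hw j)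
  have hgu : g * u * g⁻¹ = w ^ (b * i) * u := by
    have h1 : g * w ^ j * g⁻¹ = w ^ j := by
      have hc : Commute (w ^ j) g := (hwC g).pow_left j
      calc g * w ^ j * g⁻¹ = (w ^ j * g) * g⁻¹ := by rw [hc.eq]
        _ = w ^ j := by group
    have hcy : Commute (w ^ b) y := (hwC y).pow_left b
    calc g * u * g⁻¹ = (g * y * g⁻¹) ^ i * (g * w ^ j * g⁻¹) := by
          rw [hu, conj_pow]; group
      _ = (w ^ b) ^ i * y ^ i * w ^ j := by rw [hgy, h1, hcy.mul_pow]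
      _ = w ^ (b * i) * u := by rw [hu, ← pow_mul, mul_assoc]
  apply mem_centralizer_of_comm (p := p) E hE hx hy hne
  · apply commute_of_conj_eq
    rw [BkAux.iter_conj hwC (b * i) hgx hgu p, hexp u huE, mul_one]
    have hdvd : p ∣ ∑ k ∈ Finset.range p, k := by
      have h2 := Finset.sum_range_id_mul_two p
      have h3 : p ∣ (∑ k ∈ Finset.range p, k) * 2 := h2 ▸ Dvd.intro _ rfl
      rcases (Nat.Prime.dvd_mul hpp).mp h3 with h4 | h4
      · exact h4
      · exfalso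
        exact hp ((Nat.prime_dvd_prime_iff_eq hpp Nat.prime_two).mp h4)
    obtain ⟨q, hq⟩ := hdvd
    rw [hq, ← mul_assoc, mul_comm (b * i) p, mul_assoc, pow_mul, hwp, one_pow, one_mul]
  · apply commute_of_conj_eq
    have hwbC : ∀ g : G, Commute (w ^ b) g := fun g => (hwC g).pow_left b
    rw [pow_conj_central hwbC hgy p, ← pow_mul, mul_comm, pow_mul, hwp, one_pow, one_mul]

end Cfsg.Agent.Helper41
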