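import Mathlib
import Cfsg.Agent.Helper41.BkJ3a

/-!
# Piece J3c of CALL S3888 (helper65): `bk_f2_index`
-/

set_option autoImplicit false

namespace Cfsg.Agent.Helper41

open BkAux

variable {G : Type*} [Group G] [Finite G] {p : ℕ} [Fact p.Prime]

omit [Finite G] [Fact p.Prime] in
/-- one step: multiplying by `g` adds `a` to the `y`-exponent of `t x t⁻¹ x⁻¹` modulo `⟨w⟩`. -/
theorem BkAux.index_step {g t x y w : G} (hwC : ∀ g : G, Commute w g) (e a b' j k : ℕ)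
    (hgy : g * y * g⁻¹ = w ^ b' * y) (hgx : g * x * g⁻¹ = y ^ a * w ^ j * x)
    (ht : t * x * t⁻¹ = y ^ e * w ^ k * x) :
    ∃ k' : ℕ, (g * t) * x * (g * t)⁻¹ = y ^ (e + a) * w ^ k' * x := by
  refine ⟨b' * e + k + j, ?_⟩
  have h1 : g * w ^ k * g⁻¹ = w ^ k := by
    have hc : Commute (w ^ k) g := (hwC g).pow_left k
    calc g * w ^ k * g⁻¹ = (w ^ k * g) * g⁻¹ := by rw [hc.eq]
      _ = w ^ k := by group
  have hcy : Commute (w ^ b') y := (hwC y).pow_left b'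
  have c1 : ∀ z : G, Commute ((w ^ b') ^ e) z := fun z => ((hwC z).pow_left b').pow_left e
  have c2 : ∀ z : G, Commute (w ^ k) z := fun z => (hwC z).pow_left k
  calc (g * t) * x * (g * t)⁻¹ = g * (t * x * t⁻¹) * g⁻¹ := by group
    _ = g * (y ^ e * w ^ k * x) * g⁻¹ := by rw [ht]
    _ = (g * y * g⁻¹) ^ e * (g * w ^ k * g⁻¹) * (g * x * g⁻¹) := by rw [conj_pow]; group
    _ = (w ^ b') ^ e * y ^ e * w ^ k * (y ^ a * w ^ j * x) := by rw [hgy, h1, hgx, hcy.mul_pow]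
    _ = (y ^ e * (w ^ b') ^ e) * w ^ k * (y ^ a * w ^ j * x) := by rw [(c1 (y ^ e)).eq]
    _ = y ^ e * ((w ^ b') ^ e * w ^ k * y ^ a) * w ^ j * x := by simp only [mul_assoc]
    _ = y ^ e * (y ^ a * ((w ^ b') ^ e * w ^ k)) * w ^ j * x := by
        rw [((c1 (y ^ a)).mul_left (c2 (y ^ a))).eq]
    _ = y ^ (e + a) * w ^ (b' * e + k + j) * x := by
        rw [pow_add, pow_add, pow_add, pow_mul]
        simp only [mul_assoc]

theorem bk_f2_index (hp : p ≠ 2) (n : ℕ) (hG : Nat.card G = p ^ n)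
    (E : Subgroup G) [E.Normal] (hE : Nat.card E = p ^ 3) (hexp : ∀ e ∈ E, e ^ p = 1)
    (x y w : G) (hx : x ∈ E) (hy : y ∈ E) (hw : w ∈ E) (hw1 : w ≠ 1)
    (hwc : w ∈ Subgroup.center G) (hxy : x * y * x⁻¹ * y⁻¹ = w)
    (hY : ∀ g : G, g * y * g⁻¹ * y⁻¹ ∈ Subgroup.zpowers w)
    (hX : ∀ g : G, ∃ i j : ℕ, g * x * g⁻¹ * x⁻¹ = y ^ i * w ^ j)
    (hker : ∀ g : G, g * x * g⁻¹ * x⁻¹ ∈ Subgroup.zpowers w →
      ∃ e ∈ E, ∃ c ∈ Subgroup.centralizer (E : Set G), g = e * c)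
    (g h : G) (hg : ¬ ∃ e ∈ E, ∃ c ∈ Subgroup.centralizer (E : Set G), g = e * c) :
    ∃ i : ℕ, ∃ e ∈ E, ∃ c ∈ Subgroup.centralizer (E : Set G), g ^ i * h = e * c := by
  have hpp : p.Prime := Fact.out
  have hwC : ∀ g : G, Commute w g := fun g => (Subgroup.mem_center_iff.mp hwc g).symm
  have hyp : y ^ p = 1 := hexp y hy
  obtain ⟨a, j, haj⟩ := hX g
  have hpa : ¬ p ∣ a := by
    rintro ⟨q, rfl⟩
    apply hg
    apply hker g
    rw [haj, pow_mul, hyp, one_pow, one_mul]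
    exact Subgroup.pow_mem _ (Subgroup.mem_zpowers w) j
  have hgx : g * x * g⁻¹ = y ^ a * w ^ j * x := conj_eq_of_comm_eq haj
  obtain ⟨b', hb'⟩ := exists_pow_of_mem_zpowers (hY g)
  have hgy : g * y * g⁻¹ = w ^ b' * y := conj_eq_of_comm_eq hb'
  obtain ⟨b, j', hbj⟩ := hX h
  have hhx : h * x * h⁻¹ = y ^ b * w ^ j' * x := conj_eq_of_comm_eq hbj
  have key : ∀ m : ℕ, ∃ k : ℕ, (g ^ m * h) * x * (g ^ m * h)⁻¹ = y ^ (b + m * a) * w ^ k * x := by
    intro m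
    induction m with
    | zero => exact ⟨j', by simpa using hhx⟩
    | succ m ih =>
      obtain ⟨k, hk⟩ := ih
      obtain ⟨k', hk'⟩ := BkAux.index_step hwC (b + m * a) a b' j k hgy hgx hk
      refine ⟨k', ?_⟩
      have e1 : g ^ (m + 1) * h = g * (g ^ m * h) := by rw [pow_succ', mul_assoc]
      have e2 : b + (m + 1) * a = b + m * a + a := by ring
      rw [e1, e2]
      exact hk'
  -- choose `m` with `p ∣ b + m * a`
  have ha0 : (a : ZMod p) ≠ 0 := by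
    intro h0
    exact hpa ((ZMod.natCast_eq_zero_iff a p).mp h0)
  obtain ⟨m, hm⟩ : ∃ m : ℕ, p ∣ b + m * a := by
    refine ⟨((-(b : ZMod p)) * (a : ZMod p)⁻¹).val, ?_⟩
    rw [← ZMod.natCast_eq_zero_iff]
    push_cast
    rw [ZMod.natCast_zmod_val]
    field_simp
    ring
  obtain ⟨k, hk⟩ := key m
  obtain ⟨q, hq⟩ := hm
  rw [hq, pow_mul, hyp, one_pow, one_mul] at hk
  obtain ⟨e, he, c, hc, hec⟩ := hker (g ^ m * h) (by
    rw [comm_eq_of_conj_eq hk]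
    exact Subgroup.pow_mem _ (Subgroup.mem_zpowers w) k)
  exact ⟨m, e, he, c, hc, hec⟩

end Cfsg.Agent.Helper41
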