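import Cfsg.Agent.Helper41.DkSol3g
import Cfsg.Agent.Helper5.SLCard

set_option autoImplicit false

/-!
# Subgroups of `SL₂(13)`: orders and maximality (helper41)

For a field `F` with 13 elements: a proper subgroup of `SL₂(F)` containing the centre has order
dividing `156`, `24` or `28` (`ord13`); such subgroups of order exactly `156`, `24`, `28` are
maximal (`max13`).
-/

namespace Cfsg.Agent.Helper41.Dk

open Cfsg.Agent.Helper41 Matrix

theorem arith13a (a b : ℕ) (ha : a = 156 ∨ a = 24 ∨ a = 28) (hab : a ∣ b) (hne : a ≠ b)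
    (hb : b ∣ 156 ∨ b ∣ 24 ∨ b ∣ 28) : False := by
  have hb0 : 0 < b := by
    rcases hb with h | h | h <;> exact Nat.pos_of_dvd_of_pos h (by norm_num)
  have hb1 : b ≤ 156 := by
    rcases hb with h | h | h
    · exact Nat.le_of_dvd (by norm_num) h
    · have := Nat.le_of_dvd (by norm_num) h; omega
    · have := Nat.le_of_dvd (by norm_num) h; omega
  obtain ⟨c, rfl⟩ := hab
  rcases ha with rfl | rfl | rfl
  · have hc : c = 1 := by omega
    subst hc
    exact hne rfl
  · have hc : c ≤ 6 := by omega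
    interval_cases c <;> simp_all
  · have hc : c ≤ 5 := by omega
    interval_cases c <;> simp_all

theorem arith13b (m : ℕ) (hm : m ∣ 156 ∨ m ∣ 24 ∨ m ∣ 28) (h : 156 ∣ m ∨ 24 ∣ m ∨ 28 ∣ m) :
    m = 156 ∨ m = 24 ∨ m = 28 := by
  have hb0 : 0 < m := by
    rcases hm with h | h | h <;> exact Nat.pos_of_dvd_of_pos h (by norm_num)
  have hb1 : m ≤ 156 := by
    rcases hm with h | h | h
    · exact Nat.le_of_dvd (by norm_num) h
    · have := Nat.le_of_dvd (by norm_num) h; omega
    · have := Nat.le_of_dvd (by norm_num) h; omega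
  rcases h with ⟨c, rfl⟩ | ⟨c, rfl⟩ | ⟨c, rfl⟩
  · left; omega
  · have hc : c ≤ 6 := by omega
    interval_cases c <;> simp_all
  · have hc : c ≤ 5 := by omega
    interval_cases c <;> simp_all

theorem arith13c (m : ℕ) (hm : m ∣ 156 ∨ m ∣ 24 ∨ m ∣ 28) (h8 : 8 ∣ m) (hne : m ≠ 8) :
    m = 156 ∨ m = 24 ∨ m = 28 := by
  have hb0 : 0 < m := by
    rcases hm with h | h | h <;> exact Nat.pos_of_dvd_of_pos h (by norm_num)
  have hb1 : m ≤ 156 := by
    rcases hm with h | h | h
    · exact Nat.le_of_dvd (by norm_num) h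
    · have := Nat.le_of_dvd (by norm_num) h; omega
    · have := Nat.le_of_dvd (by norm_num) h; omega
  obtain ⟨c, rfl⟩ := h8
  have hc : c ≤ 19 := by omega
  interval_cases c <;> simp_all

variable {F : Type*} [Field F]

local notation "SL2" => Matrix.SpecialLinearGroup (Fin 2) F

theorem charP13 [Fintype F] (hF : Fintype.card F = 13) : CharP F 13 := by
  apply (CharP.charP_iff_prime_eq_zero (by norm_num : Nat.Prime 13)).mpr
  have h := Nat.cast_card_eq_zero F
  rw [hF] at h
  exact h

theorem two_nonsq13 [Fintype F] (hF : Fintype.card F = 13) : ∀ a : F, a ^ 2 ≠ 2 := by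
  haveI := charP13 hF
  intro a ha
  obtain ⟨y, rfl⟩ := (ZMod.castHom_bijective F hF).2 a
  have h1 : ZMod.castHom (dvd_refl 13) F (y ^ 2) = ZMod.castHom (dvd_refl 13) F 2 := by
    rw [map_pow, ha, map_ofNat]
  have h2 := (ZMod.castHom_bijective F hF).1 h1
  have key : ∀ z : ZMod 13, z ^ 2 ≠ 2 := by decide
  exact key y h2

theorem exists_nat13 [Fintype F] (hF : Fintype.card F = 13) (x : F) : ∃ k : ℕ, (k : F) = x := by
  haveI := charP13 hF
  obtain ⟨y, rfl⟩ := (ZMod.castHom_bijective F hF).2 x
  refine ⟨y.val, ?_⟩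
  rw [← map_natCast (ZMod.castHom (dvd_refl 13) F), ZMod.natCast_zmod_val]

theorem two_ne_zero13 [Fintype F] (hF : Fintype.card F = 13) : (2 : F) ≠ 0 := by
  haveI := charP13 hF
  intro h
  have h1 : ((2 : ℕ) : F) = 0 := by exact_mod_cast h
  have h2 := (CharP.cast_eq_zero_iff F 13 2).mp h1
  omega

theorem subfield_top13 [Fintype F] (hF : Fintype.card F = 13) (K1 : Subfield F) : K1 = ⊤ := by
  classical
  rcases subfield_cases K1 with h | h
  · exact h
  · exfalso
    haveI : Fintype K1 := Fintype.ofFinite _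
    have c2 : Fintype.card F = Fintype.card K1 ^ Module.finrank K1 F :=
      Module.card_eq_pow_finrank
    have hr : 2 ≤ Fintype.card K1 := Fintype.one_lt_card
    rw [Nat.card_eq_fintype_card, hF] at h
    rw [hF] at c2
    have hr0 : Module.finrank K1 F ≠ 0 := by
      intro h0
      rw [h0, pow_zero] at c2
      omega
    have hdvd : Fintype.card K1 ∣ 13 := by
      rw [c2]; exact dvd_pow_self _ hr0
    rcases (Nat.dvd_prime (by norm_num : Nat.Prime 13)).mp hdvd with h1 | h1
    · omega
    · rw [h1] at h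
      omega

theorem card_SL13 [Fintype F] (hF : Fintype.card F = 13) : Nat.card SL2 = 2184 := by
  rw [Cfsg.Agent.Helper5.card_SL2, hF]
  norm_num

theorem card_center13 [Fintype F] (hF : Fintype.card F = 13) :
    Nat.card (Subgroup.center SL2) = 2 := by
  haveI := charP13 hF
  haveI : Fact (Nat.Prime 13) := ⟨by norm_num⟩
  rw [card_center_gcd 13, hF]
  rfl

/-- the orders of proper subgroups of `SL₂(13)` containing the centre. -/
theorem ord13 [Fintype F] (hF : Fintype.card F = 13) (M : Subgroup SL2)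
    (hZ : Subgroup.center SL2 ≤ M) (hM : M ≠ ⊤) :
    Nat.card M ∣ 156 ∨ Nat.card M ∣ 24 ∨ Nat.card M ∣ 28 := by
  classical
  haveI := charP13 hF
  haveI : Fact (Nat.Prime 13) := ⟨by norm_num⟩
  have hG := card_SL13 hF
  have hdvdG : Nat.card M ∣ 2184 := by rw [← hG]; exact Subgroup.card_subgroup_dvd_card M
  have hidx := card_of_index M hZ
  rw [card_center13 hF] at hidx
  rcases dickson_subgroup 13 M hZ with hB | hT | ⟨h12, -⟩ | ⟨h24, -⟩ | ⟨h60, -⟩ | ⟨Q, hQ, K0, hS⟩
  · left
    obtain ⟨v, hv, hfix⟩ := hB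
    obtain ⟨Q0, hQ0⟩ := exists_conj_borel v hv
    have hle : M ≤ (Bor : Subgroup SL2).map (MulAut.conj Q0).toMonoidHom := by
      intro g hg
      refine ⟨Q0⁻¹ * g * Q0, hQ0 g (hfix ⟨g, hg⟩), ?_⟩
      show Q0 * (Q0⁻¹ * g * Q0) * Q0⁻¹ = g
      group
    have h1 := Subgroup.card_dvd_of_le hle
    rw [Subgroup.card_map_of_injective (MulAut.conj Q0).injective, card_Bor, hF] at h1
    exact h1
  · rcases card_dvd_of_T 13 M hT with h | h
    · right; right; rw [hF] at h; exact h
    · right; left; rw [hF] at h; exact h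
  · right; left
    rw [h12] at hidx
    rw [hidx]
  · exfalso
    rw [h24] at hidx
    rw [hidx] at hdvdG
    omega
  · exfalso
    rw [h60] at hidx
    rw [hidx] at hdvdG
    omega
  · exfalso
    have hK := subfield_top13 hF K0
    rcases hS with h1 | ⟨lam, hlam, -, -⟩
    · apply hM
      apply eq_top_of_range_top M Q hQ
      intro g
      rw [h1, hK]
      intro i j
      trivial
    · rw [hK] at hlam
      exact hlam trivial

/-- subgroups of `SL₂(13)` of orders `156`, `24`, `28` containing the centre are maximal. -/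
theorem max13 [Fintype F] (hF : Fintype.card F = 13) (M : Subgroup SL2)
    (hZ : Subgroup.center SL2 ≤ M)
    (hc : Nat.card M = 156 ∨ Nat.card M = 24 ∨ Nat.card M = 28) : IsCoatom M := by
  have hG := card_SL13 hF
  refine ⟨?_, ?_⟩
  · intro h
    rw [h, Subgroup.card_top, hG] at hc
    omega
  · intro K hK
    by_contra hKt
    have h1 := ord13 hF K (hZ.trans hK.le) hKt
    have h2 := Subgroup.card_dvd_of_le hK.le
    have h3 : Nat.card M ≠ Nat.card K := by
      intro h
      exact hK.ne (Subgroup.eq_of_le_of_card_ge hK.le h.ge)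
    exact arith13a _ _ hc h2 h3 h1

end Cfsg.Agent.Helper41.Dk
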