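import Cfsg.Agent.Helper41.Dk13

set_option autoImplicit false

/-!
# Normalisers of subgroups of `SL₂(13)` are maximal (helper41)

`core13`: for a non-normal subgroup `Ht` of `SL₂(F)`, `|F| = 13`, containing the centre, the
normaliser of `Ht` is a maximal subgroup.
-/

namespace Cfsg.Agent.Helper41.Dk

open Cfsg.Agent.Helper41 Matrix

variable {F : Type*} [Field F]

local notation "SL2" => Matrix.SpecialLinearGroup (Fin 2) F

/-- the torus normaliser normalises every subgroup of the torus. -/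
theorem NT_le_normalizer (t : SL2) (htZ : t ∉ Subgroup.center SL2) (Ht : Subgroup SL2)
    (hle : Ht ≤ cen t) : NT t ≤ Subgroup.normalizer (Ht : Set SL2) := by
  rw [Subgroup.le_normalizer_iff]
  intro g hg x hx
  rcases hg with h1 | h1
  · have hc : Commute g x :=
      sl2_CA.cen_comm htZ (mem_cen.mpr (commute_of_conj h1)) (hle hx)
    have h2 : g * x * g⁻¹ = x := by rw [hc.eq]; group
    rw [h2]; exact hx
  · have h2 := inv_of_comm t x g htZ (mem_cen.mp (hle hx)) h1
    rw [h2]; exact Ht.inv_mem hx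

/-- every regular semisimple element is inverted by some element. -/
theorem exists_inv_regular [Fintype F] (p : ℕ) [Fact p.Prime] [CharP F p]
    (hodd : Fintype.card F % 2 = 1) (x : SL2) (hx : x ∉ Subgroup.center SL2)
    (ht : tr x ^ 2 ≠ 4) : ∃ w : SL2, w * x * w⁻¹ = x⁻¹ := by
  by_cases hns : ∀ ρ : F, ρ ^ 2 + tr x * ρ + 1 ≠ 0
  · exact exists_inv_nonsplit p x hx ht hns
  · push Not at hns
    obtain ⟨ρ0, hρ0⟩ := hns
    obtain ⟨ρ, hρ⟩ : ∃ ρ : F, ρ ^ 2 - tr x * ρ + 1 = 0 := ⟨-ρ0, by linear_combination hρ0⟩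
    have hρ0' : ρ ≠ 0 := by
      rintro rfl
      simp at hρ
    obtain ⟨u, hu⟩ : ∃ u : Fˣ, (u : F) = ρ := ⟨Units.mk0 ρ hρ0', rfl⟩
    have huinv : ((u⁻¹ : Fˣ) : F) = ρ⁻¹ := by rw [Units.val_inv_eq_inv_val, hu]
    have hρρ : ρ * ρ⁻¹ = 1 := mul_inv_cancel₀ hρ0'
    have htrD : tr (Dg u : SL2) = ρ + ρ⁻¹ := by
      rw [tr_eq, Dg_e00, Dg_e11, hu, huinv]
    have htrg : tr x = ρ + ρ⁻¹ := by
      linear_combination (-ρ⁻¹) * hρ + (ρ - tr x) * hρρ
    have hne : ρ - ρ⁻¹ ≠ 0 := by
      intro h0
      apply ht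
      rw [htrg]
      linear_combination (ρ - ρ⁻¹) * h0 + 4 * hρρ
    have hDZ : (Dg u : SL2) ∉ Subgroup.center SL2 := by
      rw [center_iff_entries, Dg_e00, Dg_e11, hu, huinv]
      rintro ⟨-, -, h4⟩
      exact hne (sub_eq_zero.mpr h4)
    obtain ⟨U, hU⟩ := conj_of_trace_eq (Dg u) x ((pmk_ne_one_iff _).mpr hDZ)
      ((pmk_ne_one_iff _).mpr hx)
      (by
        show tr x = tr (Dg u : SL2)
        rw [htrg, htrD])
      (fun c _ => norm_univ_odd hodd _ (by
        show tr (Dg u : SL2) ^ 2 ≠ 4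
        rw [htrD, ← htrg]
        exact ht) c)
    refine ⟨U * wS * U⁻¹, ?_⟩
    rw [← hU]
    calc U * wS * U⁻¹ * (U * Dg u * U⁻¹) * (U * wS * U⁻¹)⁻¹
        = U * (wS * Dg u * wS⁻¹) * U⁻¹ := by group
      _ = (U * Dg u * U⁻¹)⁻¹ := by rw [wS_conj]; group

theorem card_NT13 [Fintype F] (hF : Fintype.card F = 13) (t : SL2)
    (htZ : t ∉ Subgroup.center SL2) (ht : tr t ^ 2 ≠ 4) :
    Nat.card (NT t) = 24 ∨ Nat.card (NT t) = 28 := by
  haveI := charP13 hF
  haveI : Fact (Nat.Prime 13) := ⟨by norm_num⟩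
  obtain ⟨w, hw⟩ := exists_inv_regular 13 (by rw [hF]) t htZ ht
  have hx2 : t * t ≠ 1 := fun h => ht (tr_sq_of_mul_self t h)
  rw [card_NT_of_inv t w hw hx2]
  rcases card_cen_cases 13 t htZ ht with h | h
  · left; rw [h, hF]
  · right; rw [h, hF]

/-- no elements of order four in `PSL₂(F)` when `2` is a non-square. -/
theorem no_order_four' (hns : ∀ a : F, a ^ 2 ≠ 2) (g : SL2)
    (h : g ^ 4 ∈ Subgroup.center SL2) : g ^ 2 ∈ Subgroup.center SL2 := by
  have e4 : g ^ 4 = (g * g) * (g * g) := by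
    rw [show (4 : ℕ) = 2 + 2 from rfl, pow_add, pow_two]
  have e2 : g ^ 2 = g * g := pow_two g
  rw [e4] at h
  rw [e2]
  have hd := sl2_det g
  obtain ⟨k, hk⟩ : ∃ k : SL2, k = g * g := ⟨_, rfl⟩
  have htr : k.1 0 0 + k.1 1 1 ≠ 0 := by
    intro h0
    rw [hk, mul_e00, mul_e11] at h0
    apply hns (tr g)
    rw [tr_eq]
    linear_combination h0 + 2 * hd
  rw [← hk] at h ⊢
  rw [center_iff_entries] at h ⊢
  obtain ⟨h10, h01, h00⟩ := h
  rw [mul_e10] at h10
  rw [mul_e01] at h01
  rw [mul_e00, mul_e11] at h00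
  refine ⟨?_, ?_, ?_⟩
  · have : k.1 1 0 * (k.1 0 0 + k.1 1 1) = 0 := by linear_combination h10
    exact (mul_eq_zero.mp this).resolve_right htr
  · have : k.1 0 1 * (k.1 0 0 + k.1 1 1) = 0 := by linear_combination h01
    exact (mul_eq_zero.mp this).resolve_right htr
  · have : (k.1 0 0 - k.1 1 1) * (k.1 0 0 + k.1 1 1) = 0 := by linear_combination h00
    exact sub_eq_zero.mp ((mul_eq_zero.mp this).resolve_right htr)

/-- two anticommuting elements of trace zero are cyclically permuted (with their product) by an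
element of `SL₂`. -/
theorem q8_norm (h2 : (2 : F) ≠ 0) (i j : SL2) (hi : tr i = 0) (hj : tr j = 0)
    (hij : tr (i * j) = 0) : ∃ w : SL2, w * i * w⁻¹ = j ∧ w * j * w⁻¹ = i * j := by
  have sA := sq_of_tr_zero i hi
  have sB := sq_of_tr_zero j hj
  have hanti := anti_of_tr i j hi hj
  rw [hij, zero_smul] at hanti
  have hBA : j.1 * i.1 = -(i.1 * j.1) := eq_neg_of_add_eq_zero_right hanti
  have e1 : i.1 * j.1 * i.1 = j.1 := by
    rw [Matrix.mul_assoc, hBA, Matrix.mul_neg, ← Matrix.mul_assoc, sA, Matrix.neg_mul,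
      Matrix.one_mul, neg_neg]
  have e2 : j.1 * i.1 * j.1 = i.1 := by
    rw [hBA, Matrix.neg_mul, Matrix.mul_assoc, sB, Matrix.mul_neg, Matrix.mul_one, neg_neg]
  have d1 : ∀ k : SL2, tr k = 0 → (1 + k.1).det = 2 := by
    intro k hk
    have hd := sl2_det k
    rw [tr_eq] at hk
    rw [Matrix.det_fin_two]
    simp only [Matrix.add_apply, Matrix.one_apply_eq, Matrix.one_apply_ne, ne_eq, one_ne_zero,
      not_false_eq_true, zero_ne_one, zero_add]
    linear_combination hd + hk
  have hdet : ((2⁻¹ : F) • ((1 + i.1) * (1 + j.1))).det = 1 := by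
    rw [Matrix.det_smul, Matrix.det_mul, d1 i hi, d1 j hj, Fintype.card_fin]
    field_simp
  obtain ⟨w, hw⟩ : ∃ w : SL2, w.1 = (2⁻¹ : F) • ((1 + i.1) * (1 + j.1)) := ⟨⟨_, hdet⟩, rfl⟩
  have key1 : (1 + i.1) * (1 + j.1) * i.1 = j.1 * ((1 + i.1) * (1 + j.1)) := by
    calc (1 + i.1) * (1 + j.1) * i.1
        = i.1 + j.1 * i.1 + i.1 * i.1 + i.1 * j.1 * i.1 := by noncomm_ring
      _ = j.1 + j.1 * j.1 + j.1 * i.1 + j.1 * i.1 * j.1 := by rw [sA, sB, e1, e2]; abel
      _ = j.1 * ((1 + i.1) * (1 + j.1)) := by noncomm_ring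
  have key2 : (1 + i.1) * (1 + j.1) * j.1 = i.1 * j.1 * ((1 + i.1) * (1 + j.1)) := by
    have e3 : i.1 * j.1 * i.1 * j.1 = -1 := by rw [e1, sB]
    calc (1 + i.1) * (1 + j.1) * j.1
        = j.1 + j.1 * j.1 + i.1 * j.1 + i.1 * (j.1 * j.1) := by noncomm_ring
      _ = i.1 * j.1 + i.1 * (j.1 * j.1) + i.1 * j.1 * i.1 + i.1 * j.1 * i.1 * j.1 := by
          rw [e3, e1, sB]; abel
      _ = i.1 * j.1 * ((1 + i.1) * (1 + j.1)) := by noncomm_ring
  refine ⟨w, ?_, ?_⟩
  · apply mul_inv_eq_of_eq_mul
    apply Subtype.ext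
    rw [Matrix.SpecialLinearGroup.coe_mul, Matrix.SpecialLinearGroup.coe_mul, hw,
      Matrix.smul_mul, Matrix.mul_smul, key1]
  · apply mul_inv_eq_of_eq_mul
    apply Subtype.ext
    rw [Matrix.SpecialLinearGroup.coe_mul, Matrix.SpecialLinearGroup.coe_mul,
      Matrix.SpecialLinearGroup.coe_mul, hw, Matrix.smul_mul, Matrix.mul_smul, key2]

/-- commutators of upper triangular matrices are unipotent. -/
theorem comm_Bor (a b : SL2) (ha : a ∈ (Bor : Subgroup SL2)) (hb : b ∈ (Bor : Subgroup SL2)) :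
    ∃ s : F, a * b * a⁻¹ * b⁻¹ = Ux s := by
  rw [mem_Bor] at ha hb
  have hda := sl2_det a
  have hdb := sl2_det b
  rw [ha] at hda
  rw [hb] at hdb
  have c10 : (a * b * a⁻¹ * b⁻¹).1 1 0 = 0 := by
    simp only [mul_e00, mul_e01, mul_e10, mul_e11, inv_e00, inv_e01, inv_e10, inv_e11, ha, hb]
    ring
  have c00 : (a * b * a⁻¹ * b⁻¹).1 0 0 = 1 := by
    simp only [mul_e00, mul_e01, mul_e10, mul_e11, inv_e00, inv_e01, inv_e10, inv_e11, ha, hb]
    linear_combination (b.1 0 0 * b.1 1 1) * hda + hdb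
  have c11 : (a * b * a⁻¹ * b⁻¹).1 1 1 = 1 := by
    simp only [mul_e00, mul_e01, mul_e10, mul_e11, inv_e00, inv_e01, inv_e10, inv_e11, ha, hb]
    linear_combination (b.1 0 0 * b.1 1 1) * hda + hdb
  refine ⟨(a * b * a⁻¹ * b⁻¹).1 0 1, ?_⟩
  apply sl_ext
  · rw [c00, Ux_e00]
  · rw [Ux_e01]
  · rw [c10, Ux_e10]
  · rw [c11, Ux_e11]

section core

variable [Fintype F]

theorem good_of_le (hF : Fintype.card F = 13) (Ht : Subgroup SL2)
    (hZ : Subgroup.center SL2 ≤ Ht) (hn : ¬ Ht.Normal) (L : Subgroup SL2) (hL : L ≤ Subgroup.normalizer (Ht : Set SL2))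
    (hc : Nat.card L = 156 ∨ Nat.card L = 24 ∨ Nat.card L = 28) :
    IsCoatom (Subgroup.normalizer (Ht : Set SL2)) := by
  have hZM : Subgroup.center SL2 ≤ Subgroup.normalizer (Ht : Set SL2) :=
    hZ.trans (Subgroup.le_normalizer (H := Ht))
  have hM : Subgroup.normalizer (Ht : Set SL2) ≠ ⊤ := fun h =>
    hn (Subgroup.normalizer_eq_top_iff.mp h)
  have h1 := ord13 hF _ hZM hM
  have h2 := Subgroup.card_dvd_of_le hL
  apply max13 hF _ hZM
  apply arith13b _ h1
  rcases hc with h | h | h
  · left; rw [← h]; exact h2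
  · right; left; rw [← h]; exact h2
  · right; right; rw [← h]; exact h2

theorem core13_T (hF : Fintype.card F = 13) (Ht : Subgroup SL2)
    (hZ : Subgroup.center SL2 ≤ Ht) (hn : ¬ Ht.Normal) (t : SL2) (htH : t ∈ Ht) (htZ : t ∉ Subgroup.center SL2) (ht4 : tr t ^ 2 ≠ 4)
    (hNT : Ht ≤ NT t) : IsCoatom (Subgroup.normalizer (Ht : Set SL2)) := by
  classical
  have h2 := two_ne_zero13 hF
  have hcN := card_NT13 hF t htZ ht4
  by_cases hle : Ht ≤ cen t
  · exact good_of_le hF Ht hZ hn (NT t) (NT_le_normalizer t htZ Ht hle)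
      (by rcases hcN with h | h
          · right; left; exact h
          · right; right; exact h)
  · obtain ⟨h, hhH, hhc⟩ : ∃ h ∈ Ht, h ∉ cen t := by
      by_contra hc
      push Not at hc
      exact hle hc
    have hinv : h * t * h⁻¹ = t⁻¹ := conj_of_mem_NT (hNT hhH) hhc
    have htrh : tr h = 0 := inv_tr_zero h t htZ hinv
    have hhZ : h ∉ Subgroup.center SL2 := not_center_of_tr0 h2 h htrh
    have hh2 : h * h ≠ 1 := by
      intro h1
      have := tr_sq_of_mul_self h h1
      rw [htrh] at this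
      have h5 : (4 : F) = 0 := by linear_combination -this
      apply h2
      have h6 : (2 : F) * 2 = 0 := by linear_combination h5
      exact mul_self_eq_zero.mp h6
    have hh4 : h ^ 4 = 1 := by
      have s := sq_of_tr_zero h htrh
      apply Subtype.ext
      rw [show (4 : ℕ) = 2 + 2 from rfl, pow_add, pow_two, Matrix.SpecialLinearGroup.coe_mul,
        Matrix.SpecialLinearGroup.coe_mul, s]
      simp
    have hord : orderOf h = 4 := by
      have := orderOf_eq_prime_pow (p := 2) (n := 1) (x := h)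
        (by rw [pow_one, pow_two]; exact hh2) (by norm_num; exact hh4)
      rw [this]; norm_num
    have h4 : 4 ∣ Nat.card Ht := by
      rw [← hord, ← Subgroup.orderOf_mk h hhH]
      exact orderOf_dvd_natCard _
    have hna : Nat.card Ht ≠ 4 := by
      intro h5
      haveI : Fact (Nat.Prime 2) := ⟨Nat.prime_two⟩
      have hcomm := IsPGroup.commutative_of_card_eq_prime_sq (p := 2) (G := Ht) (by rw [h5]; norm_num)
        ⟨h, hhH⟩ ⟨t, htH⟩
      apply hhc
      rw [mem_cen]
      exact congrArg Subtype.val hcomm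
    have hdv : Nat.card Ht ∣ Nat.card (NT t) := Subgroup.card_dvd_of_le hNT
    have hpos : 0 < Nat.card Ht := Nat.card_pos
    have hcases : Nat.card Ht = 24 ∨ Nat.card Ht = 28 ∨
        (Nat.card Ht = 12 ∧ Nat.card (NT t) = 24) ∨ Nat.card Ht = 8 := by
      rcases hcN with h5 | h5
      · rw [h5] at hdv
        have hle24 := Nat.le_of_dvd (by norm_num) hdv
        obtain ⟨c, hc⟩ := h4
        rw [hc] at hdv hna hpos hle24 ⊢
        have hc6 : c ≤ 6 := by omega
        interval_cases c <;> simp_all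
      · rw [h5] at hdv
        have hle28 := Nat.le_of_dvd (by norm_num) hdv
        obtain ⟨c, hc⟩ := h4
        rw [hc] at hdv hna hpos hle28 ⊢
        have hc6 : c ≤ 7 := by omega
        interval_cases c <;> simp_all
    rcases hcases with h5 | h5 | ⟨h5, h6⟩ | h5
    · exact good_of_le hF Ht hZ hn Ht (Subgroup.le_normalizer (H := Ht)) (Or.inr (Or.inl h5))
    · exact good_of_le hF Ht hZ hn Ht (Subgroup.le_normalizer (H := Ht)) (Or.inr (Or.inr h5))
    · have hidx : (Ht.subgroupOf (NT t)).index = 2 := by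
        have h7 := Subgroup.card_mul_index (Ht.subgroupOf (NT t))
        rw [Nat.card_congr (Subgroup.subgroupOfEquivOfLe hNT).toEquiv, h5, h6] at h7
        omega
      haveI := Subgroup.normal_of_index_eq_two hidx
      exact good_of_le hF Ht hZ hn (NT t) (Subgroup.le_normalizer_of_normal_subgroupOf hNT)
        (Or.inr (Or.inl h6))
    · -- the quaternion case
      have hns := two_nonsq13 hF
      have ht8 : t ^ 8 = 1 := by
        have h7 : (⟨t, htH⟩ : Ht) ^ Nat.card Ht = 1 := pow_card_eq_one'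
        rw [h5] at h7
        exact congrArg Subtype.val h7
      have ht2 : t * t ∈ Subgroup.center SL2 := by
        have h7 : (t ^ 2) ^ 4 ∈ Subgroup.center SL2 := by
          rw [← pow_mul]; norm_num; rw [ht8]; exact Subgroup.one_mem _
        have h8 := no_order_four' hns (t ^ 2) h7
        rw [← pow_mul] at h8
        norm_num at h8
        have h9 := no_order_four' hns t h8
        rw [pow_two] at h9
        exact h9
      have htr0 : tr t = 0 := (sq_center t ht2).resolve_left htZ
      have hth : t * h ∈ Ht := Ht.mul_mem htH hhH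
      have hthc : t * h ∉ cen t := by
        intro hc
        apply hhc
        have : h = t⁻¹ * (t * h) := by group
        rw [this]
        exact (cen t).mul_mem ((cen t).inv_mem (mem_cen.mpr (Commute.refl t))) hc
      have hinv2 : (t * h) * t * (t * h)⁻¹ = t⁻¹ := conj_of_mem_NT (hNT hth) hthc
      have htrth : tr (t * h) = 0 := inv_tr_zero (t * h) t htZ hinv2
      obtain ⟨w, hw1, hw2⟩ := q8_norm h2 t h htr0 htrh htrth
      -- `Ht` is generated by `t` and `h`
      have hcl : Subgroup.closure ({t, h} : Set SL2) = Ht := by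
        have hle' : Subgroup.closure ({t, h} : Set SL2) ≤ Ht := by
          rw [Subgroup.closure_le]
          intro x hx
          rcases hx with rfl | rfl
          · exact htH
          · exact hhH
        apply Subgroup.eq_of_le_of_card_ge hle'
        rw [h5]
        have htK : t ∈ Subgroup.closure ({t, h} : Set SL2) :=
          Subgroup.subset_closure (Set.mem_insert _ _)
        have hhK : h ∈ Subgroup.closure ({t, h} : Set SL2) :=
          Subgroup.subset_closure (Set.mem_insert_of_mem _ rfl)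
        have h4K : 4 ∣ Nat.card (Subgroup.closure ({t, h} : Set SL2)) := by
          rw [← hord, ← Subgroup.orderOf_mk h hhK]
          exact orderOf_dvd_natCard _
        have hnaK : Nat.card (Subgroup.closure ({t, h} : Set SL2)) ≠ 4 := by
          intro h7
          haveI : Fact (Nat.Prime 2) := ⟨Nat.prime_two⟩
          have hcomm := IsPGroup.commutative_of_card_eq_prime_sq (p := 2)
            (G := Subgroup.closure ({t, h} : Set SL2)) (by rw [h7]; norm_num) ⟨h, hhK⟩ ⟨t, htK⟩
          apply hhc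
          rw [mem_cen]
          exact congrArg Subtype.val hcomm
        obtain ⟨c, hc⟩ := h4K
        have hc0 : 0 < Nat.card (Subgroup.closure ({t, h} : Set SL2)) := Nat.card_pos
        omega
      have hwmap : ∀ x ∈ Ht, w * x * w⁻¹ ∈ Ht := by
        intro x hx
        rw [← hcl] at hx
        have hle' : Subgroup.closure ({t, h} : Set SL2) ≤
            Ht.comap (MulAut.conj w).toMonoidHom := by
          rw [Subgroup.closure_le]
          intro y hy
          rcases hy with rfl | rfl
          · show w * y * w⁻¹ ∈ Ht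
            rw [hw1]; exact hhH
          · show w * y * w⁻¹ ∈ Ht
            rw [hw2]; exact hth
        exact hle' hx
      have hwN : w ∈ Subgroup.normalizer (Ht : Set SL2) := by
        rw [Subgroup.mem_normalizer_iff_map_conj_eq]
        apply Subgroup.eq_of_le_of_card_ge
        · rintro y ⟨x, hx, rfl⟩
          exact hwmap x hx
        · rw [Subgroup.card_map_of_injective (MulAut.conj w).injective]
      have hwH : w ∉ Ht := by
        intro hwH
        apply hhc
        rcases hNT hwH with h7 | h7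
        · rw [← hw1, h7]; exact mem_cen.mpr (Commute.refl t)
        · rw [← hw1, h7]
          exact (cen t).inv_mem (mem_cen.mpr (Commute.refl t))
      have hZM : Subgroup.center SL2 ≤ Subgroup.normalizer (Ht : Set SL2) :=
        hZ.trans (Subgroup.le_normalizer (H := Ht))
      have hM : Subgroup.normalizer (Ht : Set SL2) ≠ ⊤ := fun h =>
        hn (Subgroup.normalizer_eq_top_iff.mp h)
      have h1 := ord13 hF _ hZM hM
      apply max13 hF _ hZM
      apply arith13c _ h1
      · rw [← h5]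
        exact Subgroup.card_dvd_of_le (Subgroup.le_normalizer (H := Ht))
      · intro h7
        apply hwH
        have : Ht = Subgroup.normalizer (Ht : Set SL2) :=
          Subgroup.eq_of_le_of_card_ge (Subgroup.le_normalizer (H := Ht)) (by rw [h7, h5])
        rw [this]
        exact hwN

theorem exists_noncentral (hF : Fintype.card F = 13) (Ht : Subgroup SL2)
    (hZ : Subgroup.center SL2 ≤ Ht) (hn : ¬ Ht.Normal) : ∃ t ∈ Ht, t ∉ Subgroup.center SL2 := by
  by_contra hc
  push Not at hc
  apply hn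
  have : Ht = Subgroup.center SL2 := le_antisymm hc hZ
  rw [this]
  infer_instance

theorem core13_bor (hF : Fintype.card F = 13) (Ht : Subgroup SL2)
    (hZ : Subgroup.center SL2 ≤ Ht) (hn : ¬ Ht.Normal) (hB : Ht ≤ (Bor : Subgroup SL2)) :
    IsCoatom (Subgroup.normalizer (Ht : Set SL2)) := by
  have h2 := two_ne_zero13 hF
  by_cases hu : ∃ u ∈ Ht, u ∉ Subgroup.center SL2 ∧ tr u ^ 2 = 4
  · obtain ⟨u, huH, huZ, hu4⟩ := hu
    have hU : ∀ s : F, Ux s ∈ Ht := by
      have u10 : u.1 1 0 = 0 := hB huH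
      have hd := sl2_det u
      rw [u10] at hd
      rw [tr_eq] at hu4
      have h00 : u.1 0 0 = u.1 1 1 := by
        have : (u.1 0 0 - u.1 1 1) ^ 2 = 0 := by linear_combination hu4 - 4 * hd
        exact sub_eq_zero.mp (pow_eq_zero_iff (by norm_num) |>.mp this)
      have h01 : u.1 0 1 ≠ 0 := by
        rcases (not_center_iff u).mp huZ with h | h | h
        · exact absurd u10 h
        · exact h
        · exact absurd h00 h
      have ha0 : u.1 0 0 ≠ 0 := by
        intro h0
        rw [h0] at hd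
        simp at hd
      have huu : u * u = Ux (2 * u.1 0 0 * u.1 0 1) := by
        apply sl_ext
        · rw [mul_e00, u10, Ux_e00]; rw [← h00] at hd; linear_combination hd
        · rw [mul_e01, Ux_e01, ← h00]; ring
        · rw [mul_e10, u10, Ux_e10]; ring
        · rw [mul_e11, u10, Ux_e11]; rw [h00] at hd; linear_combination hd
      have hγ : 2 * u.1 0 0 * u.1 0 1 ≠ 0 := mul_ne_zero (mul_ne_zero h2 ha0) h01
      intro s
      obtain ⟨k, hk⟩ := exists_nat13 hF (s / (2 * u.1 0 0 * u.1 0 1))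
      have : Ux s = (u * u) ^ k := by
        rw [huu, Ux_pow, hk]
        congr 1
        field_simp
      rw [this]
      exact Ht.pow_mem (Ht.mul_mem huH huH) k
    apply good_of_le hF Ht hZ hn Bor _ (Or.inl (by rw [card_Bor, hF]))
    rw [Subgroup.le_normalizer_iff]
    intro b hb x hx
    obtain ⟨s, hs⟩ := comm_Bor b x hb (hB hx)
    have : b * x * b⁻¹ = Ux s * x := by rw [← hs]; group
    rw [this]
    exact Ht.mul_mem (hU s) hx
  · push Not at hu
    have hab : ∀ x ∈ Ht, ∀ y ∈ Ht, x * y = y * x := by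
      intro x hx y hy
      obtain ⟨s, hs⟩ := comm_Bor x y (hB hx) (hB hy)
      have hsH : Ux s ∈ Ht := by
        rw [← hs]
        exact Ht.mul_mem (Ht.mul_mem (Ht.mul_mem hx hy) (Ht.inv_mem hx)) (Ht.inv_mem hy)
      have hs0 : s = 0 := by
        by_contra hs0
        apply hu (Ux s) hsH (Ux_not_center s hs0)
        rw [tr_eq, Ux_e00, Ux_e11]
        norm_num
      rw [hs0, Ux_zero] at hs
      calc x * y = (x * y * x⁻¹ * y⁻¹) * (y * x) := by group
        _ = y * x := by rw [hs, one_mul]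
    obtain ⟨t, htH, htZ⟩ := exists_noncentral hF Ht hZ hn
    have hle : Ht ≤ cen t := by
      intro x hx
      rw [mem_cen]
      exact hab x hx t htH
    exact core13_T hF Ht hZ hn t htH htZ (hu t htH htZ) (hle.trans (cen_le_NT t))

end core

end Cfsg.Agent.Helper41.Dk
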