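import Cfsg.Agent.Helper41.Dk13b

set_option autoImplicit false

/-!
# Non-normal subgroups of `(P)SL₂(13) × S` have maximal normalisers (helper41)
-/

namespace Cfsg.Agent.Helper41.Dk

open Cfsg.Agent.Helper41 Matrix

section transport

/-- transport of "normalisers of non-normal subgroups are maximal" along an isomorphism. -/
theorem coatom_norm_equiv {K L : Type*} [Group K] [Group L] (e : K ≃* L)
    (hL : ∀ H : Subgroup L, ¬ H.Normal → IsCoatom (Subgroup.normalizer (H : Set L)))
    (H : Subgroup K) (hn : ¬ H.Normal) : IsCoatom (Subgroup.normalizer (H : Set K)) := by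
  have h1 := Subgroup.map_equiv_normalizer_eq H e
  have hn' : ¬ (H.map e.toMonoidHom).Normal := by
    intro h
    apply hn
    rw [← Subgroup.normalizer_eq_top_iff]
    have h2 := Subgroup.normalizer_eq_top_iff.mpr h
    rw [← h1] at h2
    rw [eq_top_iff]
    intro x _
    have h3 : e x ∈ (Subgroup.normalizer (H : Set K)).map e.toMonoidHom := by
      rw [h2]; trivial
    obtain ⟨y, hy, hyx⟩ := h3
    have : y = x := e.injective hyx
    rw [← this]; exact hy
  have h4 := hL _ hn'
  rw [← h1] at h4
  exact (OrderIso.isCoatom_iff (MulEquiv.mapSubgroup e) _).mp h4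

theorem prod_split {K S : Type*} [Group K] [CommGroup S] [Finite K] [Finite S]
    (hKS : (Nat.card K).Coprime (Nat.card S)) (M : Subgroup (K × S)) (k : K) (s : S)
    (h : (k, s) ∈ M) : (k, 1) ∈ M ∧ (1, s) ∈ M := by
  obtain ⟨a, b, hab⟩ := Nat.isCoprime_iff_coprime.mpr hKS
  have h1 : ((k, s) : K × S) ^ (b * (Nat.card S : ℤ)) ∈ M := M.zpow_mem h _
  have e1 : ((k, s) : K × S) ^ (b * (Nat.card S : ℤ)) = (k, 1) := by
    apply Prod.ext
    · show k ^ (b * (Nat.card S : ℤ)) = k
      have : b * (Nat.card S : ℤ) = 1 - a * (Nat.card K : ℤ) := by linarith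
      rw [this, _root_.zpow_sub, zpow_one, mul_comm a, _root_.zpow_mul, zpow_natCast, pow_card_eq_one',
        _root_.one_zpow, inv_one, mul_one]
    · show s ^ (b * (Nat.card S : ℤ)) = 1
      rw [mul_comm, _root_.zpow_mul, zpow_natCast, pow_card_eq_one', _root_.one_zpow]
  rw [e1] at h1
  refine ⟨h1, ?_⟩
  have : ((1 : K), s) = (k, 1)⁻¹ * (k, s) := by
    apply Prod.ext <;> simp
  rw [this]
  exact M.mul_mem (M.inv_mem h1) h

/-- the product with a coprime abelian group preserves the property. -/
theorem coatom_norm_prod {K S : Type*} [Group K] [CommGroup S] [Finite K] [Finite S]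
    (hKS : (Nat.card K).Coprime (Nat.card S))
    (hK : ∀ H : Subgroup K, ¬ H.Normal → IsCoatom (Subgroup.normalizer (H : Set K)))
    (H : Subgroup (K × S)) (hH : ¬ H.Normal) :
    IsCoatom (Subgroup.normalizer (H : Set (K × S))) := by
  obtain ⟨HK, hHK⟩ : ∃ HK : Subgroup K, HK = H.comap (MonoidHom.inl K S) := ⟨_, rfl⟩
  have memHK : ∀ k : K, k ∈ HK ↔ (k, (1 : S)) ∈ H := by
    intro k
    rw [hHK]; rfl
  have key : ∀ g : K × S, g ∈ Subgroup.normalizer (H : Set (K × S)) ↔
      g.1 ∈ Subgroup.normalizer (HK : Set K) := by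
    rintro ⟨a, c⟩
    rw [Subgroup.mem_normalizer_iff, Subgroup.mem_normalizer_iff]
    constructor
    · intro h k
      rw [memHK, memHK, h (k, 1)]
      have : ((a, c) : K × S) * (k, 1) * (a, c)⁻¹ = (a * k * a⁻¹, 1) := by
        apply Prod.ext <;> simp
      rw [this]
    · rintro h ⟨k, s⟩
      have e1 : ((a, c) : K × S) * (k, s) * (a, c)⁻¹ = (a * k * a⁻¹, s) := by
        apply Prod.ext <;> simp
      rw [e1]
      constructor
      · intro hks
        obtain ⟨h1, h2⟩ := prod_split hKS H k s hks
        have h3 : (a * k * a⁻¹, (1 : S)) ∈ H := (memHK _).mp ((h k).mp ((memHK k).mpr h1))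
        have : ((a * k * a⁻¹, s) : K × S) = (a * k * a⁻¹, 1) * (1, s) := by
          apply Prod.ext <;> simp
        rw [this]
        exact H.mul_mem h3 h2
      · intro hks
        obtain ⟨h1, h2⟩ := prod_split hKS H _ s hks
        have h3 : (k, (1 : S)) ∈ H := (memHK _).mp ((h k).mpr ((memHK _).mpr h1))
        have : ((k, s) : K × S) = (k, 1) * (1, s) := by
          apply Prod.ext <;> simp
        rw [this]
        exact H.mul_mem h3 h2
  have hnK : ¬ HK.Normal := by
    intro h
    apply hH
    rw [← Subgroup.normalizer_eq_top_iff, eq_top_iff]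
    intro g _
    rw [key, Subgroup.normalizer_eq_top_iff.mpr h]
    trivial
  have hco := hK HK hnK
  refine ⟨fun h => hH (Subgroup.normalizer_eq_top_iff.mp h), ?_⟩
  intro M hM
  obtain ⟨g, hgM, hgN⟩ := SetLike.exists_of_lt hM
  obtain ⟨a, c⟩ := g
  have haN : a ∉ Subgroup.normalizer (HK : Set K) := fun h => hgN ((key (a, c)).mpr h)
  have haM : (a, (1 : S)) ∈ M := (prod_split hKS M a c hgM).1
  have hMK : M.comap (MonoidHom.inl K S) = ⊤ := by
    apply hco.2
    apply lt_of_le_of_ne
    · intro k hk
      show (k, (1 : S)) ∈ M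
      exact hM.le ((key (k, 1)).mpr hk)
    · intro h
      apply haN
      rw [h]
      exact haM
  rw [eq_top_iff]
  rintro ⟨k, s⟩ -
  have h1 : (k, (1 : S)) ∈ M := by
    have : k ∈ M.comap (MonoidHom.inl K S) := by rw [hMK]; trivial
    exact this
  have h2 : ((1 : K), s) ∈ M := hM.le ((key (1, s)).mpr (Subgroup.one_mem _))
  have : ((k, s) : K × S) = (k, 1) * (1, s) := by
    apply Prod.ext <;> simp
  rw [this]
  exact M.mul_mem h1 h2

end transport

variable {F : Type*} [Field F]

local notation "SL2" => Matrix.SpecialLinearGroup (Fin 2) F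

/-- **normalisers of non-normal subgroups of `SL₂(13)` containing the centre are maximal**. -/
theorem core13 [Fintype F] (hF : Fintype.card F = 13) (Ht : Subgroup SL2)
    (hZ : Subgroup.center SL2 ≤ Ht) (hn : ¬ Ht.Normal) :
    IsCoatom (Subgroup.normalizer (Ht : Set SL2)) := by
  classical
  haveI := charP13 hF
  haveI : Fact (Nat.Prime 13) := ⟨by norm_num⟩
  have hG := card_SL13 hF
  have hdvdG : Nat.card Ht ∣ 2184 := by rw [← hG]; exact Subgroup.card_subgroup_dvd_card Ht
  have hidx := card_of_index Ht hZ
  rw [card_center13 hF] at hidx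
  rcases dickson_subgroup 13 Ht hZ with hB | hT | ⟨h12, -⟩ | ⟨h24, -⟩ | ⟨h60, -⟩ | ⟨Q, hQ, K0, hS⟩
  · obtain ⟨v, hv, hfix⟩ := hB
    obtain ⟨Q0, hQ0⟩ := exists_conj_borel v hv
    have h1 := Subgroup.map_equiv_normalizer_eq Ht (MulAut.conj Q0⁻¹)
    have hB' : Ht.map (MulAut.conj Q0⁻¹).toMonoidHom ≤ (Bor : Subgroup SL2) := by
      rintro y ⟨x, hx, rfl⟩
      have := hQ0 x (hfix ⟨x, hx⟩)
      show Q0⁻¹ * x * Q0⁻¹⁻¹ ∈ (Bor : Subgroup SL2)
      rw [inv_inv]; exact this
    have hZ' : Subgroup.center SL2 ≤ Ht.map (MulAut.conj Q0⁻¹).toMonoidHom := by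
      intro z hz
      refine ⟨z, hZ hz, ?_⟩
      show Q0⁻¹ * z * Q0⁻¹⁻¹ = z
      rw [inv_inv, Subgroup.mem_center_iff.mp hz Q0⁻¹]
      group
    have hn' : ¬ (Ht.map (MulAut.conj Q0⁻¹).toMonoidHom).Normal := by
      intro h
      apply hn
      rw [← Subgroup.normalizer_eq_top_iff]
      have h2 := Subgroup.normalizer_eq_top_iff.mpr h
      rw [← h1] at h2
      rw [eq_top_iff]
      intro x _
      have h3 : (MulAut.conj Q0⁻¹) x ∈
          (Subgroup.normalizer (Ht : Set SL2)).map (MulAut.conj Q0⁻¹).toMonoidHom := by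
        rw [h2]; trivial
      obtain ⟨y, hy, hyx⟩ := h3
      have : y = x := (MulAut.conj Q0⁻¹).injective hyx
      rw [← this]; exact hy
    have h4 := core13_bor hF _ hZ' hn' hB'
    rw [← h1] at h4
    exact (OrderIso.isCoatom_iff (MulEquiv.mapSubgroup (MulAut.conj Q0⁻¹)) _).mp h4
  · obtain ⟨x, hxZ, ht, hx⟩ := hT
    apply core13_T hF Ht hZ hn x.1 x.2 (fun hc => hxZ (Subgroup.mem_subgroupOf.mpr hc)) ht
    intro g hg
    rcases hx ⟨g, hg⟩ with h1 | h1
    · left; exact congrArg Subtype.val h1
    · right; exact congrArg Subtype.val h1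
  · rw [h12] at hidx
    exact good_of_le hF Ht hZ hn Ht (Subgroup.le_normalizer (H := Ht))
      (Or.inr (Or.inl (by rw [hidx])))
  · exfalso
    rw [h24] at hidx
    rw [hidx] at hdvdG
    omega
  · exfalso
    rw [h60] at hidx
    rw [hidx] at hdvdG
    omega
  · exfalso
    have hK := subfield_top13 hF K0
    rcases hS with h1 | ⟨lam, hlam, -, -⟩
    · apply hn
      have : Ht = ⊤ := by
        apply eq_top_of_range_top Ht Q hQ
        intro g
        rw [h1, hK]
        intro i j
        trivial
      rw [this]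
      infer_instance
    · rw [hK] at hlam
      exact hlam trivial

/-- normalisers of non-normal subgroups of `SL₂(13)` are maximal. -/
theorem sl13_norm [Fintype F] (hF : Fintype.card F = 13) (H : Subgroup SL2) (hn : ¬ H.Normal) :
    IsCoatom (Subgroup.normalizer (H : Set SL2)) := by
  classical
  have h2 := two_ne_zero13 hF
  by_cases hZH : Subgroup.center SL2 ≤ H
  · exact core13 hF H hZH hn
  · -- `H` has odd order
    have hodd : Odd (Nat.card H) := by
      rw [← Nat.not_even_iff_odd]
      intro hev
      obtain ⟨x, hx⟩ := exists_prime_orderOf_dvd_card' (G := H) 2 hev.two_dvd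
      have hx2 : x.1 * x.1 = 1 := by
        have := pow_orderOf_eq_one x
        rw [hx, pow_two] at this
        exact congrArg Subtype.val this
      have hx1 : x.1 ≠ 1 := by
        intro h
        have : x = 1 := Subtype.ext h
        rw [this, orderOf_one] at hx
        omega
      have hxZ : x.1 ∈ Subgroup.center SL2 := by
        rcases sq_center x.1 (by rw [hx2]; exact Subgroup.one_mem _) with h | h
        · exact h
        · exfalso
          have := tr_sq_of_mul_self x.1 hx2
          rw [h] at this
          have h5 : (2 : F) * 2 = 0 := by linear_combination -this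
          exact h2 (mul_self_eq_zero.mp h5)
      have hxm : x.1.1 = -1 := by
        rcases (mem_center_iff_pm x.1).mp hxZ with h | h
        · exact absurd (Subtype.ext h) hx1
        · exact h
      apply hZH
      intro z hz
      rcases (mem_center_iff_pm z).mp hz with h | h
      · have : z = 1 := Subtype.ext h
        rw [this]; exact H.one_mem
      · have : z = x.1 := Subtype.ext (by rw [h, hxm])
        rw [this]; exact x.2
    have hNeq : Subgroup.normalizer ((H ⊔ Subgroup.center SL2 : Subgroup SL2) : Set SL2) =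
        Subgroup.normalizer (H : Set SL2) := by
      have hmem : ∀ x : SL2, x ∈ H ⊔ Subgroup.center SL2 ↔
          ∃ h ∈ H, ∃ z ∈ Subgroup.center SL2, h * z = x := by
        intro x
        rw [← SetLike.mem_coe, Subgroup.mul_normal, Set.mem_mul]
        rfl
      apply le_antisymm
      · rw [Subgroup.le_normalizer_iff]
        intro g hg h hh
        have h1 : g * h * g⁻¹ ∈ H ⊔ Subgroup.center SL2 :=
          (Subgroup.le_normalizer_iff.mp (le_refl _)) g hg h (Subgroup.mem_sup_left hh)
        obtain ⟨h', hh', z, hz, hzx⟩ := (hmem _).mp h1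
        obtain ⟨k, hk⟩ := hodd
        have hzc : ∀ y : SL2, y * z = z * y := fun y => Subgroup.mem_center_iff.mp hz y
        have e1 : (g * h * g⁻¹) ^ Nat.card H = 1 := by
          have : (⟨h, hh⟩ : H) ^ Nat.card H = 1 := pow_card_eq_one'
          have h3 : h ^ Nat.card H = 1 := congrArg Subtype.val this
          rw [conj_pow, h3]; group
        have e2 : (h' * z) ^ Nat.card H = z := by
          have : (⟨h', hh'⟩ : H) ^ Nat.card H = 1 := pow_card_eq_one'
          have h3 : h' ^ Nat.card H = 1 := congrArg Subtype.val this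
          rw [(show Commute h' z from hzc h').mul_pow, h3, one_mul, hk, pow_succ, pow_mul, pow_two, center_sq z hz,
            one_pow, one_mul]
        rw [← hzx, e2] at e1
        rw [← hzx, e1, mul_one]
        exact hh'
      · rw [Subgroup.le_normalizer_iff]
        intro g hg x hx
        obtain ⟨h, hh, z, hz, rfl⟩ := (hmem _).mp hx
        have hzc : g * z = z * g := Subgroup.mem_center_iff.mp hz g
        have : g * (h * z) * g⁻¹ = (g * h * g⁻¹) * z := by
          calc g * (h * z) * g⁻¹ = g * h * (z * g⁻¹) := by group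
            _ = g * h * (g⁻¹ * z) := by
                rw [show z * g⁻¹ = g⁻¹ * z from (Subgroup.mem_center_iff.mp hz g⁻¹).symm]
            _ = (g * h * g⁻¹) * z := by group
        rw [this]
        exact (hmem _).mpr ⟨g * h * g⁻¹,
          (Subgroup.le_normalizer_iff.mp (le_refl _)) g hg h hh, z, hz, rfl⟩
    have hn' : ¬ (H ⊔ Subgroup.center SL2).Normal := by
      intro h
      apply hn
      rw [← Subgroup.normalizer_eq_top_iff, ← hNeq]
      exact Subgroup.normalizer_eq_top_iff.mpr h
    have h5 := core13 hF (H ⊔ Subgroup.center SL2) le_sup_right hn'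
    rw [hNeq] at h5
    exact h5

/-- normalisers of non-normal subgroups of `PSL₂(13)` are maximal. -/
theorem psl13_norm [Fintype F] (hF : Fintype.card F = 13)
    (H : Subgroup (Matrix.ProjectiveSpecialLinearGroup (Fin 2) F)) (hn : ¬ H.Normal) :
    IsCoatom (Subgroup.normalizer
      (H : Set (Matrix.ProjectiveSpecialLinearGroup (Fin 2) F))) := by
  have h1 := Subgroup.comap_normalizer_eq_of_surjective H
    (QuotientGroup.mk'_surjective (Subgroup.center SL2))
  have hn' : ¬ (pre H).Normal := by
    intro h
    apply hn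
    rw [← Subgroup.normalizer_eq_top_iff]
    apply pre_eq_top.mp
    show (Subgroup.normalizer (H : Set _)).comap (QuotientGroup.mk' (Subgroup.center SL2)) = ⊤
    rw [h1]
    exact Subgroup.normalizer_eq_top_iff.mpr h
  have h2 := core13 hF (pre H) (center_le_pre H) hn'
  apply isCoatom_of_pre
  · show (Subgroup.normalizer (H : Set _)).comap (QuotientGroup.mk' (Subgroup.center SL2)) ≠ ⊤
    rw [h1]
    exact h2.1
  · intro Mt hle hne
    apply h2.2
    apply lt_of_le_of_ne
    · have : (Subgroup.normalizer (H : Set _)).comap (QuotientGroup.mk' (Subgroup.center SL2))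
          ≤ Mt := hle
      rw [h1] at this
      exact this
    · intro h
      apply hne
      rw [← h]
      exact h1.symm

end Cfsg.Agent.Helper41.Dk
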