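import Mathlib
import Cfsg.Agent.Helper97.GSylDefs

set_option autoImplicit false

namespace Cfsg.Agent.Helper41.GSylRE

open Matrix Cfsg.Agent.Helper97.GSyl

/-- PIECE RE -/
theorem exists_re (F : Type*) [Field F] (m : ℕ) :
    Nonempty (Matrix.SpecialLinearGroup (Fin 2 × Fin m) F ≃*
      Matrix.SpecialLinearGroup (Fin (2 * m)) F) := by
  classical
  let e : Fin 2 × Fin m ≃ Fin (2 * m) := finProdFinEquiv
  refine ⟨{ toFun := fun A => ⟨A.1.submatrix e.symm e.symm, by
              rw [Matrix.det_submatrix_equiv_self]; exact A.2⟩
            invFun := fun A => ⟨A.1.submatrix e e, by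
              rw [Matrix.det_submatrix_equiv_self]; exact A.2⟩
            left_inv := ?_
            right_inv := ?_
            map_mul' := ?_ }⟩
  · intro A
    apply Subtype.ext
    ext i j
    simp
  · intro A
    apply Subtype.ext
    ext i j
    simp
  · intro A B
    apply Subtype.ext
    show (A.1 * B.1).submatrix e.symm e.symm = A.1.submatrix e.symm e.symm * B.1.submatrix e.symm e.symm
    rw [Matrix.submatrix_mul_equiv]

end Cfsg.Agent.Helper41.GSylRE
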