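import Mathlib
import Cfsg.Agent.Helper97.GSylDefs

set_option autoImplicit false

namespace Cfsg.Agent.Helper41.GSylTR

open Matrix Cfsg.Agent.Helper97.GSyl

/-- PIECE TR -/
theorem sylow_two_pow_trans (j : ℕ) (T : Sylow 2 (Equiv.Perm (Fin (2 ^ j)))) :
    ∀ a b : Fin (2 ^ j), ∃ t ∈ (T : Subgroup (Equiv.Perm (Fin (2 ^ j)))), t a = b := by
  classical
  intro a b
  rcases Nat.eq_zero_or_pos j with hj | hj
  · subst hj
    refine ⟨1, Subgroup.one_mem _, ?_⟩
    have : Subsingleton (Fin (2 ^ 0)) := by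
      rw [pow_zero]; infer_instance
    exact Subsingleton.elim _ _
  · have h2 : 2 ≤ 2 ^ j := by
      calc 2 = 2 ^ 1 := by norm_num
        _ ≤ 2 ^ j := Nat.pow_le_pow_right (by norm_num) hj
    set c : Equiv.Perm (Fin (2 ^ j)) := finRotate (2 ^ j) with hc
    have hcyc : c.IsCycle := isCycle_finRotate_of_le h2
    have hsupp : c.support = Finset.univ := support_finRotate_of_le h2
    have hord : orderOf c = 2 ^ j := by
      rw [hcyc.orderOf, hsupp, Finset.card_univ, Fintype.card_fin]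
    have hpg : IsPGroup 2 (Subgroup.zpowers c) :=
      IsPGroup.of_card (n := j) (by rw [Nat.card_zpowers, hord])
    obtain ⟨Q, hQ⟩ := hpg.exists_le_sylow
    obtain ⟨g, hg⟩ := MulAction.exists_smul_eq (Equiv.Perm (Fin (2 ^ j))) Q T
    have hmove : ∀ x : Fin (2 ^ j), c x ≠ x := by
      intro x
      have : x ∈ c.support := by rw [hsupp]; exact Finset.mem_univ x
      exact Equiv.Perm.mem_support.mp this
    obtain ⟨k, hk⟩ := hcyc.exists_pow_eq (hmove (g⁻¹ a)) (hmove (g⁻¹ b))
    refine ⟨g * c ^ k * g⁻¹, ?_, ?_⟩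
    · rw [← hg, Sylow.coe_subgroup_smul]
      have hmem : c ^ k ∈ (Q : Subgroup (Equiv.Perm (Fin (2 ^ j)))) :=
        hQ (Subgroup.pow_mem _ (Subgroup.mem_zpowers c) k)
      have := Subgroup.smul_mem_pointwise_smul (c ^ k) (MulAut.conj g) _ hmem
      simpa [MulAut.smul_def] using this
    · simp only [Equiv.Perm.mul_apply]
      rw [hk]
      simp

end Cfsg.Agent.Helper41.GSylTR
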