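import Mathlib
import Cfsg.Agent.Helper97.GSylDefs

set_option autoImplicit false

namespace Cfsg.Agent.Helper41.GSylV2N

open Matrix Cfsg.Agent.Helper97.GSyl

variable {F : Type*} [Field F] {m : ℕ}

/-- PIECE V2N -/
theorem v2_card_GL [Fintype F] (hF : Odd (Fintype.card F)) (n : ℕ) :
    (Nat.card (GL (Fin n) F)).factorization 2
      = ∑ i ∈ Finset.range n, padicValNat 2 (Fintype.card F ^ (i + 1) - 1) := by
  classical
  obtain ⟨q, hq⟩ : ∃ q, q = Fintype.card F := ⟨_, rfl⟩
  rw [← hq] at hF ⊢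
  have hq2 : 2 ≤ q := by
    rw [hq]; exact Fintype.one_lt_card
  have hq3 : 3 ≤ q := by
    rcases hF with ⟨t, ht⟩; omega
  have hndvd : ¬ 2 ∣ q := by
    rcases hF with ⟨t, ht⟩; omega
  have hcard : Nat.card (GL (Fin n) F) = ∏ i : Fin n, (q ^ n - q ^ (i : ℕ)) := by
    rw [hq]; exact Matrix.card_GL_field n
  have hpos : ∀ k : ℕ, 1 ≤ k → q ^ k - 1 ≠ 0 := by
    intro k hk
    have : q ^ 1 ≤ q ^ k := Nat.pow_le_pow_right (by omega) hk
    rw [pow_one] at this
    omega
  have hterm : ∀ i : ℕ, i < n → q ^ n - q ^ i = q ^ i * (q ^ (n - i) - 1) := by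
    intro i hi
    rw [Nat.mul_sub, mul_one, ← pow_add]
    congr 2
    omega
  rw [hcard, Fin.prod_univ_eq_prod_range (fun i => q ^ n - q ^ i) n, Nat.factorization_prod]
  · rw [Finsupp.finset_sum_apply, ← Finset.sum_range_reflect]
    apply Finset.sum_congr rfl
    intro i hi
    rw [Finset.mem_range] at hi
    rw [hterm (n - 1 - i) (by omega),
      Nat.factorization_mul (pow_ne_zero _ (by omega)) (hpos _ (by omega)),
      Finsupp.add_apply, Nat.factorization_pow, Finsupp.smul_apply,
      Nat.factorization_eq_zero_of_not_dvd hndvd, smul_zero, zero_add,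
      Nat.factorization_def _ Nat.prime_two]
    congr 3
    omega
  · intro i hi
    rw [Finset.mem_range] at hi
    rw [hterm i hi]
    exact mul_ne_zero (pow_ne_zero _ (by omega)) (hpos _ (by omega))

end Cfsg.Agent.Helper41.GSylV2N
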