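import Mathlib
import Cfsg.Agent.Helper97.GSylDefs

set_option autoImplicit false

namespace Cfsg.Agent.Helper41.GSylV2O

open Matrix Cfsg.Agent.Helper97.GSyl

/-- PIECE V2O -/
theorem v2_pow_odd_sub_one (q : ℕ) (hq : Odd q) (hq1 : 1 < q) (i : ℕ) :
    padicValNat 2 (q ^ (2 * i + 1) - 1) = padicValNat 2 (q - 1) := by
  obtain ⟨r, rfl⟩ : ∃ r, q = r + 1 := ⟨q - 1, by omega⟩
  have key : ∀ n : ℕ, r * ∑ k ∈ Finset.range n, (r + 1) ^ k + 1 = (r + 1) ^ n := by
    intro n
    induction n with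
    | zero => simp
    | succ n ih =>
      rw [Finset.sum_range_succ]
      calc r * (∑ k ∈ Finset.range n, (r + 1) ^ k + (r + 1) ^ n) + 1
          = (r * ∑ k ∈ Finset.range n, (r + 1) ^ k + 1) + r * (r + 1) ^ n := by ring
        _ = (r + 1) ^ n + r * (r + 1) ^ n := by rw [ih]
        _ = (r + 1) ^ (n + 1) := by ring
  have hS : Odd (∑ k ∈ Finset.range (2 * i + 1), (r + 1) ^ k) := by
    rw [Finset.odd_sum_iff_odd_card_odd]
    have : Finset.filter (fun x => Odd ((r + 1) ^ x)) (Finset.range (2 * i + 1)) =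
        Finset.range (2 * i + 1) := by
      apply Finset.filter_true_of_mem
      intro x _
      exact hq.pow
    rw [this, Finset.card_range]
    exact ⟨i, rfl⟩
  have h1 : (r + 1) ^ (2 * i + 1) - 1 = r * ∑ k ∈ Finset.range (2 * i + 1), (r + 1) ^ k := by
    rw [← key (2 * i + 1)]; simp
  have hr0 : r ≠ 0 := by omega
  have hS0 : (∑ k ∈ Finset.range (2 * i + 1), (r + 1) ^ k) ≠ 0 := by
    intro h; rw [h] at hS; exact (by decide : ¬ Odd 0) hS
  have : Fact (Nat.Prime 2) := ⟨Nat.prime_two⟩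
  rw [h1, padicValNat.mul hr0 hS0,
    padicValNat.eq_zero_of_not_dvd (fun h => (Nat.not_even_iff_odd.mpr hS) (even_iff_two_dvd.mpr h))]
  simp

end Cfsg.Agent.Helper41.GSylV2O
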