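import Mathlib
import Cfsg.Agent.Helper97.GSylDefs
import Cfsg.Agent.Helper41.GSylV2N
import Cfsg.Agent.Helper41.GSylV2O
import Cfsg.Agent.Helper37.SpSyl2

set_option autoImplicit false

namespace Cfsg.Agent.Helper41.GSylV2W

open Matrix Cfsg.Agent.Helper97.GSyl

variable {F : Type*} [Field F] {m : ℕ}

theorem card_GL_blocks_eq [Fintype F] (m : ℕ) :
    Nat.card (GL (Fin 2 × Fin m) F) = Nat.card (GL (Fin (2 * m)) F) :=
  Nat.card_congr
    (Units.mapEquiv (Matrix.reindexAlgEquiv F F (finProdFinEquiv : Fin 2 × Fin m ≃ _)).toMulEquiv).toEquiv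

theorem sum_pairs [Fintype F] (hF : Odd (Fintype.card F)) (m : ℕ) :
    ∑ i ∈ Finset.range (2 * m), padicValNat 2 (Fintype.card F ^ (i + 1) - 1)
      = m * (padicValNat 2 (Fintype.card F - 1) + padicValNat 2 (Fintype.card F ^ 2 - 1))
        + (Nat.factorial m).factorization 2 := by
  have hq1 : 1 < Fintype.card F := Fintype.one_lt_card
  induction m with
  | zero => simp
  | succ m ih =>
    have e : 2 * (m + 1) = 2 * m + 1 + 1 := by ring
    rw [e, Finset.sum_range_succ, Finset.sum_range_succ, ih]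
    have h1 := GSylV2O.v2_pow_odd_sub_one _ hF hq1 m
    have h2 := Cfsg.Agent.Helper37.v2_pow_sub_one _ hF hq1 m
    have e2 : 2 * m + 1 + 1 = 2 * (m + 1) := by ring
    rw [h1, e2, h2]
    have hfact : (Nat.factorial (m + 1)).factorization 2 =
        padicValNat 2 (m + 1) + (Nat.factorial m).factorization 2 := by
      rw [Nat.factorial_succ, Nat.factorization_mul (by omega) (Nat.factorial_ne_zero m),
        Finsupp.add_apply, Nat.factorization_def _ Nat.prime_two]
    rw [hfact]
    ring

/-- PIECE V2W -/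
theorem v2_card_GL_blocks [Fintype F] (hF : Odd (Fintype.card F)) (m : ℕ) :
    (Nat.card (GL (Fin 2 × Fin m) F)).factorization 2
      = m * (Nat.card (GL (Fin 2) F)).factorization 2 + (Nat.factorial m).factorization 2 := by
  rw [card_GL_blocks_eq, GSylV2N.v2_card_GL hF, GSylV2N.v2_card_GL hF 2, sum_pairs hF]
  simp [Finset.sum_range_succ]

end Cfsg.Agent.Helper41.GSylV2W
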