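import Mathlib
import Cfsg.Agent.Helper97.GSylDefs
import Cfsg.Agent.Helper41.GSylV2N
import Cfsg.Agent.Helper41.GSylV2O
import Cfsg.Agent.Helper41.GSylV2W
import Cfsg.Agent.Helper5.SLCard

set_option autoImplicit false

namespace Cfsg.Agent.Helper41.GSylV2S

open Matrix Cfsg.Agent.Helper97.GSyl

variable {F : Type*} [Field F] {m : ℕ}

/-- PIECE V2S (1) -/
theorem v2_card_SL_odd [Fintype F] (hF : Odd (Fintype.card F)) (m : ℕ) :
    (Nat.card (Matrix.SpecialLinearGroup (Fin (2 * m + 1)) F)).factorization 2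
      = (Nat.card (GL (Fin 2 × Fin m) F)).factorization 2 := by
  classical
  have hq1 : 1 < Fintype.card F := Fintype.one_lt_card
  have h := Cfsg.Agent.Helper5.card_SL_mul (F := F) (Fin (2 * m + 1))
  have h1 : (Nat.card (Matrix.SpecialLinearGroup (Fin (2 * m + 1)) F) *
      (Fintype.card F - 1)).factorization 2 = (Nat.card (GL (Fin (2 * m + 1)) F)).factorization 2 := by
    rw [h]
  have hfd : (Fintype.card F - 1).factorization 2 = padicValNat 2 (Fintype.card F - 1) :=
    Nat.factorization_def _ Nat.prime_two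
  rw [Nat.factorization_mul (Nat.card_pos.ne') (by omega), Finsupp.add_apply,
    hfd, GSylV2N.v2_card_GL hF, Finset.sum_range_succ,
    GSylV2O.v2_pow_odd_sub_one _ hF hq1 m] at h1
  rw [GSylV2W.card_GL_blocks_eq, GSylV2N.v2_card_GL hF]
  omega

/-- PIECE V2S (2) -/
theorem v2_card_SL_even [Fintype F] (hF : Odd (Fintype.card F)) (m : ℕ) (hm : 1 ≤ m) :
    (Nat.card (Matrix.SpecialLinearGroup (Fin (2 * m)) F)).factorization 2
        + padicValNat 2 (Fintype.card F - 1)
      = (Nat.card (GL (Fin 2 × Fin m) F)).factorization 2 := by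
  classical
  have hq1 : 1 < Fintype.card F := Fintype.one_lt_card
  have : Nonempty (Fin (2 * m)) := ⟨⟨0, by omega⟩⟩
  have h := Cfsg.Agent.Helper5.card_SL_mul (F := F) (Fin (2 * m))
  rw [GSylV2W.card_GL_blocks_eq, ← h, Nat.factorization_mul (Nat.card_pos.ne') (by omega),
    Finsupp.add_apply]
  simp only [Nat.factorization_def _ Nat.prime_two]

end Cfsg.Agent.Helper41.GSylV2S
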