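import Mathlib
import Cfsg.Agent.Helper40.KGLDefs
import Cfsg.Agent.Helper40.KSLDefs
import Cfsg.Agent.Helper40.KPSLDefs

set_option autoImplicit false

namespace Cfsg.Agent.Helper41

open Polynomial Cfsg.Agent.Helper40.KGL Cfsg.Agent.Helper40.KSL Cfsg.Agent.Helper40.KPSL
open scoped DirectSum
open Classical

universe u v

/-- PIECE V5 (CALL S2480, helper40) -/
theorem irreducible_scaleRoots {F : Type u} [Field F] (ζ : Fˣ) (p : F[X]) (hp : Irreducible p) :
    Irreducible (p.scaleRoots (ζ : F)) := by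
  have hu : ∀ (a : F[X]) (r : F), IsUnit (a.scaleRoots r) ↔ IsUnit a := by
    intro a r
    rw [Polynomial.isUnit_iff_degree_eq_zero, Polynomial.isUnit_iff_degree_eq_zero,
      degree_scaleRoots]
  rw [irreducible_iff]
  refine ⟨fun h => hp.not_isUnit ((hu _ _).1 h), fun a b hab => ?_⟩
  have h1 : p = a.scaleRoots ((ζ⁻¹ : Fˣ) : F) * b.scaleRoots ((ζ⁻¹ : Fˣ) : F) := by
    rw [← mul_scaleRoots_of_noZeroDivisors, ← hab, ← scaleRoots_mul]
    simp
  rcases hp.isUnit_or_isUnit h1 with h | h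
  · exact Or.inl ((hu _ _).1 h)
  · exact Or.inr ((hu _ _).1 h)

end Cfsg.Agent.Helper41
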