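import Mathlib

set_option autoImplicit false

namespace Cfsg.Agent.Helper41.LM

/-- ET2: `p = 2`, a non-central `x` with `x² ≠ 1`, `x² ∈ G'` gives a transvection automorphism. -/
theorem lm_et2 {G : Type*} [Group G] [Finite G] (hZ : commutator G ≤ Subgroup.center G)
    (hc : Nat.card (commutator G) = 2)
    (x : G) (hxZ : x ∉ Subgroup.center G) (hx2 : x ^ 2 ∈ commutator G) (hx21 : x ^ 2 ≠ 1) :
    ∃ σ : MulAut G, ∃ M : Subgroup G, M.index = 2 ∧ Subgroup.center G ≤ M ∧
      ∀ g : G, g ∉ M → ¬ IsConj g (σ g) := by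
  classical
  have hcomm_mem : ∀ a b : G, a * b * a⁻¹ * b⁻¹ ∈ commutator G := by
    intro a b
    rw [commutator_def, ← commutatorElement_def]
    exact Subgroup.commutator_mem_commutator (Subgroup.mem_top a) (Subgroup.mem_top b)
  obtain ⟨z, hzdef⟩ : ∃ z : G, z = x ^ 2 := ⟨_, rfl⟩
  have hzG : z ∈ commutator G := hzdef ▸ hx2
  have hz1 : z ≠ 1 := hzdef ▸ hx21
  have hzc : ∀ g : G, g * z = z * g := fun g => Subgroup.mem_center_iff.mp (hZ hzG) g
  have hG' : ∀ w ∈ commutator G, w = 1 ∨ w = z := by
    intro w hw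
    by_contra hcon
    push_neg at hcon
    obtain ⟨y, -, hy⟩ := (Nat.card_eq_two_iff' (1 : ↥(commutator G))).mp hc
    have h1 : (⟨w, hw⟩ : ↥(commutator G)) = y :=
      hy _ (fun h => hcon.1 (congrArg Subtype.val h))
    have h2 : (⟨z, hzG⟩ : ↥(commutator G)) = y :=
      hy _ (fun h => hz1 (congrArg Subtype.val h))
    exact hcon.2 (congrArg Subtype.val (h1.trans h2.symm))
  have hzz : z * z = 1 := by
    rcases hG' (z * z) (mul_mem hzG hzG) with h | h
    · exact h
    · exfalso
      apply hz1
      exact mul_left_cancel (a := z) (b := z) (c := 1) (by rw [h, mul_one])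
  have hxx : x * x = z := by rw [hzdef, pow_two]
  obtain ⟨M, hMdef⟩ : ∃ M : Subgroup G, M = Subgroup.centralizer {x} := ⟨_, rfl⟩
  have hM : ∀ g : G, g ∈ M ↔ x * g = g * x := by
    intro g
    rw [hMdef, Subgroup.mem_centralizer_iff]
    constructor
    · intro h
      exact h x (Set.mem_singleton x)
    · intro h y hy
      rw [Set.mem_singleton_iff] at hy
      rw [hy]
      exact h
  have hnotM : ∀ g : G, g ∉ M → g * x = z * (x * g) := by
    intro g hg
    rcases hG' _ (hcomm_mem g x) with h | h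
    · exfalso
      apply hg
      rw [hM]
      have h' : g * x * g⁻¹ * x⁻¹ * (x * g) = 1 * (x * g) := by rw [h]
      rw [one_mul] at h'
      rw [← h']
      group
    · have h' : g * x * g⁻¹ * x⁻¹ * (x * g) = z * (x * g) := by rw [h]
      rw [← h']
      group
  have hxM : x ∈ M := (hM x).mpr rfl
  have hmulM : ∀ g h : G, g ∉ M → h ∉ M → g * h ∈ M := by
    intro g h hg hh
    rw [hM]
    calc x * (g * h) = (z * z) * (x * g) * h := by rw [hzz]; group
      _ = z * (z * (x * g)) * h := by group
      _ = z * (g * x) * h := by rw [← hnotM g hg]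
      _ = (z * g) * (x * h) := by group
      _ = (g * z) * (x * h) := by rw [hzc g]
      _ = g * (z * (x * h)) := by group
      _ = g * (h * x) := by rw [← hnotM h hh]
      _ = g * h * x := by group
  -- the automorphism
  obtain ⟨f, hfdef⟩ : ∃ f : G → G, f = fun g => if g ∈ M then g else g * x := ⟨_, rfl⟩
  have hfM : ∀ g, g ∈ M → f g = g := fun g hg => by rw [hfdef]; exact if_pos hg
  have hfN : ∀ g, g ∉ M → f g = g * x := fun g hg => by rw [hfdef]; exact if_neg hg
  have hf : ∀ g h, f (g * h) = f g * f h := by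
    intro g h
    by_cases hg : g ∈ M <;> by_cases hh : h ∈ M
    · rw [hfM _ (mul_mem hg hh), hfM _ hg, hfM _ hh]
    · have hgh : g * h ∉ M := fun hgh => hh (by
        have := mul_mem (inv_mem hg) hgh
        rwa [inv_mul_cancel_left] at this)
      rw [hfN _ hgh, hfM _ hg, hfN _ hh, mul_assoc]
    · have hgh : g * h ∉ M := fun hgh => hg (by
        have := mul_mem hgh (inv_mem hh)
        rwa [mul_inv_cancel_right] at this)
      rw [hfN _ hgh, hfN _ hg, hfM _ hh, mul_assoc, ← (hM h).mp hh, ← mul_assoc]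
    · rw [hfM _ (hmulM g h hg hh), hfN _ hg, hfN _ hh]
      symm
      calc g * x * (h * x) = g * x * (z * (x * h)) := by rw [hnotM h hh]
        _ = g * (x * z) * (x * h) := by group
        _ = g * (z * x) * (x * h) := by rw [hzc x]
        _ = g * z * (x * x) * h := by group
        _ = g * z * z * h := by rw [hxx]
        _ = g * (z * z) * h := by group
        _ = g * h := by rw [hzz, mul_one]
  have hinj : Function.Injective (MonoidHom.mk' f hf) := by
    rw [injective_iff_map_eq_one]
    intro g hg1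
    have hg1' : f g = 1 := hg1
    by_cases hg : g ∈ M
    · rwa [hfM _ hg] at hg1'
    · exfalso
      rw [hfN _ hg] at hg1'
      apply hg
      rw [eq_inv_of_mul_eq_one_left hg1']
      exact inv_mem hxM
  refine ⟨MulEquiv.ofBijective (MonoidHom.mk' f hf) (Finite.injective_iff_bijective.mp hinj), M,
    ?_, ?_, ?_⟩
  · -- index 2
    rw [Subgroup.index_eq_two_iff]
    have hex : ∃ a : G, a ∉ M := by
      by_contra hcon
      push_neg at hcon
      apply hxZ
      rw [Subgroup.mem_center_iff]
      intro g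
      exact ((hM g).mp (hcon g)).symm
    obtain ⟨a, ha⟩ := hex
    refine ⟨a, fun b => ?_⟩
    by_cases hb : b ∈ M
    · refine Or.inr ⟨hb, fun hba => ha ?_⟩
      have := mul_mem (inv_mem hb) hba
      rwa [inv_mul_cancel_left] at this
    · exact Or.inl ⟨hmulM b a hb ha, hb⟩
  · intro c hcZ
    rw [hM]
    exact Subgroup.mem_center_iff.mp hcZ x
  · intro g hg hconj
    rw [isConj_iff] at hconj
    obtain ⟨c, hc'⟩ := hconj
    have hσ : (MulEquiv.ofBijective (MonoidHom.mk' f hf)
        (Finite.injective_iff_bijective.mp hinj)) g = g * x := hfN g hg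
    rw [hσ] at hc'
    apply hxZ
    apply hZ
    have h3 := hcomm_mem g⁻¹ c
    have h4 : g⁻¹ * c * g⁻¹⁻¹ * c⁻¹ = x := by
      rw [inv_inv]
      calc g⁻¹ * c * g * c⁻¹ = g⁻¹ * (c * g * c⁻¹) := by group
        _ = g⁻¹ * (g * x) := by rw [hc']
        _ = x := by group
    rwa [h4] at h3

end Cfsg.Agent.Helper41.LM
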