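import Cfsg.Prelude.Def_Transfer
import Cfsg.Prelude.Def_Solvable
import Cfsg.Agent.Helper63.N15Defs

/-!
# CALL S4415 (helper63), piece C1 (helper41).
-/

set_option autoImplicit false

namespace Cfsg.Agent.Helper41.N15

open Cfsg.Agent.Helper63.N15

variable {G : Type*} [Group G] [Finite G] {V : Type*} [AddCommGroup V] [Module (ZMod 3) V]
  [Finite V] {ρ : Representation (ZMod 3) G V} {R : Subgroup G} {b q₁ q₂ q₃ : G} {v₁ v₂ v₃ : V}

/-- C1. In case (C) every normal abelian subgroup `A ≤ R` lies in `Z`. -/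
theorem c1 (c : Cfg ρ R b q₁ q₂ q₃ v₁ v₂ v₃)
    (hA : ∀ N : Subgroup G, N.Normal → (∀ x ∈ N, ∀ y ∈ N, x * y = y * x) →
      (Nat.card N).Coprime 6 → N = ⊥)
    (hC : HC R b)
    (hf2 : ∀ N : Subgroup G, N.Normal → (∀ x ∈ N, x * b = b * x) →
      ∀ x ∈ N, ∀ g : G, x * g = g * x)
    (hlz : ∀ z : G, (∀ g : G, z * g = g * z) → IsZ ρ z)
    (hlc4 : ∀ x : G, x * b = b * x → (∀ v : V, ρ (x * x) v = -v) → False) :
    ∀ A : Subgroup G, A.Normal → A ≤ R → (∀ x ∈ A, ∀ y ∈ A, x * y = y * x) →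
      ∀ x ∈ A, IsZ ρ x := by
  classical
  intro A hAn hAR hAab
  have hf := c.faith
  -- (ii) the elements of order at most 2
  let Ω : Subgroup G :=
    { carrier := {x | x ∈ A ∧ x * x = 1}
      mul_mem' := by
        rintro x y ⟨hx, hx2⟩ ⟨hy, hy2⟩
        refine ⟨A.mul_mem hx hy, ?_⟩
        have hc := hAab y hy x hx
        calc x * y * (x * y) = x * (y * x) * y := by simp only [mul_assoc]
          _ = x * (x * y) * y := by rw [hc]
          _ = (x * x) * (y * y) := by simp only [mul_assoc]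
          _ = 1 := by rw [hx2, hy2, one_mul]
      one_mem' := ⟨A.one_mem, one_mul 1⟩
      inv_mem' := by
        rintro x ⟨hx, hx2⟩
        refine ⟨A.inv_mem hx, ?_⟩
        rw [← mul_inv_rev, hx2, inv_one] }
  have hΩmem : ∀ x : G, x ∈ Ω ↔ x ∈ A ∧ x * x = 1 := fun x => Iff.rfl
  have hΩn : Ω.Normal := by
    constructor
    intro x hx g
    rw [hΩmem] at hx ⊢
    obtain ⟨hx, hx2⟩ := hx
    refine ⟨hAn.conj_mem x hx g, ?_⟩
    calc g * x * g⁻¹ * (g * x * g⁻¹) = g * (x * x) * g⁻¹ := by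
          simp only [mul_assoc, inv_mul_cancel_left]
      _ = 1 := by rw [hx2, mul_one, mul_inv_cancel]
  have hΩR : Ω ≤ R := fun x hx => hAR ((hΩmem x).mp hx).1
  have hΩ2 : ∀ x ∈ Ω, x ^ 2 = 1 := fun x hx => by
    rw [pow_two]; exact ((hΩmem x).mp hx).2
  have hΩb : ∀ x ∈ Ω, x * b = b * x := hC Ω hΩn hΩR hΩ2
  have hΩc : ∀ x ∈ Ω, ∀ g : G, x * g = g * x := hf2 Ω hΩn hΩb
  have hΩZ : ∀ x ∈ Ω, IsZ ρ x := fun x hx => hlz x (hΩc x hx)
  -- (i) the elements of odd order
  let O : Subgroup G :=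
    { carrier := {x | x ∈ A ∧ Odd (orderOf x)}
      mul_mem' := by
        rintro x y ⟨hx, hxo⟩ ⟨hy, hyo⟩
        refine ⟨A.mul_mem hx hy, ?_⟩
        have hc : Commute x y := hAab x hx y hy
        have hd := hc.orderOf_mul_dvd_lcm
        have hl : Odd (Nat.lcm (orderOf x) (orderOf y)) :=
          Odd.of_dvd_nat (hxo.mul hyo) (Nat.lcm_dvd_mul _ _)
        exact Odd.of_dvd_nat hl hd
      one_mem' := ⟨A.one_mem, by rw [orderOf_one]; exact odd_one⟩
      inv_mem' := by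
        rintro x ⟨hx, hxo⟩
        exact ⟨A.inv_mem hx, by rw [orderOf_inv]; exact hxo⟩ }
  have hOmem : ∀ x : G, x ∈ O ↔ x ∈ A ∧ Odd (orderOf x) := fun x => Iff.rfl
  have hOn : O.Normal := by
    constructor
    intro x hx g
    rw [hOmem] at hx ⊢
    obtain ⟨hx, hxo⟩ := hx
    refine ⟨hAn.conj_mem x hx g, ?_⟩
    have h1 : orderOf (g * x * g⁻¹) = orderOf x := by
      have := MulEquiv.orderOf_eq (MulAut.conj g) x
      rw [MulAut.conj_apply] at this
      exact this
    rw [h1]; exact hxo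
  have hOab : ∀ x ∈ O, ∀ y ∈ O, x * y = y * x :=
    fun x hx y hy => hAab x ((hOmem x).mp hx).1 y ((hOmem y).mp hy).1
  have hOcop : (Nat.card O).Coprime 6 := by
    have h3 : (Nat.card O).Coprime 3 := by
      have hdvd : Nat.card O ∣ Nat.card R :=
        Subgroup.card_dvd_of_le (fun x hx => hAR ((hOmem x).mp hx).1)
      exact Nat.Coprime.coprime_dvd_left hdvd c.R3
    have h2 : (Nat.card O).Coprime 2 := by
      rw [Nat.coprime_comm, Nat.Prime.coprime_iff_not_dvd Nat.prime_two]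
      intro hdvd
      haveI : Fact (Nat.Prime 2) := ⟨Nat.prime_two⟩
      obtain ⟨x, hx⟩ := exists_prime_orderOf_dvd_card' 2 hdvd
      have hxo : Odd (orderOf (x : G)) := ((hOmem x).mp x.2).2
      rw [Subgroup.orderOf_coe, hx] at hxo
      exact absurd hxo (by decide)
    have h6 : (Nat.card O).Coprime (2 * 3) := Nat.Coprime.mul_right h2 h3
    exact h6
  have hObot : O = ⊥ := hA O hOn hOab hOcop
  have h2pow : ∀ x ∈ A, ∃ a : ℕ, x ^ (2 ^ a) = 1 := by
    intro x hx
    have hpos : orderOf x ≠ 0 := (orderOf_pos x).ne'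
    obtain ⟨k, m, hm, hkm⟩ := Nat.exists_eq_two_pow_mul_odd hpos
    refine ⟨k, ?_⟩
    have hy : x ^ (2 ^ k) ∈ O := by
      rw [hOmem]
      refine ⟨A.pow_mem hx _, ?_⟩
      have h1 : (x ^ (2 ^ k)) ^ m = 1 := by
        rw [← pow_mul, ← hkm, pow_orderOf_eq_one]
      exact Odd.of_dvd_nat hm (orderOf_dvd_of_pow_eq_one h1)
    rw [hObot, Subgroup.mem_bot] at hy
    exact hy
  -- (iii) no element of order 4
  have hsq : ∀ y ∈ A, y * y = 1 := by
    by_contra hcon
    push_neg at hcon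
    obtain ⟨y0, hy0A, hy0⟩ := hcon
    obtain ⟨y, hyA, hy4, hy2⟩ : ∃ y ∈ A, (y * y) * (y * y) = 1 ∧ y * y ≠ 1 := by
      have hex := h2pow y0 hy0A
      have hspec := Nat.find_spec hex
      have ha2 : 2 ≤ Nat.find hex := by
        by_contra hlt
        have h01 : Nat.find hex = 0 ∨ Nat.find hex = 1 := by omega
        rcases h01 with h | h
        · rw [h, pow_zero, pow_one] at hspec
          apply hy0; rw [hspec, one_mul]
        · rw [h, pow_one, pow_two] at hspec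
          exact hy0 hspec
      obtain ⟨j, hj⟩ : ∃ j, Nat.find hex = j + 2 := ⟨Nat.find hex - 2, by omega⟩
      refine ⟨y0 ^ (2 ^ j), A.pow_mem hy0A _, ?_, ?_⟩
      · have e : y0 ^ (2 ^ j) * y0 ^ (2 ^ j) * (y0 ^ (2 ^ j) * y0 ^ (2 ^ j))
            = y0 ^ (2 ^ (j + 2)) := by
          rw [← pow_add, ← pow_add]
          congr 1
          ring
        rw [e, ← hj]; exact hspec
      · intro h
        have hmin := Nat.find_min hex (m := j + 1) (by omega)
        apply hmin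
        rw [pow_succ, pow_mul, pow_two]; exact h
    have hy2Ω : y * y ∈ Ω := (hΩmem _).mpr ⟨A.mul_mem hyA hyA, hy4⟩
    have hy2neg : ∀ v : V, ρ (y * y) v = -v := by
      rcases hΩZ _ hy2Ω with h | h
      · exact absurd h hy2
      · exact h
    have hy2c : ∀ g : G, (y * y) * g = g * (y * y) := hΩc _ hy2Ω
    have hbyA : b * y * b⁻¹ ∈ A := hAn.conj_mem y hyA b
    have huA : b * y * b⁻¹ * y⁻¹ ∈ A := A.mul_mem hbyA (A.inv_mem hyA)
    have huu : (b * y * b⁻¹ * y⁻¹) * (b * y * b⁻¹ * y⁻¹) = 1 := by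
      have hc : y⁻¹ * (b * y * b⁻¹) = (b * y * b⁻¹) * y⁻¹ := hAab _ (A.inv_mem hyA) _ hbyA
      have h1 : (b * y * b⁻¹ * y⁻¹) * (b * y * b⁻¹ * y⁻¹)
          = (b * y * b⁻¹) * (b * y * b⁻¹) * (y⁻¹ * y⁻¹) := by
        calc b * y * b⁻¹ * y⁻¹ * (b * y * b⁻¹ * y⁻¹)
            = b * y * b⁻¹ * (y⁻¹ * (b * y * b⁻¹)) * y⁻¹ := by simp only [mul_assoc]
          _ = b * y * b⁻¹ * ((b * y * b⁻¹) * y⁻¹) * y⁻¹ := by rw [hc]
          _ = _ := by simp only [mul_assoc]
      have h2 : (b * y * b⁻¹) * (b * y * b⁻¹) = y * y := by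
        calc (b * y * b⁻¹) * (b * y * b⁻¹) = b * (y * y) * b⁻¹ := by
              simp only [mul_assoc, inv_mul_cancel_left]
          _ = (y * y) * b * b⁻¹ := by rw [hy2c b]
          _ = y * y := by rw [mul_inv_cancel_right]
      rw [h1, h2, ← mul_inv_rev, mul_inv_cancel]
    have huΩ : b * y * b⁻¹ * y⁻¹ ∈ Ω := (hΩmem _).mpr ⟨huA, huu⟩
    rcases hΩZ _ huΩ with h | h
    · have h' : b * y * b⁻¹ = y := by
        rw [mul_inv_eq_one] at h; exact h
      have hyb : y * b = b * y := by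
        calc y * b = (b * y * b⁻¹) * b := by rw [h']
          _ = b * y := by rw [inv_mul_cancel_right]
      exact hlc4 y hyb hy2neg
    · have h1 : (b * y * b⁻¹ * y⁻¹) * (y * y) = 1 := by
        apply hf
        intro v
        rw [map_mul, Module.End.mul_apply, hy2neg, map_neg, h, neg_neg]
      have h2 : b * y * b⁻¹ = y⁻¹ := by
        have h3 : b * y * b⁻¹ * y = 1 := by
          have e : (b * y * b⁻¹ * y⁻¹) * (y * y) = b * y * b⁻¹ * y := by
            simp only [mul_assoc, inv_mul_cancel_left]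
          rw [← e]; exact h1
        exact eq_inv_of_mul_eq_one_left h3
      have h3 : b * y⁻¹ * b⁻¹ = y := by
        have e : (b * y * b⁻¹)⁻¹ = b * y⁻¹ * b⁻¹ := by
          simp only [mul_inv_rev, inv_inv, mul_assoc]
        rw [← e, h2, inv_inv]
      have hb3 : b * b * b = 1 := by
        have := c.b3
        rw [pow_succ, pow_two] at this
        exact this
      have h4 : (b * b * b) * y * (b * b * b)⁻¹ = y⁻¹ := by
        calc (b * b * b) * y * (b * b * b)⁻¹ = b * (b * (b * y * b⁻¹) * b⁻¹) * b⁻¹ := by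
              simp only [mul_assoc, mul_inv_rev]
          _ = b * (b * y⁻¹ * b⁻¹) * b⁻¹ := by rw [h2]
          _ = b * y * b⁻¹ := by rw [h3]
          _ = y⁻¹ := h2
      rw [hb3, one_mul, inv_one, mul_one] at h4
      apply hy2
      calc y * y = y * y⁻¹ := by rw [← h4]
        _ = 1 := mul_inv_cancel y
  intro x hx
  exact hΩZ x ((hΩmem x).mpr ⟨hx, hsq x hx⟩)

end Cfsg.Agent.Helper41.N15
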