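import Cfsg.Prelude.Def_Transfer
import Cfsg.Prelude.Def_Solvable
import Cfsg.Agent.Helper63.N15Defs

/-!
# CALL S4415 (helper63), piece C2 (helper41).
-/

set_option autoImplicit false

namespace Cfsg.Agent.Helper41.N15

open Cfsg.Agent.Helper63.N15

variable {G : Type*} [Group G] [Finite G] {V : Type*} [AddCommGroup V] [Module (ZMod 3) V]
  [Finite V] {ρ : Representation (ZMod 3) G V} {R : Subgroup G} {b q₁ q₂ q₃ : G} {v₁ v₂ v₃ : V}

theorem c2_isZ_mul (hf : ∀ g : G, (∀ v : V, ρ g v = v) → g = 1) {x y : G}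
    (hx : IsZ ρ x) (hy : IsZ ρ y) : IsZ ρ (x * y) := by
  rcases hx with hx | hx
  · rw [hx, one_mul]; exact hy
  rcases hy with hy | hy
  · rw [hy, mul_one]; exact Or.inr hx
  left
  apply hf
  intro v
  rw [map_mul, Module.End.mul_apply, hy, map_neg, hx, neg_neg]

theorem c2_isZ_inv {x : G} (hx : IsZ ρ x) : IsZ ρ x⁻¹ := by
  rcases hx with hx | hx
  · rw [hx, inv_one]; exact Or.inl rfl
  right
  intro v
  have h1 : ρ x⁻¹ (ρ x v) = v := by
    rw [← Module.End.mul_apply, ← map_mul, inv_mul_cancel, map_one, Module.End.one_apply]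
  rw [hx, map_neg] at h1
  have h2 := congrArg Neg.neg h1
  rw [neg_neg] at h2
  exact h2

theorem c2_isZ_central (hf : ∀ g : G, (∀ v : V, ρ g v = v) → g = 1) {x : G}
    (hx : IsZ ρ x) (g : G) : x * g = g * x := by
  rcases hx with hx | hx
  · rw [hx, one_mul, mul_one]
  have hxi : ∀ v : V, ρ x⁻¹ v = -v := by
    have := c2_isZ_inv (ρ := ρ) (Or.inr hx : IsZ ρ x)
    rcases this with h | h
    · intro v
      have hx1 : x = 1 := by rw [← inv_inv x, h, inv_one]
      have := hx v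
      rw [hx1, map_one, Module.End.one_apply] at this
      rw [h, map_one, Module.End.one_apply]
      exact this
    · exact h
  have h1 : g * x * g⁻¹ * x⁻¹ = 1 := by
    apply hf
    intro v
    have e : ρ g (ρ g⁻¹ v) = v := by
      rw [← Module.End.mul_apply, ← map_mul, mul_inv_cancel, map_one, Module.End.one_apply]
    simp only [map_mul, Module.End.mul_apply, hxi, hx, map_neg, neg_neg]
    exact e
  have h2 : g * x = x * g := by
    have := congrArg (fun t => t * x * g) h1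
    simpa [mul_assoc] using this
  exact h2.symm

theorem c2_isZ_sq (hf : ∀ g : G, (∀ v : V, ρ g v = v) → g = 1) {x : G}
    (hx : IsZ ρ x) : x * x = 1 := by
  rcases hx with hx | hx
  · rw [hx, one_mul]
  apply hf
  intro v
  rw [map_mul, Module.End.mul_apply, hx, hx, neg_neg]

/-- The subgroup of the elements that are trivial or act as `-1`. -/
def c2Z (ρ : Representation (ZMod 3) G V) (hf : ∀ g : G, (∀ v : V, ρ g v = v) → g = 1) :
    Subgroup G where
  carrier := {g | IsZ ρ g}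
  mul_mem' := fun hx hy => c2_isZ_mul hf hx hy
  one_mem' := Or.inl rfl
  inv_mem' := fun hx => c2_isZ_inv hx

theorem c2Z_normal (hf : ∀ g : G, (∀ v : V, ρ g v = v) → g = 1) : (c2Z ρ hf).Normal := by
  constructor
  intro x hx g
  have h : g * x * g⁻¹ = x := by
    rw [← c2_isZ_central hf hx g, mul_inv_cancel_right]
  rw [h]
  exact hx

/-- C2. -/
theorem c2 (c : Cfg ρ R b q₁ q₂ q₃ v₁ v₂ v₃)
    (hc1 : ∀ A : Subgroup G, A.Normal → A ≤ R → (∀ x ∈ A, ∀ y ∈ A, x * y = y * x) →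
      ∀ x ∈ A, IsZ ρ x)
    (hminn : MinnStmt R) :
    ∀ N : Subgroup G, N.Normal → N ≤ R → (∃ x ∈ N, ¬ IsZ ρ x) →
      ∃ M : Subgroup G, M.Normal ∧ M ≤ N ∧ IsPGroup 2 M ∧ ∃ x ∈ M, ¬ IsZ ρ x := by
  classical
  intro N hNn hNR hex
  have hf := c.faith
  haveI hZn : (c2Z ρ hf).Normal := c2Z_normal hf
  have hKn : (N ⊓ c2Z ρ hf).Normal := by
    haveI := hNn
    infer_instance
  have hKN : N ⊓ c2Z ρ hf < N := by
    refine lt_of_le_of_ne inf_le_left ?_
    intro h
    obtain ⟨x, hxN, hxZ⟩ := hex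
    have : x ∈ N ⊓ c2Z ρ hf := by rw [h]; exact hxN
    exact hxZ this.2
  obtain ⟨M, hMn, hKM, hMN, r, hr, hpow, hcomm⟩ := hminn N (N ⊓ c2Z ρ hf) hNn hNR hKn hKN
  have hKZ : ∀ k ∈ N ⊓ c2Z ρ hf, IsZ ρ k := fun k hk => hk.2
  -- an element of M outside K is not in Z
  have hexM : ∃ x ∈ M, ¬ IsZ ρ x := by
    obtain ⟨x, hxM, hxK⟩ := SetLike.exists_of_lt hKM
    exact ⟨x, hxM, fun hz => hxK ⟨hMN hxM, hz⟩⟩
  by_cases hr2 : r = 2
  · subst hr2
    refine ⟨M, hMn, hMN, ?_, hexM⟩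
    intro g
    refine ⟨2, ?_⟩
    apply Subtype.ext
    have h1 : (g : G) ^ 2 ∈ N ⊓ c2Z ρ hf := hpow g g.2
    have h2 := c2_isZ_sq hf (hKZ _ h1)
    show (g : G) ^ (2 ^ 2) = 1
    have : (g : G) ^ (2 ^ 2) = (g : G) ^ 2 * (g : G) ^ 2 := by
      rw [← pow_add]
      norm_num
    rw [this]
    exact h2
  · exfalso
    have hodd : Odd r := hr.odd_of_ne_two hr2
    obtain ⟨m, hm⟩ := hodd
    have hab : ∀ x ∈ M, ∀ y ∈ M, x * y = y * x := by
      intro x hx y hy
      have hu : x * y * x⁻¹ * y⁻¹ ∈ N ⊓ c2Z ρ hf := hcomm x hx y hy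
      have huZ := hKZ _ hu
      have hucen : ∀ g : G, (x * y * x⁻¹ * y⁻¹) * g = g * (x * y * x⁻¹ * y⁻¹) :=
        fun g => c2_isZ_central hf huZ g
      have husq : (x * y * x⁻¹ * y⁻¹) * (x * y * x⁻¹ * y⁻¹) = 1 := c2_isZ_sq hf huZ
      have hxy : x * y = (x * y * x⁻¹ * y⁻¹) * y * x := by
        simp [mul_assoc]
      have hind : ∀ n : ℕ, x ^ n * y = (x * y * x⁻¹ * y⁻¹) ^ n * y * x ^ n := by
        intro n
        induction n with
        | zero => simp
        | succ n ih =>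
          have hc : Commute (x * y * x⁻¹ * y⁻¹) (x ^ n) := hucen _
          calc x ^ (n + 1) * y = x ^ n * (x * y) := by rw [pow_succ, mul_assoc]
            _ = x ^ n * ((x * y * x⁻¹ * y⁻¹) * y * x) := by rw [← hxy]
            _ = (x * y * x⁻¹ * y⁻¹) * (x ^ n * y) * x := by
                rw [← mul_assoc, ← mul_assoc, ← hc.eq, mul_assoc (x * y * x⁻¹ * y⁻¹)]
            _ = (x * y * x⁻¹ * y⁻¹) * ((x * y * x⁻¹ * y⁻¹) ^ n * y * x ^ n) * x := by rw [ih]
            _ = (x * y * x⁻¹ * y⁻¹) ^ (n + 1) * y * x ^ (n + 1) := by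
                rw [pow_succ' (x * y * x⁻¹ * y⁻¹), pow_succ x]
                simp only [mul_assoc]
      have hxr : x ^ r ∈ N ⊓ c2Z ρ hf := hpow x hx
      have hxrc : x ^ r * y = y * x ^ r := c2_isZ_central hf (hKZ _ hxr) y
      have h1 := hind r
      rw [hxrc] at h1
      have hur : (x * y * x⁻¹ * y⁻¹) ^ r = 1 := by
        have h2 : (1 : G) * (y * x ^ r) = (x * y * x⁻¹ * y⁻¹) ^ r * (y * x ^ r) := by
          rw [one_mul, ← mul_assoc]; exact h1
        exact (mul_right_cancel h2).symm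
      have hu1 : x * y * x⁻¹ * y⁻¹ = 1 := by
        rw [hm, pow_succ, pow_mul, pow_two, husq, one_pow, one_mul] at hur
        exact hur
      have : x * y = (x * y * x⁻¹ * y⁻¹) * y * x := hxy
      rw [hu1, one_mul] at this
      exact this
    have hMZ := hc1 M hMn (hMN.trans hNR) hab
    obtain ⟨x, hxM, hxZ⟩ := hexM
    exact hxZ (hMZ x hxM)

end Cfsg.Agent.Helper41.N15
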