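import Cfsg.Prelude.Def_Transfer
import Cfsg.Prelude.Def_Solvable
import Cfsg.Agent.Helper63.N15Defs
import Cfsg.Agent.Helper1.MinNormal

/-!
# CALL S4415 (helper63), piece MINN (helper41).
-/

set_option autoImplicit false

namespace Cfsg.Agent.Helper41.N15

open Cfsg.Agent.Helper63.N15

variable {G : Type*} [Group G] [Finite G] {V : Type*} [AddCommGroup V] [Module (ZMod 3) V]
  [Finite V] {ρ : Representation (ZMod 3) G V} {R : Subgroup G} {b q₁ q₂ q₃ : G} {v₁ v₂ v₃ : V}

/-- MINN (pure group theory). A chief factor `M / K` of `G` inside a solvable normal subgroup is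
an elementary abelian `r`-group.  (Take `M` minimal among the normal subgroups of `G` with
`K < M ≤ N`; `M / K` is a solvable minimal normal subgroup of `G / K`.  Libraries on main have
"a minimal normal subgroup of a solvable group is elementary abelian".) -/
theorem minn (hsol : Group.IsSolvable ↥R) : MinnStmt R := by
  classical
  intro N K hNn hNR hKn hKN
  haveI := hKn
  -- a minimal M
  obtain ⟨M, ⟨hMn, hKM, hMN⟩, hMmin⟩ :=
    (wellFounded_lt (α := Subgroup G)).has_min
      {M : Subgroup G | M.Normal ∧ K < M ∧ M ≤ N} ⟨N, hNn, hKN, le_rfl⟩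
  have hπs : Function.Surjective (QuotientGroup.mk' K) := QuotientGroup.mk'_surjective K
  haveI hMbn : (M.map (QuotientGroup.mk' K)).Normal := hMn.map (QuotientGroup.mk' K) hπs
  have hMR : M ≤ R := hMN.trans hNR
  haveI hMsol : Group.IsSolvable ↥M :=
    solvable_of_solvable_injective (Subgroup.inclusion_injective hMR)
  haveI hMbsol : Group.IsSolvable ↥(M.map (QuotientGroup.mk' K)) := by
    have hsurj : Function.Surjective ((QuotientGroup.mk' K).subgroupMap M) :=
      (QuotientGroup.mk' K).subgroupMap_surjective M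
    exact solvable_of_surjective hsurj
  have hMbne : M.map (QuotientGroup.mk' K) ≠ ⊥ := by
    intro h
    have hMK : M ≤ K := by
      intro x hx
      have h1 : (QuotientGroup.mk' K) x ∈ M.map (QuotientGroup.mk' K) :=
        Subgroup.mem_map_of_mem _ hx
      rw [h, Subgroup.mem_bot] at h1
      exact (QuotientGroup.eq_one_iff x).mp h1
    exact lt_irrefl _ (lt_of_lt_of_le hKM hMK)
  have hmin : ∀ L : Subgroup (G ⧸ K), L.Normal → L ≤ M.map (QuotientGroup.mk' K) →
      L = ⊥ ∨ L = M.map (QuotientGroup.mk' K) := by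
    intro L hLn hLM
    have hL'n : (L.comap (QuotientGroup.mk' K)).Normal := hLn.comap _
    have hKL' : K ≤ L.comap (QuotientGroup.mk' K) := by
      intro x hx
      rw [Subgroup.mem_comap]
      have : (QuotientGroup.mk' K) x = 1 := (QuotientGroup.eq_one_iff x).mpr hx
      rw [this]
      exact L.one_mem
    have hL'M : L.comap (QuotientGroup.mk' K) ≤ M := by
      intro x hx
      rw [Subgroup.mem_comap] at hx
      obtain ⟨m, hm, hmx⟩ := Subgroup.mem_map.mp (hLM hx)
      have h1 : m⁻¹ * x ∈ K := by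
        apply (QuotientGroup.eq_one_iff (m⁻¹ * x)).mp
        show (QuotientGroup.mk' K) (m⁻¹ * x) = 1
        rw [map_mul, map_inv, hmx, inv_mul_cancel]
      have h2 : x = m * (m⁻¹ * x) := by rw [mul_inv_cancel_left]
      rw [h2]
      exact M.mul_mem hm (hKM.le h1)
    have hLeq : (L.comap (QuotientGroup.mk' K)).map (QuotientGroup.mk' K) = L :=
      Subgroup.map_comap_eq_self_of_surjective hπs L
    rcases eq_or_lt_of_le hKL' with h | h
    · left
      rw [← hLeq, ← h]
      ext y
      rw [Subgroup.mem_map, Subgroup.mem_bot]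
      constructor
      · rintro ⟨x, hx, rfl⟩
        exact (QuotientGroup.eq_one_iff x).mpr hx
      · intro hy
        exact ⟨1, K.one_mem, by rw [map_one, hy]⟩
    · right
      have hmem : L.comap (QuotientGroup.mk' K) ∈ {M : Subgroup G | M.Normal ∧ K < M ∧ M ≤ N} :=
        ⟨hL'n, h, hL'M.trans hMN⟩
      have hnot := hMmin _ hmem
      have heq : L.comap (QuotientGroup.mk' K) = M := by
        rcases eq_or_lt_of_le hL'M with h' | h'
        · exact h'
        · exact absurd h' hnot
      rw [← hLeq, heq]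
  obtain ⟨hcomm, r, hr, hexp⟩ :=
    Cfsg.Agent.Helper1.minNormal_elemAbelian (M.map (QuotientGroup.mk' K)) hMbne hmin
  refine ⟨M, hMn, hKM, hMN, r, hr, ?_, ?_⟩
  · intro x hx
    apply (QuotientGroup.eq_one_iff (x ^ r)).mp
    show (QuotientGroup.mk' K) (x ^ r) = 1
    rw [map_pow]
    exact hexp _ (Subgroup.mem_map_of_mem _ hx)
  · intro x hx y hy
    apply (QuotientGroup.eq_one_iff (x * y * x⁻¹ * y⁻¹)).mp
    have hc : (⟨(QuotientGroup.mk' K) x, Subgroup.mem_map_of_mem _ hx⟩ :
        ↥(M.map (QuotientGroup.mk' K))) * ⟨(QuotientGroup.mk' K) y, Subgroup.mem_map_of_mem _ hy⟩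
        = ⟨(QuotientGroup.mk' K) y, Subgroup.mem_map_of_mem _ hy⟩ *
          ⟨(QuotientGroup.mk' K) x, Subgroup.mem_map_of_mem _ hx⟩ :=
      hcomm.is_comm.comm _ _
    have hc' : (QuotientGroup.mk' K) x * (QuotientGroup.mk' K) y
        = (QuotientGroup.mk' K) y * (QuotientGroup.mk' K) x := congrArg Subtype.val hc
    show (QuotientGroup.mk' K) (x * y * x⁻¹ * y⁻¹) = 1
    rw [map_mul, map_mul, map_mul, map_inv, map_inv, hc', mul_inv_cancel_right, mul_inv_cancel]

end Cfsg.Agent.Helper41.N15
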