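import Cfsg.Prelude.Def_Transfer
import Cfsg.Prelude.Def_Solvable
import Cfsg.Agent.Helper63.N15Defs
import Cfsg.Agent.Helper53.PCenter

/-!
# CALL S4415 (helper63), piece PCEN (helper41).
-/

set_option autoImplicit false

namespace Cfsg.Agent.Helper41.N15

open Cfsg.Agent.Helper63.N15

variable {G : Type*} [Group G] [Finite G] {V : Type*} [AddCommGroup V] [Module (ZMod 3) V]
  [Finite V] {ρ : Representation (ZMod 3) G V} {R : Subgroup G} {b q₁ q₂ q₃ : G} {v₁ v₂ v₃ : V}

/-- PCEN (pure group theory). See `PcenStmt`: `N / K` is a nontrivial normal subgroup of the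
`2`-group `T / K`, so it meets the centre of `T / K` nontrivially; take an element of order `2`
of the intersection. -/
theorem pcen : PcenStmt G := by
  classical
  intro T N K hT hTn hNn hNT hKn hKN
  haveI : Fact (Nat.Prime 2) := ⟨Nat.prime_two⟩
  haveI := hKn
  have hπs : Function.Surjective (QuotientGroup.mk' K) := QuotientGroup.mk'_surjective K
  have hPbar : IsPGroup 2 (T.map (QuotientGroup.mk' K)) := hT.map (QuotientGroup.mk' K)
  have hAle : N.map (QuotientGroup.mk' K) ≤ T.map (QuotientGroup.mk' K) := Subgroup.map_mono hNT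
  haveI hNbn : (N.map (QuotientGroup.mk' K)).Normal := hNn.map (QuotientGroup.mk' K) hπs
  have hnorm : T.map (QuotientGroup.mk' K)
      ≤ Subgroup.normalizer ((N.map (QuotientGroup.mk' K) : Subgroup (G ⧸ K)) : Set (G ⧸ K)) := by
    rw [Subgroup.normalizer_eq_top]
    exact le_top
  have hne : N.map (QuotientGroup.mk' K) ≠ ⊥ := by
    intro h
    have hNK : N ≤ K := by
      intro x hx
      have h1 : (QuotientGroup.mk' K) x ∈ N.map (QuotientGroup.mk' K) :=
        Subgroup.mem_map_of_mem _ hx
      rw [h, Subgroup.mem_bot] at h1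
      exact (QuotientGroup.eq_one_iff x).mp h1
    exact lt_irrefl _ (lt_of_lt_of_le hKN hNK)
  obtain ⟨z, hzA, hz1, hzc⟩ :=
    Cfsg.Agent.Helper53.exists_central_of_normalized hPbar hAle hnorm hne
  -- an element of order 2 among the powers of z
  have hex : ∃ k : ℕ, z ^ (2 ^ k) = 1 := by
    obtain ⟨k, hk⟩ := hPbar ⟨z, hAle hzA⟩
    exact ⟨k, by simpa using congrArg Subtype.val hk⟩
  have hk0 : Nat.find hex ≠ 0 := by
    intro h0
    have := Nat.find_spec hex
    rw [h0, pow_zero, pow_one] at this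
    exact hz1 this
  obtain ⟨j, hj⟩ := Nat.exists_eq_succ_of_ne_zero hk0
  set w := z ^ (2 ^ j) with hw
  have hw1 : w ≠ 1 := by
    intro h
    have := Nat.find_min hex (m := j) (by omega)
    exact this h
  have hw2 : w * w = 1 := by
    have := Nat.find_spec hex
    rw [hj, pow_succ, pow_mul] at this
    rw [← pow_two]
    exact this
  have hwA : w ∈ N.map (QuotientGroup.mk' K) := Subgroup.pow_mem _ hzA _
  have hwc : ∀ g ∈ T.map (QuotientGroup.mk' K), g * w = w * g := by
    intro g hg
    have h1 : Commute g z := hzc g hg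
    exact h1.pow_right _
  obtain ⟨x, hxN, hxw⟩ := Subgroup.mem_map.mp hwA
  refine ⟨x, hxN, ?_, ?_, ?_⟩
  · intro hxK
    apply hw1
    rw [← hxw]
    exact (QuotientGroup.eq_one_iff x).mpr hxK
  · apply (QuotientGroup.eq_one_iff (x * x)).mp
    have : (QuotientGroup.mk' K) (x * x) = w * w := by rw [map_mul, hxw]
    exact this.trans hw2
  · intro t ht
    apply (QuotientGroup.eq_one_iff (x * t * x⁻¹ * t⁻¹)).mp
    have h1 : (QuotientGroup.mk' K) t * w = w * (QuotientGroup.mk' K) t :=
      hwc _ (Subgroup.mem_map_of_mem _ ht)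
    have : (QuotientGroup.mk' K) (x * t * x⁻¹ * t⁻¹)
        = w * (QuotientGroup.mk' K) t * w⁻¹ * ((QuotientGroup.mk' K) t)⁻¹ := by
      rw [map_mul, map_mul, map_mul, map_inv, map_inv, hxw]
    refine this.trans ?_
    rw [← h1, mul_inv_cancel_right, mul_inv_cancel]

end Cfsg.Agent.Helper41.N15
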