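import Cfsg.Prelude.Def_Transfer
import Cfsg.Prelude.Def_Solvable
import Cfsg.Agent.Helper63.N15Defs

/-!
# CALL S4415 (helper63), piece TP (helper41).
-/

set_option autoImplicit false

namespace Cfsg.Agent.Helper41.N15

open Cfsg.Agent.Helper63.N15

variable {G : Type*} [Group G] [Finite G] {V : Type*} [AddCommGroup V] [Module (ZMod 3) V]
  [Finite V] {ρ : Representation (ZMod 3) G V} {R : Subgroup G} {b q₁ q₂ q₃ : G} {v₁ v₂ v₃ : V}

/-- TP (pure group theory). `T2 R` (the join of the normal `2`-subgroups of `G` inside `R`) is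
the largest normal `2`-subgroup of `G` inside `R` (a finite join of normal `2`-subgroups is a
`2`-group). -/
theorem tp (R : Subgroup G) : TProps R (T2 R) := by
  haveI : Fact (Nat.Prime 2) := ⟨Nat.prime_two⟩
  refine ⟨?_, ?_, ?_, ?_⟩
  · exact Subgroup.sSup_normal _ (fun H hH => hH.1)
  · exact sSup_le (fun H hH => hH.2.1)
  · exact Sylow.sSup_of_normal _ (fun H hH => hH.2.2) (fun H hH => hH.1)
  · intro N hN hNR hN2
    exact le_sSup ⟨hN, hNR, hN2⟩

end Cfsg.Agent.Helper41.N15
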