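import Mathlib

/-!
# Piece CNT of CALL S0977 (helper52): `n_3 = 10 *` (number of Sylow 3-subgroups inside `M`)
-/

set_option autoImplicit false

namespace Cfsg.Agent.Helper41

variable {G : Type*} [Group G] [Finite G]

theorem o4320_count [IsSimpleGroup G] (hG : Nat.card G = 4320)
    (M : Subgroup G) (hM : M.index = 10)
    (hfix : ∀ Q : Sylow 3 G, ∃ a : G ⧸ M, (∀ q ∈ (Q : Subgroup G), q • a = a) ∧
      ∀ x : G ⧸ M, (∀ q ∈ (Q : Subgroup G), q • x = x) → x = a) :
    Nat.card (Sylow 3 G) = 10 * Nat.card {Q : Sylow 3 G // (Q : Subgroup G) ≤ M} := by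
  classical
  letI : Fintype (G ⧸ M) := Fintype.ofFinite _
  have hX : Fintype.card (G ⧸ M) = 10 := by
    rw [← Nat.card_eq_fintype_card, ← hM]
    rfl
  choose φ hφ1 hφ2 using hfix
  have hφ : ∀ (g : G) (Q : Sylow 3 G), φ (g • Q) = g • φ Q := by
    intro g Q
    symm
    apply hφ2 (g • Q)
    intro q hq
    have hq' : g⁻¹ * q * g ∈ (Q : Subgroup G) := by
      rw [Sylow.coe_subgroup_smul, Subgroup.mem_pointwise_smul_iff_inv_smul_mem] at hq
      simpa [MulAut.smul_def] using hq
    have h1 := hφ1 Q _ hq'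
    calc q • g • φ Q = g • ((g⁻¹ * q * g) • φ Q) := by
          rw [smul_smul, smul_smul]
          congr 1
          group
      _ = g • φ Q := by rw [h1]
  have hst : MulAction.stabilizer G ((1 : G) : G ⧸ M) = M := MulAction.stabilizer_quotient M
  have hfib : ∀ Q : Sylow 3 G, φ Q = ((1 : G) : G ⧸ M) ↔ (Q : Subgroup G) ≤ M := by
    intro Q
    constructor
    · intro h q hq
      have h1 := hφ1 Q q hq
      rw [h] at h1
      rw [← hst]
      exact h1
    · intro h
      symm
      apply hφ2 Q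
      intro q hq
      have : q ∈ MulAction.stabilizer G ((1 : G) : G ⧸ M) := by
        rw [hst]
        exact h hq
      exact this
  have hcard : ∀ y : G ⧸ M, Nat.card {Q : Sylow 3 G // φ Q = y} =
      Nat.card {Q : Sylow 3 G // (Q : Subgroup G) ≤ M} := by
    intro y
    obtain ⟨g, hg⟩ := MulAction.exists_smul_eq G (((1 : G) : G ⧸ M)) y
    symm
    apply Nat.card_congr
    refine (MulAction.toPerm g).subtypeEquiv (fun Q => ?_)
    rw [MulAction.toPerm_apply, hφ, ← hg, ← hfib]
    exact (smul_left_cancel_iff g).symm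
  rw [← Nat.card_congr (Equiv.sigmaFiberEquiv φ), Nat.card_sigma,
    Finset.sum_congr rfl (fun y _ => hcard y), Finset.sum_const, Finset.card_univ, hX,
    smul_eq_mul]

end Cfsg.Agent.Helper41
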