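import Mathlib

/-!
# Piece TP of CALL S0977 (helper52): 2-transitivity on the 10 cosets and two-point stabilisers
-/

set_option autoImplicit false

namespace Cfsg.Agent.Helper41

variable {G : Type*} [Group G] [Finite G]

theorem o4320_two_trans (hG : Nat.card G = 4320)
    (M : Subgroup G) (hM : M.index = 10)
    (htr : ∃ a : G ⧸ M, ∀ x y : G ⧸ M, x ≠ a → y ≠ a → ∃ g : G, g • a = a ∧ g • x = y) :
    (∀ a b c d : G ⧸ M, a ≠ b → c ≠ d → ∃ g : G, g • a = c ∧ g • b = d) ∧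
    (∀ a b : G ⧸ M, a ≠ b →
      Nat.card ↥(MulAction.stabilizer G a ⊓ MulAction.stabilizer G b) = 48) := by
  classical
  have h2t : ∀ a b c d : G ⧸ M, a ≠ b → c ≠ d → ∃ g : G, g • a = c ∧ g • b = d := by
    intro a b c d hab hcd
    obtain ⟨a₀, h0⟩ := htr
    obtain ⟨g₁, hg₁⟩ := MulAction.exists_smul_eq G a a₀
    obtain ⟨g₂, hg₂⟩ := MulAction.exists_smul_eq G c a₀
    have h1 : g₁ • b ≠ a₀ := fun e => hab (smul_left_cancel g₁ (by rw [hg₁, e]))
    have h2 : g₂ • d ≠ a₀ := fun e => hcd (smul_left_cancel g₂ (by rw [hg₂, e]))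
    obtain ⟨h, ha, hb⟩ := h0 _ _ h1 h2
    refine ⟨g₂⁻¹ * h * g₁, ?_, ?_⟩
    · rw [mul_smul, mul_smul, hg₁, ha, inv_smul_eq_iff, hg₂]
    · rw [mul_smul, mul_smul, hb, inv_smul_smul]
  refine ⟨h2t, ?_⟩
  letI : Fintype (G ⧸ M) := Fintype.ofFinite _
  have hX : Fintype.card (G ⧸ M) = 10 := by
    rw [← Nat.card_eq_fintype_card, ← hM]
    rfl
  intro a b hab
  have hstab : MulAction.stabilizer G ((a, b) : (G ⧸ M) × (G ⧸ M)) =
      MulAction.stabilizer G a ⊓ MulAction.stabilizer G b := by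
    ext g
    simp [MulAction.mem_stabilizer_iff, Prod.ext_iff]
  have horb : MulAction.orbit G ((a, b) : (G ⧸ M) × (G ⧸ M)) =
      (((Finset.univ : Finset (G ⧸ M)).offDiag : Finset ((G ⧸ M) × (G ⧸ M))) :
        Set ((G ⧸ M) × (G ⧸ M))) := by
    ext ⟨c, d⟩
    rw [MulAction.mem_orbit_iff]
    simp only [Finset.mem_coe, Finset.mem_offDiag, Finset.mem_univ, true_and]
    constructor
    · rintro ⟨g, hg⟩
      rw [Prod.smul_mk, Prod.mk.injEq] at hg
      intro e
      apply hab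
      apply smul_left_cancel g
      rw [hg.1, hg.2, e]
    · intro hcd
      obtain ⟨g, h1, h2⟩ := h2t a b c d hab hcd
      exact ⟨g, by rw [Prod.smul_mk, h1, h2]⟩
  have h : Nat.card (MulAction.orbit G ((a, b) : (G ⧸ M) × (G ⧸ M))) *
      Nat.card (MulAction.stabilizer G ((a, b) : (G ⧸ M) × (G ⧸ M))) = Nat.card G := by
    rw [← Nat.card_prod]
    exact Nat.card_congr (MulAction.orbitProdStabilizerEquivGroup G _)
  rw [hstab, horb, Nat.card_coe_set_eq, Set.ncard_coe_finset, Finset.offDiag_card,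
    Finset.card_univ, hX, hG] at h
  omega

end Cfsg.Agent.Helper41
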