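import Mathlib
import Cfsg.Agent.Helper95.OSylDefs

/-!
# Piece PG of CALL S4629 (helper95): the monomial subgroup `Phi(D^k) Psi(T) Eps` is a `2`-group
-/

set_option autoImplicit false
open Matrix Cfsg
open Cfsg.Agent.Helper95.OSyl

universe u

namespace Cfsg.Agent.Helper41

variable {F : Type u} [Field F] {k r : ℕ}

theorem osylpg_perm_block (σ : Equiv.Perm (Fin k)) (g : Fin k → Matrix (Fin 2) (Fin 2) F) :
    ((pmE σ).toPEquiv.toMatrix : Matrix (Fin 2 × Fin k) (Fin 2 × Fin k) F) *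
        Matrix.blockDiagonal g =
      Matrix.blockDiagonal (fun i => g (σ⁻¹ i)) * (pmE σ).toPEquiv.toMatrix := by
  ext ⟨a, i⟩ ⟨b, j⟩
  rw [PEquiv.toMatrix_toPEquiv_mul, PEquiv.mul_toMatrix_toPEquiv]
  have e1 : pmE σ (a, i) = (a, σ⁻¹ i) := rfl
  have e2 : (pmE σ).symm (b, j) = (b, σ j) := by
    rw [Equiv.symm_apply_eq]
    show (b, j) = (b, σ⁻¹ (σ j))
    simp
  rw [Matrix.submatrix_apply, Matrix.submatrix_apply, id, id, e1, e2,
    Matrix.blockDiagonal_apply, Matrix.blockDiagonal_apply]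
  by_cases h : σ⁻¹ i = j
  · have h' : i = σ j := by rw [← h]; simp
    rw [if_pos h, if_pos h']
  · have h' : ¬ i = σ j := fun e => h (by rw [e]; simp)
    rw [if_neg h, if_neg h']

theorem osylpg_psi_phi (c : Fin r → F) (σ : Equiv.Perm (Fin k)) (g : Fin k → ↥(O2 F)) :
    Psi k c σ * Phi k c g * (Psi k c σ)⁻¹ = Phi k c (fun i => g (σ⁻¹ i)) := by
  rw [mul_inv_eq_iff_eq_mul]
  apply Subtype.ext
  apply Units.ext
  rw [Subgroup.coe_mul, Subgroup.coe_mul, Units.val_mul, Units.val_mul, Psi_coe, Phi_coe, Phi_coe,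
    Matrix.fromBlocks_multiply, Matrix.fromBlocks_multiply, osylpg_perm_block]
  simp

theorem osylpg_eps_phi (c : Fin r → F) (e : Fin r → ℤˣ) (g : Fin k → ↥(O2 F)) :
    Eps k c e * Phi k c g = Phi k c g * Eps k c e := by
  apply Subtype.ext
  apply Units.ext
  rw [Subgroup.coe_mul, Subgroup.coe_mul, Units.val_mul, Units.val_mul, Eps_coe, Phi_coe,
    Matrix.fromBlocks_multiply, Matrix.fromBlocks_multiply]
  simp

theorem osylpg_eps_psi (c : Fin r → F) (e : Fin r → ℤˣ) (σ : Equiv.Perm (Fin k)) :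
    Eps k c e * Psi k c σ = Psi k c σ * Eps k c e := by
  apply Subtype.ext
  apply Units.ext
  rw [Subgroup.coe_mul, Subgroup.coe_mul, Units.val_mul, Units.val_mul, Eps_coe, Psi_coe,
    Matrix.fromBlocks_multiply, Matrix.fromBlocks_multiply]
  simp

theorem osyl_isPGroup [Finite F] (c : Fin r → F) (D : Subgroup ↥(O2 F))
    (T : Subgroup (Equiv.Perm (Fin k))) (hD : IsPGroup 2 D) (hT : IsPGroup 2 T) :
    IsPGroup 2 ↥((Subgroup.pi Set.univ (fun _ : Fin k => D)).map (Phi k c) ⊔ T.map (Psi k c) ⊔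
      (Eps k c).range) := by
  have hpi : IsPGroup 2 (Subgroup.pi Set.univ (fun _ : Fin k => D)) := by
    obtain ⟨n, hn⟩ := hD.exists_card_eq
    rintro ⟨g, hg⟩
    refine ⟨n, ?_⟩
    apply Subtype.ext
    funext j
    have h1 : (⟨g j, hg j (Set.mem_univ j)⟩ : D) ^ Nat.card D = 1 := pow_card_eq_one'
    rw [hn] at h1
    have h2 := congrArg Subtype.val h1
    simpa using h2
  have hA := hpi.map (Phi k c)
  have hB := hT.map (Psi k c)
  have hAB : IsPGroup 2 ↥((Subgroup.pi Set.univ (fun _ : Fin k => D)).map (Phi k c) ⊔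
      T.map (Psi k c)) := by
    refine IsPGroup.to_sup_of_normal_left' hA hB ?_
    rintro x ⟨σ, hσ, rfl⟩
    apply Subgroup.mem_normalizer_fintype
    rintro y ⟨g, hg, rfl⟩
    rw [osylpg_psi_phi]
    exact ⟨fun i => g (σ⁻¹ i), fun j _ => hg (σ⁻¹ j) (Set.mem_univ _), rfl⟩
  have hE : IsPGroup 2 ↥(Eps k c).range := by
    have htop : IsPGroup 2 (Fin r → ℤˣ) := by
      intro e
      refine ⟨1, ?_⟩
      funext l
      rw [pow_one, Pi.pow_apply, Pi.one_apply]
      exact Int.units_sq (e l)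
    rw [MonoidHom.range_eq_map]
    exact (htop.to_subgroup ⊤).map _
  refine IsPGroup.to_sup_of_normal_left' hAB hE ?_
  rintro x ⟨e, rfl⟩
  apply Subgroup.centralizer_le_normalizer
  rw [Subgroup.mem_centralizer_iff]
  have hle : (Subgroup.pi Set.univ (fun _ : Fin k => D)).map (Phi k c) ⊔ T.map (Psi k c) ≤
      Subgroup.centralizer {Eps k c e} := by
    apply sup_le
    · rintro y ⟨g, hg, rfl⟩
      rw [Subgroup.mem_centralizer_iff]
      intro z hz
      rw [Set.mem_singleton_iff] at hz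
      rw [hz, osylpg_eps_phi]
    · rintro y ⟨σ, hσ, rfl⟩
      rw [Subgroup.mem_centralizer_iff]
      intro z hz
      rw [Set.mem_singleton_iff] at hz
      rw [hz, osylpg_eps_psi]
  intro y hy
  have := hle hy
  rw [Subgroup.mem_centralizer_iff] at this
  exact (this _ rfl).symm

end Cfsg.Agent.Helper41
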