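import Mathlib
import Cfsg.Agent.Helper95.OTSDefs

set_option autoImplicit false

/-! CALL S5972 piece ODD (helper41, double). -/

namespace Cfsg.Agent.Helper41.OTS

open Module Polynomial
open Cfsg.Agent.Helper13.TIsp Cfsg.Agent.Helper42.SpGroup Cfsg.Agent.Helper42.SpModels
open Cfsg.Agent.Helper95.OTS

variable {F : Type*} [Field F] {V : Type*} [AddCommGroup V] [Module F V] [FiniteDimensional F V]
  (B : LinearMap.BilinForm F V)

omit [FiniteDimensional F V] in
theorem odd_pow_pres (T : Module.End F V) (hT : Preserves B T) (j : ℕ) (x y : V) :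
    B ((T ^ j) x) ((T ^ j) y) = B x y := by
  induction j with
  | zero => simp
  | succ j ih => rw [pow_succ', Module.End.mul_apply, Module.End.mul_apply, hT, ih]

omit [FiniteDimensional F V] in
theorem odd_reflect (T : Module.End F V) (hT : Preserves B T) (N : ℕ) (f : F[X])
    (hf : f.natDegree ≤ N) (x y : V) :
    B x (aeval T (f.reflect N) y) = B (aeval T f x) ((T ^ N) y) := by
  revert hf
  refine Polynomial.induction_with_natDegree_le (fun f =>
    B x (aeval T (f.reflect N) y) = B (aeval T f x) ((T ^ N) y)) N ?_ ?_ ?_ f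
  · simp
  · intro n a ha hn
    rw [reflect_C_mul_X_pow, revAt_le hn]
    simp only [map_mul, aeval_C, map_pow, aeval_X, Module.End.mul_apply,
      Module.algebraMap_end_apply]
    rw [map_smul, map_smul, LinearMap.smul_apply]
    have h1 : (T ^ N) y = (T ^ n) ((T ^ (N - n)) y) := by
      rw [← Module.End.mul_apply, ← pow_add, Nat.add_sub_cancel' hn]
    rw [h1, odd_pow_pres B T hT]
  · intro f₁ f₂ _ _ h1 h2
    rw [reflect_add, map_add, map_add, LinearMap.add_apply, LinearMap.add_apply,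
      map_add, map_add, LinearMap.add_apply, h1, h2]

omit [FiniteDimensional F V] in
theorem odd_ker_ti (T : Module.End F V) (hT : Preserves B T) (h : F[X])
    (hcop : IsCoprime h h.reverse) :
    ∀ u u', aeval T h u = 0 → aeval T h u' = 0 → B u u' = 0 := by
  obtain ⟨a, b, hab⟩ := hcop
  intro u u' hu hu'
  have h1 : u' = aeval T h.reverse (aeval T b u') := by
    have h2 := congrArg (fun f => aeval T f u') hab
    simp only [map_add, map_mul, map_one, LinearMap.add_apply, Module.End.mul_apply,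
      Module.End.one_apply] at h2
    rw [hu', map_zero, zero_add] at h2
    rw [← Module.End.mul_apply, ← map_mul, mul_comm, map_mul, Module.End.mul_apply]
    exact h2.symm
  rw [h1]
  have h3 := odd_reflect B T hT h.natDegree h le_rfl u (aeval T b u')
  rw [show h.reflect h.natDegree = h.reverse from rfl] at h3
  rw [h3, hu, map_zero, LinearMap.zero_apply]

omit [FiniteDimensional F V] in
theorem odd_sum_fixed (T : Module.End F V) (r : ℕ) (hTr : T ^ r = 1) (w : V) :
    T (∑ j ∈ Finset.range r, (T ^ j) w) = ∑ j ∈ Finset.range r, (T ^ j) w := by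
  rw [map_sum]
  have h1 : ∀ j, T ((T ^ j) w) = (T ^ (j + 1)) w := fun j => by
    rw [pow_succ', Module.End.mul_apply]
  simp_rw [h1]
  rcases r with _ | r'
  · simp
  · rw [Finset.sum_range_succ, Finset.sum_range_succ' (fun j => (T ^ j) w), hTr, pow_zero]

/-- PIECE ODD: if the order `i` of `q` mod `r` is odd, an invariant subspace `U ≠ ⊥` without fixed
vectors contains a nonzero invariant totally isotropic subspace. -/
theorem sym_odd [Fintype F] (hsym : ∀ u v, B u v = B v u) (h2 : (2 : F) ≠ 0)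
    (T : Module.End F V) (hT : Preserves B T)
    (r : ℕ) [Fact r.Prime] (hr2 : 2 < r) (hrF : (r : F) ≠ 0) (hTr : T ^ r = 1)
    (hodd : Odd (orderOf ((Fintype.card F : ℕ) : ZMod r))) (U : Submodule F V)
    (hU : U.map T ≤ U) (hU0 : U ≠ ⊥) (hUk : U ⊓ LinearMap.ker (T - 1) = ⊥) :
    ∃ W' : Submodule F V, W' ≤ U ∧ TI B W' ∧ W'.map T ≤ W' ∧ W' ≠ ⊥ := by
  classical
  have hr : r.Prime := Fact.out
  obtain ⟨p, hp⟩ := CharP.exists F
  haveI := hp
  haveI : Fact p.Prime := ⟨CharP.char_is_prime F p⟩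
  have hrp : r ≠ p := by
    rintro rfl
    exact hrF (CharP.cast_eq_zero F r)
  have hinv : ∀ (Q : F[X]) (v : V), v ∈ U → aeval T Q v ∈ U := fun Q v hv =>
    Cfsg.Agent.Helper90.BG.aeval_mem T U hU Q hv
  -- the cyclotomic polynomial kills `U`
  have hΦ : ∀ u ∈ U, aeval T (cyclotomic r F) u = 0 := by
    intro u hu
    have hmemU := hinv (cyclotomic r F) u hu
    rw [cyclotomic_prime F r] at hmemU ⊢
    have hsum : aeval T (∑ i ∈ Finset.range r, (X : F[X]) ^ i) u =
        ∑ i ∈ Finset.range r, (T ^ i) u := by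
      simp [map_sum, LinearMap.sum_apply]
    rw [hsum] at hmemU ⊢
    have hmemk : (∑ i ∈ Finset.range r, (T ^ i) u) ∈ LinearMap.ker (T - 1) := by
      rw [LinearMap.mem_ker, LinearMap.sub_apply, Module.End.one_apply, sub_eq_zero]
      exact odd_sum_fixed T r hTr u
    have hmem : (∑ i ∈ Finset.range r, (T ^ i) u) ∈ U ⊓ LinearMap.ker (T - 1) := ⟨hmemU, hmemk⟩
    rw [hUk] at hmem
    exact (Submodule.mem_bot F).mp hmem
  obtain ⟨u0, hu0U, hu00⟩ := Submodule.exists_mem_ne_zero_of_ne_bot hU0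
  -- a factor of minimal degree with a nonzero kernel vector in `U`
  have hex : ∃ n : ℕ, ∃ f : F[X], f.Monic ∧ f ∣ cyclotomic r F ∧ f.natDegree = n ∧
      ∃ u ∈ U, u ≠ 0 ∧ aeval T f u = 0 :=
    ⟨_, cyclotomic r F, cyclotomic.monic r F, dvd_rfl, rfl, u0, hu0U, hu00, hΦ u0 hu0U⟩
  obtain ⟨P, hPm, hPdvd, hPdeg, u, huU, hu0, hPu⟩ := Nat.find_spec hex
  have hmin : ∀ g : F[X], g.Monic → g ∣ cyclotomic r F → g.natDegree < P.natDegree →
      ∀ w ∈ U, w ≠ 0 → aeval T g w ≠ 0 := by
    intro g hgm hgd hlt w hw hw0 hgw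
    rw [hPdeg] at hlt
    exact Nat.find_min hex hlt ⟨g, hgm, hgd, rfl, w, hw, hw0, hgw⟩
  have hPirr : Irreducible P := by
    rw [hPm.irreducible_iff_natDegree]
    refine ⟨?_, ?_⟩
    · rintro rfl
      rw [map_one, Module.End.one_apply] at hPu
      exact hu0 hPu
    · intro g₁ g₂ hg₁ hg₂ hmul
      by_contra hcon
      push_neg at hcon
      have hdeg : P.natDegree = g₁.natDegree + g₂.natDegree := by
        rw [← hmul, hg₁.natDegree_mul hg₂]
      have hd₁ : g₁ ∣ cyclotomic r F := (Dvd.intro _ hmul).trans hPdvd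
      have hd₂ : g₂ ∣ cyclotomic r F := (Dvd.intro_left _ hmul).trans hPdvd
      have hsplit : aeval T g₁ (aeval T g₂ u) = 0 := by
        rw [← Module.End.mul_apply, ← map_mul, hmul]
        exact hPu
      by_cases hw : aeval T g₂ u = 0
      · exact hmin g₂ hg₂ hd₂ (by omega) u huU hu0 hw
      · exact hmin g₁ hg₁ hd₁ (by omega) _ (hinv g₂ u huU) hw hsplit
  have hPJ : P ∈ Cfsg.Agent.Helper43.CycFactors.cycJ F r :=
    Cfsg.Agent.Helper43.CycFactors.mem_cycJ.mpr ⟨hPm, hPirr, hPdvd⟩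
  have h0 : P.coeff 0 ≠ 0 := Cfsg.Agent.Helper43.StarPoly.coeff_zero_ne_of_mem hr hPJ
  have hstar : Cfsg.Agent.Helper43.SpReal.star P ≠ P :=
    Cfsg.Agent.Helper43.StarPoly.star_ne_self_of_odd (p := p) rfl hr (by omega) hrp hodd hPJ
  have hsJ := Cfsg.Agent.Helper43.CycFactors.mem_cycJ.mp
    (Cfsg.Agent.Helper43.StarPoly.star_mem_cycJ hr hrF hPJ)
  have hcop0 : IsCoprime P (Cfsg.Agent.Helper43.SpReal.star P) :=
    Cfsg.Agent.Helper43.CycFactors.isCoprime_of_ne hPm hPirr hsJ.1 hsJ.2.1 (Ne.symm hstar)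
  have hcop : IsCoprime P P.reverse := by
    rw [Cfsg.Agent.Helper43.StarPoly.reverse_eq_C_mul_star h0]
    exact (isCoprime_mul_unit_left_right (isUnit_C.mpr (isUnit_iff_ne_zero.mpr h0)) P _).mpr hcop0
  refine ⟨U ⊓ LinearMap.ker (aeval T P), inf_le_left, ?_, ?_, ?_⟩
  · intro x hx y hy
    exact odd_ker_ti B T hT P hcop x y (LinearMap.mem_ker.mp hx.2) (LinearMap.mem_ker.mp hy.2)
  · rintro _ ⟨x, hx, rfl⟩
    refine ⟨hU ⟨x, hx.1, rfl⟩, ?_⟩
    show aeval T P (T x) = 0
    have hc : aeval T P (T x) = T (aeval T P x) := by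
      have hT' : T = aeval T (X : F[X]) := by rw [aeval_X]
      have : aeval T P * T = T * aeval T P := by
        nth_rewrite 2 [hT']
        nth_rewrite 3 [hT']
        rw [← map_mul, ← map_mul, mul_comm]
      have h5 := congrArg (fun S : Module.End F V => S x) this
      simpa [Module.End.mul_apply] using h5
    rw [hc, LinearMap.mem_ker.mp hx.2, map_zero]
  · intro hbot
    have hmem : u ∈ U ⊓ LinearMap.ker (aeval T P) := ⟨huU, LinearMap.mem_ker.mpr hPu⟩
    rw [hbot] at hmem
    exact hu0 ((Submodule.mem_bot F).mp hmem)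

end Cfsg.Agent.Helper41.OTS
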