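import Mathlib
import Cfsg.Agent.Helper8.Ord1440
import Cfsg.Agent.S0985

/-!
# Piece F of CALL S0976 (helper8): a simple group of order 4032 with `n_2 ≠ 9` and `n_7 = 288`
has a subgroup of index 21
-/

set_option autoImplicit false
set_option linter.style.haveILetI false
set_option maxHeartbeats 1000000

namespace Cfsg.Agent.Helper41

open Subgroup Cfsg.Agent.Helper9.OrdTools Cfsg.Agent.Helper8.Ord459

variable {G : Type*} [Group G] [Finite G]

namespace Ord4032F

theorem arith_n2 : ∀ n, n ∣ 63 → n = 1 ∨ n = 3 ∨ n = 7 ∨ n = 9 ∨ n = 21 ∨ n = 63 := by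
  intro n hn
  have hle : n ≤ 63 := Nat.le_of_dvd (by norm_num) hn
  interval_cases n <;> simp_all

omit [Finite G] in
/-- elements of `D ⊔ Z` when `Z` normalizes `D`. -/
theorem mem_sup_of_le_normalizer {D Z : Subgroup G} (h : Z ≤ normalizer (D : Set G)) {x : G}
    (hx : x ∈ D ⊔ Z) : ∃ d ∈ D, ∃ z ∈ Z, x = d * z := by
  let M : Subgroup G :=
    { carrier := {x | ∃ d ∈ D, ∃ z ∈ Z, x = d * z}
      one_mem' := ⟨1, D.one_mem, 1, Z.one_mem, by simp⟩
      mul_mem' := by
        rintro _ _ ⟨d1, hd1, z1, hz1, rfl⟩ ⟨d2, hd2, z2, hz2, rfl⟩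
        refine ⟨d1 * (z1 * d2 * z1⁻¹), D.mul_mem hd1 ?_, z1 * z2, Z.mul_mem hz1 hz2, by group⟩
        exact (Subgroup.mem_normalizer_iff.mp (h hz1) d2).mp hd2
      inv_mem' := by
        rintro _ ⟨d, hd, z, hz, rfl⟩
        refine ⟨z⁻¹ * d⁻¹ * z⁻¹⁻¹, ?_, z⁻¹, Z.inv_mem hz, by group⟩
        exact (Subgroup.mem_normalizer_iff.mp (h (Z.inv_mem hz)) d⁻¹).mp (D.inv_mem hd) }
  have hle : D ⊔ Z ≤ M :=
    sup_le (fun d hd => ⟨d, hd, 1, Z.one_mem, by simp⟩) (fun z hz => ⟨1, D.one_mem, z, hz, by simp⟩)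
  exact hle hx

theorem card_sup_le_of_le_normalizer {D Z : Subgroup G} (h : Z ≤ normalizer (D : Set G)) :
    Nat.card (D ⊔ Z : Subgroup G) ≤ Nat.card D * Nat.card Z := by
  rw [← Nat.card_prod]
  let f : D × Z → (D ⊔ Z : Subgroup G) := fun q =>
    ⟨q.1.1 * q.2.1, (D ⊔ Z).mul_mem ((le_sup_left : D ≤ D ⊔ Z) q.1.2)
      ((le_sup_right : Z ≤ D ⊔ Z) q.2.2)⟩
  apply Nat.card_le_card_of_surjective f
  rintro ⟨x, hx⟩
  obtain ⟨d, hd, z, hz, rfl⟩ := mem_sup_of_le_normalizer h hx
  exact ⟨(⟨d, hd⟩, ⟨z, hz⟩), rfl⟩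

theorem arith_m : ∀ m, m ∣ 63 → m ≠ 1 → m = 3 ∨ m = 7 ∨ m = 9 ∨ m = 21 ∨ m = 63 := by
  intro m hm h1
  rcases arith_n2 m hm with h | h | h | h | h | h <;> simp_all

/-- the final contradiction in the case `|N_G(D)| = 448`. -/
theorem case448 [IsSimpleGroup G] (hG : Nat.card G = 4032) (hn7 : Nat.card (Sylow 7 G) = 288)
    (D : Subgroup G) (hD : Nat.card D = 32)
    (hN : Nat.card (normalizer (D : Set G)) = 448) : False := by
  haveI : Fact (Nat.Prime 7) := ⟨by norm_num⟩
  have hS7 : ∀ Q : Sylow 7 G, Nat.card (Q : Subgroup G) = 7 := by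
    intro Q
    have := sylow_card (p := 7) 1 576 (by rw [hG]; norm_num) (by norm_num) Q
    simpa using this
  obtain ⟨y0, hy0⟩ := exists_prime_orderOf_dvd_card' (G := normalizer (D : Set G)) 7
    (by rw [hN]; norm_num)
  have hyo : orderOf (y0 : G) = 7 := by rw [Subgroup.orderOf_coe]; exact hy0
  have hyN : (y0 : G) ∈ normalizer (D : Set G) := y0.2
  generalize (y0 : G) = y at hyo hyN
  obtain ⟨P', hP'⟩ := exists_sylow_of_orderOf hS7 hyo
  obtain ⟨-, -, -, hNn⟩ := sylow_num P' (by rw [hS7]; norm_num) (by rw [hS7, hG]; norm_num)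
  rw [hn7, hG] at hNn
  have hNP : Nat.card (normalizer ((P' : Subgroup G) : Set G)) = 14 := by omega
  have hZN : zpowers y ≤ normalizer (D : Set G) := (Subgroup.zpowers_le).mpr hyN
  have hZcard : Nat.card (zpowers y) = 7 := by rw [Nat.card_zpowers, hyo]
  obtain ⟨L, hLdef⟩ : ∃ L : Subgroup G, L = D ⊔ zpowers y := ⟨_, rfl⟩
  have hDL : D ≤ L := hLdef ▸ le_sup_left
  have hZL : zpowers y ≤ L := hLdef ▸ le_sup_right
  have hLle : Nat.card L ≤ 224 := by
    have := card_sup_le_of_le_normalizer hZN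
    rw [hD, hZcard, ← hLdef] at this
    exact this
  have h32 : 32 ∣ Nat.card L := hD ▸ Subgroup.card_dvd_of_le hDL
  have h7 : 7 ∣ Nat.card L := hZcard ▸ Subgroup.card_dvd_of_le hZL
  have hL : Nat.card L = 224 := by
    have h224 : 32 * 7 ∣ Nat.card L := Nat.Coprime.mul_dvd_of_dvd_of_dvd (by norm_num) h32 h7
    have hpos : 0 < Nat.card L := Nat.card_pos
    obtain ⟨k, hk⟩ := h224
    have : k = 1 := by
      rcases Nat.lt_or_ge k 1 with h | h
      · have : k = 0 := by omega
        rw [this] at hk; omega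
      · rcases Nat.lt_or_ge 1 k with h' | h'
        · rw [hk] at hLle
          nlinarith
        · omega
    rw [hk, this]
  have hP'L : (P' : Subgroup G) ≤ L := hP' ▸ hZL
  obtain ⟨n, hn1, hLcard⟩ := sylow_count_subgroup P' L hP'L
  have hd1 : Nat.card (L ⊓ normalizer ((P' : Subgroup G) : Set G) : Subgroup G) ∣ 14 :=
    hNP ▸ Subgroup.card_dvd_of_le inf_le_right
  have hd2 : 7 ∣ Nat.card (L ⊓ normalizer ((P' : Subgroup G) : Set G) : Subgroup G) := by
    have := Subgroup.card_dvd_of_le (le_inf hP'L (Subgroup.le_normalizer (H := (P' : Subgroup G))))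
    rwa [hS7 P'] at this
  rw [hL] at hLcard
  obtain ⟨j, hj⟩ := hd2
  rw [hj] at hd1 hLcard
  have hj' : j ∣ 2 := (Nat.mul_dvd_mul_iff_left (by norm_num : 0 < 7)).mp hd1
  have hj2 : j ≤ 2 := Nat.le_of_dvd (by norm_num) hj'
  interval_cases j
  · omega
  · have : n = 32 := by omega
    rw [this] at hn1
    norm_num at hn1
  · have : n = 16 := by omega
    rw [this] at hn1
    norm_num at hn1

end Ord4032F

open Ord4032F in
theorem ord4032_exists_index21 [IsSimpleGroup G] (hG : Nat.card G = 4032) (hn2 : Nat.card (Sylow 2 G) ≠ 9) (hn7 : Nat.card (Sylow 7 G) = 288) : ∃ M : Subgroup G, M.index = 21 := by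
  haveI : Fact (Nat.Prime 2) := ⟨Nat.prime_two⟩
  have hS2 : ∀ Q : Sylow 2 G, Nat.card (Q : Subgroup G) = 64 := by
    intro Q
    have := sylow_card (p := 2) 6 63 (by rw [hG]; norm_num) (by norm_num) Q
    simpa using this
  obtain ⟨S⟩ := (inferInstance : Nonempty (Sylow 2 G))
  obtain ⟨hdvd, -, hne1, hNn⟩ := sylow_num S (by rw [hS2]; norm_num) (by rw [hS2, hG]; norm_num)
  have hidx : (S : Subgroup G).index = 63 := by
    have := (S : Subgroup G).card_mul_index
    rw [hS2, hG] at this
    omega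
  rw [hidx] at hdvd
  have hnidx : Nat.card (Sylow 2 G) = (normalizer ((S : Subgroup G) : Set G)).index :=
    Sylow.card_eq_index_normalizer S
  have hfact : ∀ H : Subgroup G, H.index = 3 ∨ H.index = 7 → False := by
    intro H hH
    have hHtop : H ≠ ⊤ := by
      intro h
      rw [h, Subgroup.index_top] at hH
      omega
    have := card_dvd_factorial_index H hHtop
    rw [hG] at this
    rcases hH with h | h <;> rw [h] at this <;> norm_num [Nat.factorial] at this
  rcases arith_n2 _ hdvd with h | h | h | h | h | h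
  · exact absurd h hne1
  · exact (hfact _ (Or.inl (hnidx ▸ h))).elim
  · exact (hfact _ (Or.inr (hnidx ▸ h))).elim
  · exact absurd h hn2
  · exact ⟨_, hnidx ▸ h⟩
  · -- the case `n_2 = 63`
    have hmod : ¬ Nat.card (Sylow 2 G) ≡ 1 [MOD 2 ^ 2] := by
      rw [h]; decide
    obtain ⟨P, R, hPR, hle⟩ := Cfsg.Agent.S0985.result 2 2 hmod
    obtain ⟨D, hDdef⟩ : ∃ D : Subgroup G, D = (P : Subgroup G) ⊓ (R : Subgroup G) := ⟨_, rfl⟩
    have hDP : D ≤ (P : Subgroup G) := hDdef ▸ inf_le_left
    have hDR : D ≤ (R : Subgroup G) := hDdef ▸ inf_le_right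
    have hcardD : Nat.card ((R : Subgroup G).subgroupOf (P : Subgroup G)) = Nat.card D := by
      rw [← Subgroup.inf_subgroupOf_left, ← hDdef]
      exact Nat.card_congr (Subgroup.subgroupOfEquivOfLe hDP).toEquiv
    have hmul := ((R : Subgroup G).subgroupOf (P : Subgroup G)).card_mul_index
    rw [hcardD, hS2] at hmul
    have hidx2 : ((R : Subgroup G).subgroupOf (P : Subgroup G)).index = 2 := by
      have h0 : ((R : Subgroup G).subgroupOf (P : Subgroup G)).index ≠ 0 := by
        intro h0; rw [h0] at hmul; omega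
      have h1 : ((R : Subgroup G).subgroupOf (P : Subgroup G)).index ≠ 1 := by
        intro h1
        rw [h1, mul_one] at hmul
        have hPD : (P : Subgroup G) = D := by
          symm
          apply Subgroup.eq_of_le_of_card_ge hDP
          rw [hS2, hmul]
        have hPleR : (P : Subgroup G) ≤ (R : Subgroup G) := hPD ▸ hDR
        have hPeqR : (P : Subgroup G) = (R : Subgroup G) :=
          Subgroup.eq_of_le_of_card_ge hPleR (by rw [hS2, hS2])
        exact hPR (Sylow.ext hPeqR)
      have h2 : ((R : Subgroup G).subgroupOf (P : Subgroup G)).index ≤ 2 := by simpa using hle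
      omega
    rw [hidx2] at hmul
    have hD : Nat.card D = 32 := by omega
    have hPN : (P : Subgroup G) ≤ normalizer (D : Set G) :=
      le_normalizer_of_card_two_mul hDP (by rw [hS2, hD])
    have hRN : (R : Subgroup G) ≤ normalizer (D : Set G) :=
      le_normalizer_of_card_two_mul hDR (by rw [hS2, hD])
    have h64 : 64 ∣ Nat.card (normalizer (D : Set G)) := (hS2 P) ▸ Subgroup.card_dvd_of_le hPN
    have hNG : Nat.card (normalizer (D : Set G)) ∣ 4032 := hG ▸ Subgroup.card_subgroup_dvd_card _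
    obtain ⟨m, hm⟩ := h64
    have hm63 : m ∣ 63 := by
      rw [hm] at hNG
      have h3 : (4032 : ℕ) = 64 * 63 := by norm_num
      rw [h3] at hNG
      exact Nat.dvd_of_mul_dvd_mul_left (by norm_num) hNG
    have hm1 : m ≠ 1 := by
      intro hm1
      rw [hm1, mul_one] at hm
      have e1 : (P : Subgroup G) = normalizer (D : Set G) :=
        Subgroup.eq_of_le_of_card_ge hPN (by rw [hS2, hm])
      have e2 : (R : Subgroup G) = normalizer (D : Set G) :=
        Subgroup.eq_of_le_of_card_ge hRN (by rw [hS2, hm])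
      exact hPR (Sylow.ext (e1.trans e2.symm))
    have hNidx : Nat.card (normalizer (D : Set G)) * (normalizer (D : Set G)).index = 4032 := by
      rw [Subgroup.card_mul_index, hG]
    rcases arith_m m hm63 hm1 with h' | h' | h' | h' | h'
    · refine ⟨normalizer (D : Set G), ?_⟩
      rw [hm, h'] at hNidx
      omega
    · exact (case448 hG hn7 D hD (by rw [hm, h'])).elim
    · exfalso
      apply hfact (normalizer (D : Set G))
      right
      rw [hm, h'] at hNidx
      omega
    · exfalso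
      apply hfact (normalizer (D : Set G))
      left
      rw [hm, h'] at hNidx
      omega
    · exfalso
      have htop : normalizer (D : Set G) = ⊤ := by
        apply (Subgroup.card_eq_iff_eq_top _).mp
        rw [hm, h', hG]
      have hDn : D.Normal := Subgroup.normalizer_eq_top_iff.mp htop
      rcases hDn.eq_bot_or_eq_top with hb | hb
      · rw [hb, Subgroup.card_bot] at hD; omega
      · rw [hb, Subgroup.card_top, hG] at hD; omega

end Cfsg.Agent.Helper41
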