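import Mathlib
import Cfsg.Agent.Helper8.Ord4032A
import Cfsg.Agent.Helper41.Ord4032B
import Cfsg.Agent.S0985

/-!
# Piece N96a1 of CALL S0980 (helper8): a simple group of order 5760 with `n_5 = 96`

The normalizer `H` of a subgroup of order `3` centralizing a Sylow `5`-subgroup `P` has index
`16`, contains `P`, and `P` fixes exactly one point of `G ⧸ H`.
-/

set_option autoImplicit false
set_option linter.style.haveILetI false
set_option maxHeartbeats 1000000

open scoped Pointwise

namespace Cfsg.Agent.Helper41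

open Subgroup Cfsg.Agent.Helper9.OrdTools Cfsg.Agent.Helper8.Ord459 Cfsg.Agent.Helper8.SylFix

variable {G : Type*} [Group G] [Finite G]

namespace Ord5760N96a1

theorem arith_idx : ∀ n, n ∣ 96 → n % 5 = 1 → n = 1 ∨ n = 6 ∨ n = 16 ∨ n = 96 := by
  intro n hn hmod
  have hle : n ≤ 96 := Nat.le_of_dvd (by norm_num) hn
  interval_cases n <;> simp_all

omit [Finite G] in
theorem card_mul_relIndex' [Finite G] {H K : Subgroup G} (h : H ≤ K) :
    Nat.card H * H.relIndex K = Nat.card K := by
  have h1 := (H.subgroupOf K).card_mul_index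
  rwa [Nat.card_congr (Subgroup.subgroupOfEquivOfLe h).toEquiv] at h1

/-- conjugating `s` into `zpowers s` means normalizing `zpowers s`. -/
theorem mem_normalizer_zpowers {g s : G} (h : g * s * g⁻¹ ∈ zpowers s) :
    g ∈ normalizer ((zpowers s : Subgroup G) : Set G) := by
  apply Subgroup.mem_normalizer_fintype
  intro n hn
  obtain ⟨k, rfl⟩ := Subgroup.mem_zpowers_iff.mp hn
  have e : g * s ^ k * g⁻¹ = (g * s * g⁻¹) ^ k := by rw [conj_zpow]
  rw [e]
  exact (zpowers s).zpow_mem h k

/-- an element of order dividing `n` normalizing a cyclic group `K`, with `n` coprime to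
`φ(|K|)`, centralizes `K`. -/
theorem conj_eq_of_mem_normalizer {K : Subgroup G} [IsCyclic K] {x : G}
    (hx : x ∈ normalizer (K : Set G)) (n : ℕ) (hxn : x ^ n = 1)
    (hcop : Nat.Coprime n (Nat.totient (Nat.card K))) : ∀ k ∈ K, x * k * x⁻¹ = k := by
  have h1 : (K.normalizerMonoidHom ⟨x, hx⟩) ^ n = 1 := by
    rw [← map_pow]
    have e : (⟨x, hx⟩ : normalizer (K : Set G)) ^ n = 1 := Subtype.ext (by simpa using hxn)
    rw [e, map_one]
  have h2 : orderOf (K.normalizerMonoidHom ⟨x, hx⟩) ∣ n := orderOf_dvd_of_pow_eq_one h1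
  have h3 : orderOf (K.normalizerMonoidHom ⟨x, hx⟩) ∣ Nat.totient (Nat.card K) := by
    rw [← IsCyclic.card_mulAut]
    exact orderOf_dvd_natCard _
  have h4 : orderOf (K.normalizerMonoidHom ⟨x, hx⟩) = 1 := Nat.eq_one_of_dvd_coprimes hcop h2 h3
  have h5 : K.normalizerMonoidHom ⟨x, hx⟩ = 1 := orderOf_eq_one_iff.mp h4
  intro k hk
  have h6 := congrArg (fun α : MulAut K => ((α ⟨k, hk⟩ : K) : G)) h5
  exact h6

theorem pow10 {x y : G} (hc : Commute x y) (hx : orderOf x = 5) (hy : orderOf y = 3) :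
    (x * y) ^ 10 = y := by
  have h5 : x ^ 5 = 1 := hx ▸ pow_orderOf_eq_one x
  have h3 : y ^ 3 = 1 := hy ▸ pow_orderOf_eq_one y
  rw [hc.mul_pow]
  have e1 : x ^ 10 = 1 := by
    have : x ^ 10 = (x ^ 5) ^ 2 := by rw [← pow_mul]
    rw [this, h5, one_pow]
  have e2 : y ^ 10 = y := by
    have : y ^ 10 = (y ^ 3) ^ 3 * y := by rw [← pow_mul, ← pow_succ]
    rw [this, h3, one_pow, one_mul]
  rw [e1, e2, one_mul]

end Ord5760N96a1

open Ord5760N96a1 in
theorem ord5760_n96_H [IsSimpleGroup G] (hG : Nat.card G = 5760) (h96 : Nat.card (Sylow 5 G) = 96) :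
    ∃ (P : Sylow 5 G) (s : G) (H : Subgroup G), orderOf s = 3 ∧
      H = Subgroup.normalizer ((Subgroup.zpowers s : Subgroup G) : Set G) ∧ H.index = 16 ∧
      (P : Subgroup G) ≤ H ∧
      (∀ q : G ⧸ H, (∀ x ∈ (P : Subgroup G), x • q = q) → q = ((1 : G) : G ⧸ H)) := by
  haveI : Fact (Nat.Prime 5) := ⟨by norm_num⟩
  haveI : Fact (Nat.Prime 3) := ⟨by norm_num⟩
  have hS5 : ∀ Q : Sylow 5 G, Nat.card (Q : Subgroup G) = 5 := by
    intro Q
    have := sylow_card (p := 5) 1 1152 (by rw [hG]; norm_num) (by norm_num) Q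
    simpa using this
  obtain ⟨P⟩ := (inferInstance : Nonempty (Sylow 5 G))
  have hNP : Nat.card (normalizer ((P : Subgroup G) : Set G)) = 60 := by
    obtain ⟨-, -, -, hNn⟩ := sylow_num P (by rw [hS5]; norm_num) (by rw [hS5, hG]; norm_num)
    rw [h96, hG] at hNn
    omega
  obtain ⟨e, he4, he1, hNC, h5C⟩ := normalizer_centralizer_prime P (hS5 P) (by rw [hG]; norm_num)
  rw [hNP] at hNC
  obtain ⟨C, hCdef⟩ : ∃ C : Subgroup G, C = centralizer ((P : Subgroup G) : Set G) := ⟨_, rfl⟩
  rw [← hCdef] at hNC h5C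
  have hCcard : Nat.card C = 15 ∨ Nat.card C = 30 := by
    have he : e ∣ 4 := he4
    have hle : e ≤ 4 := Nat.le_of_dvd (by norm_num) he
    interval_cases e
    · right; omega
    · exact absurd he (by norm_num)
    · left; omega
  have h3C : 3 ∣ Nat.card C := by rcases hCcard with h | h <;> rw [h] <;> norm_num
  obtain ⟨s0, hs0⟩ := exists_prime_orderOf_dvd_card' (G := C) 3 h3C
  have hso : orderOf (s0 : G) = 3 := by rw [Subgroup.orderOf_coe]; exact hs0
  have hsC : (s0 : G) ∈ C := s0.2
  generalize (s0 : G) = s at hso hsC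
  have hPC : (P : Subgroup G) ≤ C := hCdef ▸ le_centralizer_of_prime P (hS5 P)
  obtain ⟨x, hxP, hx1⟩ : ∃ x ∈ (P : Subgroup G), x ≠ 1 := by
    by_contra hcon
    push Not at hcon
    have hbot : (P : Subgroup G) = ⊥ := (Subgroup.eq_bot_iff_forall _).mpr hcon
    have h5 := hS5 P
    rw [hbot, Subgroup.card_bot] at h5
    omega
  have hxo : orderOf x = 5 := by
    have h1 : orderOf x ∣ 5 := by
      have h2 := orderOf_dvd_natCard (⟨x, hxP⟩ : (P : Subgroup G))
      rw [hS5 P, ← Subgroup.orderOf_coe] at h2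
      exact h2
    rcases (Nat.dvd_prime (by norm_num)).mp h1 with h | h
    · exact absurd (orderOf_eq_one_iff.mp h) hx1
    · exact h
  have hZP : zpowers x = (P : Subgroup G) := zpowers_eq_sylow P (hS5 P) hxP hx1
  have hcomm : ∀ y ∈ C, Commute x y := by
    intro y hy
    rw [hCdef] at hy
    exact Subgroup.mem_centralizer_iff.mp hy x hxP
  have hA : ∀ y ∈ C, orderOf y = 3 →
      Nat.card (zpowers (x * y)) = 15 ∧ zpowers (x * y) ≤ C := by
    intro y hy hyo
    refine ⟨?_, (Subgroup.zpowers_le).mpr (C.mul_mem (hPC hxP) hy)⟩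
    rw [Nat.card_zpowers,
      (hcomm y hy).orderOf_mul_eq_mul_orderOf_of_coprime (by rw [hxo, hyo]; norm_num), hxo, hyo]
  have hAeq : ∀ y ∈ C, orderOf y = 3 → zpowers (x * y) = zpowers (x * s) := by
    intro y hy hyo
    obtain ⟨hA1, hA2⟩ := hA y hy hyo
    obtain ⟨hB1, hB2⟩ := hA s hsC hso
    rcases hCcard with h | h
    · have e1 : zpowers (x * y) = C := Subgroup.eq_of_le_of_card_ge hA2 (by rw [hA1, h])
      have e2 : zpowers (x * s) = C := Subgroup.eq_of_le_of_card_ge hB2 (by rw [hB1, h])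
      rw [e1, e2]
    · obtain ⟨D, hDdef⟩ : ∃ D : Subgroup G, D = zpowers (x * y) ⊓ zpowers (x * s) := ⟨_, rfl⟩
      have hD1 : D ≤ zpowers (x * y) := hDdef ▸ inf_le_left
      have hD2 : D ≤ zpowers (x * s) := hDdef ▸ inf_le_right
      have hrel : D.relIndex C ≤ (zpowers (x * y)).relIndex C * (zpowers (x * s)).relIndex C := by
        rw [hDdef]
        exact Subgroup.relIndex_inf_le
      have r1 := card_mul_relIndex' hA2
      have r2 := card_mul_relIndex' hB2
      have r3 := card_mul_relIndex' (hD1.trans hA2)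
      rw [hA1, h] at r1
      rw [hB1, h] at r2
      rw [h] at r3
      have r1' : (zpowers (x * y)).relIndex C = 2 := by omega
      have r2' : (zpowers (x * s)).relIndex C = 2 := by omega
      rw [r1', r2'] at hrel
      have hDdvd : Nat.card D ∣ 15 := hA1 ▸ Subgroup.card_dvd_of_le hD1
      have hDcard : Nat.card D = 15 := by
        have hle : Nat.card D ≤ 15 := Nat.le_of_dvd (by norm_num) hDdvd
        have hpos : 0 < Nat.card D := Nat.card_pos
        by_contra hne
        have hlt : Nat.card D ≤ 7 := by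
          interval_cases (Nat.card D) <;> simp_all
        nlinarith
      have e1 : D = zpowers (x * y) := Subgroup.eq_of_le_of_card_ge hD1 (by rw [hA1, hDcard])
      have e2 : D = zpowers (x * s) := Subgroup.eq_of_le_of_card_ge hD2 (by rw [hB1, hDcard])
      rw [← e1, e2]
  have hZ : ∀ y ∈ C, orderOf y = 3 → y ∈ zpowers s := by
    intro y hy hyo
    have hmem : x * y ∈ zpowers (x * s) := by
      rw [← hAeq y hy hyo]
      exact Subgroup.mem_zpowers _
    obtain ⟨k, hk⟩ := Subgroup.mem_zpowers_iff.mp hmem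
    have e1 : y = ((x * s) ^ 10) ^ k := by
      rw [← pow10 (hcomm y hy) hxo hyo, ← hk, ← zpow_natCast, ← zpow_natCast, ← zpow_mul,
        ← zpow_mul, mul_comm]
    rw [e1, pow10 (hcomm s hsC) hxo hso]
    exact Subgroup.zpow_mem_zpowers s k
  obtain ⟨H, hHdef⟩ : ∃ H : Subgroup G, H = normalizer ((zpowers s : Subgroup G) : Set G) :=
    ⟨_, rfl⟩
  have hkey : ∀ g : G, g * s * g⁻¹ ∈ C → g ∈ H := by
    intro g hg
    rw [hHdef]
    apply mem_normalizer_zpowers
    apply hZ _ hg
    have := MulEquiv.orderOf_eq (MulAut.conj g) s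
    rw [MulAut.conj_apply] at this
    rw [this, hso]
  have hNH : normalizer ((P : Subgroup G) : Set G) ≤ H := by
    intro n hn
    apply hkey
    rw [hCdef, Subgroup.mem_centralizer_iff]
    intro w hw
    have hw' : n⁻¹ * w * n ∈ (P : Subgroup G) := by
      have := (Subgroup.mem_normalizer_iff.mp (inv_mem hn) w).mp hw
      simpa using this
    have hsC' := hsC
    rw [hCdef] at hsC'
    have hc := Subgroup.mem_centralizer_iff.mp hsC' (n⁻¹ * w * n) hw'
    calc w * (n * s * n⁻¹) = n * ((n⁻¹ * w * n) * s) * n⁻¹ := by group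
      _ = n * (s * (n⁻¹ * w * n)) * n⁻¹ := by rw [hc]
      _ = n * s * n⁻¹ * w := by group
  have hPH : (P : Subgroup G) ≤ H := (Subgroup.le_normalizer).trans hNH
  have hZcard : Nat.card (zpowers s) = 3 := by rw [Nat.card_zpowers, hso]
  have hfix : ∀ q : G ⧸ H, (∀ x ∈ (P : Subgroup G), x • q = q) → q = ((1 : G) : G ⧸ H) := by
    intro q hq
    obtain ⟨g, rfl⟩ := QuotientGroup.mk_surjective q
    have hgH : g ∈ H := by
      apply hkey
      rw [hCdef, Subgroup.mem_centralizer_iff]
      intro w hw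
      have h1 := hq w hw
      rw [MulAction.Quotient.smul_mk, QuotientGroup.eq] at h1
      have h2 : g⁻¹ * w * g ∈ H := by
        have := H.inv_mem h1
        simpa [mul_assoc] using this
      have h3 : (g⁻¹ * w * g) ^ 5 = 1 := by
        have hw5 : w ^ 5 = 1 := by
          have := pow_card_eq_one' (G := (P : Subgroup G)) (x := ⟨w, hw⟩)
          rw [hS5 P] at this
          exact congrArg Subtype.val this
        have e : (g⁻¹ * w * g) ^ 5 = g⁻¹ * w ^ 5 * g := by
          have := conj_pow (a := g⁻¹) (b := w) (i := 5)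
          simpa using this
        rw [e, hw5]
        group
      rw [hHdef] at h2
      have h4 := conj_eq_of_mem_normalizer h2 5 h3
        (by rw [hZcard, Nat.totient_prime (by norm_num)]; norm_num) s (Subgroup.mem_zpowers s)
      -- `(g⁻¹ w g) s (g⁻¹ w g)⁻¹ = s`
      have h5 : g⁻¹ * w * g * s = s * (g⁻¹ * w * g) := by
        calc g⁻¹ * w * g * s = (g⁻¹ * w * g * s * (g⁻¹ * w * g)⁻¹) * (g⁻¹ * w * g) := by group
          _ = s * (g⁻¹ * w * g) := by rw [h4]
      calc w * (g * s * g⁻¹) = g * (g⁻¹ * w * g * s) * g⁻¹ := by group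
        _ = g * (s * (g⁻¹ * w * g)) * g⁻¹ := by rw [h5]
        _ = g * s * g⁻¹ * w := by group
    rw [QuotientGroup.eq]
    simpa using H.inv_mem hgH
  -- the index of `H` is `≡ 1 (mod 5)`
  have hmod : H.index % 5 = 1 := by
    have hP5 : IsPGroup 5 (P : Subgroup G) := P.isPGroup'
    have h1 := hP5.card_modEq_card_fixedPoints (G ⧸ H)
    have h2 : Nat.card (MulAction.fixedPoints (P : Subgroup G) (G ⧸ H)) = 1 := by
      rw [Nat.card_eq_one_iff_unique]
      constructor
      · constructor
        rintro ⟨a, ha⟩ ⟨b, hb⟩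
        apply Subtype.ext
        show a = b
        rw [hfix a (fun w hw => ha ⟨w, hw⟩), hfix b (fun w hw => hb ⟨w, hw⟩)]
      · refine ⟨⟨((1 : G) : G ⧸ H), ?_⟩⟩
        intro w
        show (w : G) • ((1 : G) : G ⧸ H) = _
        rw [MulAction.Quotient.smul_mk, QuotientGroup.eq]
        simpa using H.inv_mem (hPH w.2)
    rw [h2, ← Subgroup.index_eq_card] at h1
    exact h1
  have hcardH := H.card_mul_index
  rw [hG] at hcardH
  have h60 : 60 ∣ Nat.card H := hNP ▸ Subgroup.card_dvd_of_le hNH
  have hidvd : H.index ∣ 96 := by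
    obtain ⟨k, hk⟩ := h60
    rw [hk] at hcardH
    exact ⟨k, by nlinarith⟩
  have hHne : ∀ n, H.index = n → n ≠ 1 → H ≠ ⊤ := by
    intro n hn hn1 htop
    rw [htop, Subgroup.index_top] at hn
    exact hn1 hn.symm
  rcases arith_idx _ hidvd hmod with h | h | h | h
  · exfalso
    have htop : H = ⊤ := Subgroup.index_eq_one.mp h
    rw [hHdef] at htop
    have hn : (zpowers s).Normal := Subgroup.normalizer_eq_top_iff.mp htop
    rcases hn.eq_bot_or_eq_top with hb | hb
    · rw [hb, Subgroup.card_bot] at hZcard; omega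
    · rw [hb, Subgroup.card_top, hG] at hZcard; omega
  · exfalso
    have := card_dvd_factorial_index H (hHne 6 h (by norm_num))
    rw [hG, h] at this
    norm_num [Nat.factorial] at this
  · exact ⟨P, s, H, hso, hHdef, h, hPH, hfix⟩
  · exfalso
    rw [h] at hcardH
    have hHcard : Nat.card H = 60 := by omega
    have hHN : normalizer ((P : Subgroup G) : Set G) = H :=
      Subgroup.eq_of_le_of_card_ge hNH (by rw [hNP, hHcard])
    have hmod3 := card_fixedBy_modEq (p := 5) (q := 3) (k := 1) s (by rw [hso]; norm_num)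
    have hsP : ∀ w ∈ (P : Subgroup G), w * s = s * w := by
      intro w hw
      have hsC' := hsC
      rw [hCdef] at hsC'
      exact Subgroup.mem_centralizer_iff.mp hsC' w hw
    have hmod5 := card_fixedBy_modEq_one P s hsP
    rw [h96] at hmod3
    have hF : ¬ Nat.card (MulAction.fixedBy (Sylow 5 G) s) ≤ 1 := by
      unfold Nat.ModEq at hmod3 hmod5
      omega
    apply hF
    rw [Finite.card_le_one_iff_subsingleton]
    constructor
    have hall : ∀ P' : Sylow 5 G, P' ∈ MulAction.fixedBy (Sylow 5 G) s → P' = P := by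
      intro P' hP'
      rw [MulAction.mem_fixedBy, Sylow.smul_eq_iff_mem_normalizer] at hP'
      haveI : IsCyclic (P' : Subgroup G) := isCyclic_of_prime_card (p := 5) (hS5 P')
      have hs3 : s ^ 3 = 1 := hso ▸ pow_orderOf_eq_one s
      have h4 := conj_eq_of_mem_normalizer hP' 3 hs3
        (by rw [hS5 P', Nat.totient_prime (by norm_num)]; norm_num)
      have hle : (P' : Subgroup G) ≤ normalizer ((P : Subgroup G) : Set G) := by
        intro w hw
        rw [hHN, hHdef]
        apply mem_normalizer_zpowers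
        have h5 := h4 w hw
        have h6 : s * w = w * s := by
          have := congrArg (· * s) h5
          simpa using this
        have e : w * s * w⁻¹ = s := by
          calc w * s * w⁻¹ = s * w * w⁻¹ := by rw [h6]
            _ = s := by group
        rw [e]
        exact Subgroup.mem_zpowers s
      exact (eq_of_le_normalizer P' P hle).symm
    rintro ⟨a, ha⟩ ⟨b, hb⟩
    apply Subtype.ext
    show a = b
    rw [hall a ha, hall b hb]

end Cfsg.Agent.Helper41
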