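import Cfsg.Agent.Helper85.PiDefs
import Cfsg.Agent.Helper85.PiGen
import Cfsg.Agent.Helper84.FusionSat2
import Cfsg.Agent.Helper84.FusionIso

/-!
# CALL S5113, piece DL4 (helper41): the degree lemma is stable under composition
-/

set_option autoImplicit false

namespace Cfsg.Agent.Helper41.PiDL4

open Cfsg Cfsg.FusionSystem Cfsg.Agent.Helper85 Cfsg.Agent.Helper88

variable {Ω : Type*} [Group Ω] {S : Subgroup Ω}

theorem pi_dl4 [Finite S] {p : ℕ} [Fact p.Prime] (hS : IsPGroup p S) {F : FusionSystem S}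
    {T R : Subgroup Ω} (c : PiCtx F p T R) (hgi : PiGi F p T) {A : Subgroup Ω} {f g : Ω → Ω}
    (hAR : F.IsConj A R) (hAT : A ≤ T) (hf : IsMap F A f) (hg : IsMap F (img A f) g)
    (h1 : PiQ F p T R A f) (h2 : PiQ F p T R (img A f) g) : PiQ F p T R A (g ∘ f) := by
  intro χ₁ χ₃ a b u β₀ hG1 hG3 hu hβ₀ hcomm
  have hh := c.hyp
  have hRS : R ≤ S := c.fn.1
  have : Finite R := Helper88.finite_of_le hRS
  -- a chart of `img A f`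
  have hfT : img A f ≤ T := by
    intro y hy
    obtain ⟨x, hx, rfl⟩ := hf.mem_img.mp hy
    exact pi_mapsTo hS hh hf x hx (hAT hx)
  have hconj2 : F.IsConj (img A f) R :=
    Helper88.isConj_trans F (Helper88.isConj_symm F hf.isConj) hAR
  obtain ⟨χ₂, m, hG2⟩ := hgi R (img A f) c.fn hconj2 hfT
  obtain ⟨hχ₁, hi₁, haS, hg₁⟩ := hG1
  obtain ⟨hχ₂, hi₂, hmS, hg₂⟩ := hG2
  have hAN : A ≤ normalizerIn T A := fun x hx =>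
    Subgroup.mem_inf.mpr ⟨hAT hx, Subgroup.le_normalizer hx⟩
  have hBN : img A f ≤ normalizerIn T (img A f) := fun x hx =>
    Subgroup.mem_inf.mpr ⟨hfT hx, Subgroup.le_normalizer hx⟩
  have hχ₁A : IsMap F A χ₁ := hχ₁.restrict hAN
  have hχ₂B : IsMap F (img A f) χ₂ := hχ₂.restrict hBN
  obtain ⟨k, hk, hk1, hk2, -⟩ := hχ₁A.exists_inv
  rw [hi₁] at hk hk2
  -- `θ = χ₂ ∘ f ∘ χ₁⁻¹` on `R`
  have hθ : IsMap F R (χ₂ ∘ (f ∘ k)) :=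
    (hk.comp hf (fun y hy => (hk2 y hy).1)).comp hχ₂B
      (fun y hy => hf.apply_mem_img (hk2 y hy).1)
  have hθimg : img R (χ₂ ∘ (f ∘ k)) = R := by
    apply hθ.img_eq_of_mapsTo
    intro y hy
    rw [← hi₂]
    exact hχ₂B.apply_mem_img (hf.apply_mem_img (hk2 y hy).1)
  obtain ⟨δ, hδ, hδθ⟩ := hθ.exists_aut hθimg
  obtain ⟨hauto, -⟩ := Helper84.saturated_fullyNormalized hS F hh.sat c.fn
  obtain ⟨P₀, hP₀⟩ := hauto.2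
  obtain ⟨σ, hσ, β, hβ, hδeq⟩ := exists_sylow_mul_pResidual P₀ ⟨δ, hδ⟩
  have hδeq' : δ = (σ : MulAut R) * (β : MulAut R) := congrArg Subtype.val hδeq
  rw [hP₀, Subgroup.mem_subgroupOf] at hσ
  obtain ⟨u₁, hu₁S, hu₁c⟩ := (Helper88.mem_autInducedBy_iff S R _).1 hσ
  have hu₁N : u₁ ∈ Subgroup.normalizer (R : Set Ω) := Helper84.mem_normalizer_of_aut hu₁c
  have hu₁NS : u₁ ∈ normalizerIn S R := Subgroup.mem_inf.mpr ⟨hu₁S, hu₁N⟩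
  have hσf : ∀ z ∈ R, autFun (σ : MulAut R) z = u₁ * z * u₁⁻¹ := by
    intro z hz
    rw [autFun_apply' _ hz, hu₁c]
  have hβ₁ : (β : MulAut R) ∈ PiO F p R := ⟨β, hβ, rfl⟩
  have hχ₁R : ∀ x ∈ A, χ₁ x ∈ R := fun x hx => by
    rw [← hi₁]; exact hχ₁A.apply_mem_img hx
  have hkey1 : ∀ x ∈ A, χ₂ (f x) = u₁ * autFun (β : MulAut R) (χ₁ x) * u₁⁻¹ := by
    intro x hx
    have h3 := hδθ (χ₁ x) (hχ₁R x hx)
    rw [hδeq', autFun_mul _ _ (hχ₁R x hx), hσf _ (autFun_mem _ (hχ₁R x hx))] at h3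
    rw [h3]
    show χ₂ (f x) = χ₂ (f (k (χ₁ x)))
    rw [hk1 x hx]
  have hT1 : m⁻¹ * u₁ * a ∈ T :=
    h1 χ₁ χ₂ a m u₁ (β : MulAut R) ⟨hχ₁, hi₁, haS, hg₁⟩ ⟨hχ₂, hi₂, hmS, hg₂⟩ hu₁NS hβ₁ hkey1
  -- the second step, on `img A f`
  obtain ⟨b₀, hb₀, rfl⟩ := hβ₀
  have hβ₂ : ((σ * (b₀ * β⁻¹) * σ⁻¹ : F.autGroup R) : MulAut R) ∈ PiO F p R :=
    ⟨_, pResidual_conj_mem p (Subgroup.mul_mem _ hb₀ (Subgroup.inv_mem _ hβ)) σ, rfl⟩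
  have hkey2 : ∀ y ∈ img A f, χ₃ (g y) =
      (u * u₁⁻¹) * autFun ((σ * (b₀ * β⁻¹) * σ⁻¹ : F.autGroup R) : MulAut R) (χ₂ y) *
        (u * u₁⁻¹)⁻¹ := by
    intro y hy
    obtain ⟨x, hx, rfl⟩ := hf.mem_img.mp hy
    have hc : χ₃ ((g ∘ f) x) = u * autFun (b₀ : MulAut R) (χ₁ x) * u⁻¹ := hcomm x hx
    have hx₁ := hχ₁R x hx
    have hz : χ₂ (f x) ∈ R := by
      rw [← hi₂]; exact hχ₂B.apply_mem_img (hf.apply_mem_img hx)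
    have hcoe : ((σ * (b₀ * β⁻¹) * σ⁻¹ : F.autGroup R) : MulAut R) =
        (σ : MulAut R) * ((b₀ : MulAut R) * (β : MulAut R)⁻¹) * (σ : MulAut R)⁻¹ := rfl
    have hβx : autFun (β : MulAut R) (χ₁ x) ∈ R := autFun_mem _ hx₁
    have e1 : autFun (σ : MulAut R)⁻¹ (χ₂ (f x)) = autFun (β : MulAut R) (χ₁ x) := by
      rw [hkey1 x hx, ← hσf _ hβx, autFun_inv_apply _ hβx]
    have e2 : autFun ((σ : MulAut R) * ((b₀ : MulAut R) * (β : MulAut R)⁻¹) * (σ : MulAut R)⁻¹)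
        (χ₂ (f x)) = u₁ * autFun (b₀ : MulAut R) (χ₁ x) * u₁⁻¹ := by
      rw [autFun_mul _ _ hz, e1, autFun_mul _ _ hβx, autFun_mul _ _ hβx, autFun_inv_apply _ hx₁,
        hσf _ (autFun_mem _ hx₁)]
    rw [hcoe, e2]
    show χ₃ ((g ∘ f) x) = _
    rw [hc]
    group
  rw [Helper88.img_comp hf hg] at hG3
  have hT2 : b⁻¹ * (u * u₁⁻¹) * m ∈ T :=
    h2 χ₂ χ₃ m b (u * u₁⁻¹) _ ⟨hχ₂, hi₂, hmS, hg₂⟩ hG3
      (Subgroup.mul_mem _ hu (Subgroup.inv_mem _ hu₁NS)) hβ₂ hkey2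
  have hfin : b⁻¹ * u * a = (b⁻¹ * (u * u₁⁻¹) * m) * (m⁻¹ * u₁ * a) := by group
  rw [hfin]
  exact T.mul_mem hT2 hT1

end Cfsg.Agent.Helper41.PiDL4
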