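import Cfsg.Agent.Helper85.PiDefs
import Cfsg.Agent.Helper85.PiGen

/-!
# CALL S5113, piece IDX (helper41): the candidate subsystem has `p`-power index
-/

set_option autoImplicit false

namespace Cfsg.Agent.Helper41.PiIDX

open Cfsg Cfsg.FusionSystem Cfsg.Agent.Helper85 Cfsg.Agent.Helper88

variable {Ω : Type*} [Group Ω] {S : Subgroup Ω}

theorem pi_index [Finite S] {p : ℕ} [Fact p.Prime] (hS : IsPGroup p S) {F : FusionSystem S}
    {T : Subgroup Ω} (hh : PiHyp F p T) {E : FusionSystem T} (hE : PiSys F p E) :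
    E.HasPPowerIndexIn F p := by
  refine ⟨fun P φ hφ => ?_, hh.hyp, fun P hPT α hα => ?_⟩
  · exact (isMap_iff_hom F φ).mpr (piGen_isMap hh.le ((hE P _).mp (isMap_extHom hφ)))
  · exact (mem_autGroup_iff E hPT α).mpr ((hE P _).mpr (PiGen.base hPT hα le_rfl))

end Cfsg.Agent.Helper41.PiIDX
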