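import Cfsg.Agent.Helper85.PiDefs
import Cfsg.Agent.Helper85.PiGen

/-!
# CALL S5113, piece SUB (helper41): the candidate subsystem is a fusion system over `T`
-/

set_option autoImplicit false

namespace Cfsg.Agent.Helper41.PiSUB

open Cfsg Cfsg.FusionSystem Cfsg.Agent.Helper85 Cfsg.Agent.Helper88

variable {Ω : Type*} [Group Ω] {S : Subgroup Ω}

theorem pi_exists_sys [Finite S] {p : ℕ} [Fact p.Prime] (hS : IsPGroup p S) {F : FusionSystem S}
    {T : Subgroup Ω} (hh : PiHyp F p T) : ∃ E : FusionSystem T, PiSys F p E := by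
  refine ⟨{ Hom := fun Q => {φ | PiGen F p T Q (extHom φ)}
            le_of_mem := ?_
            injective_of_mem := ?_
            conj_mem := ?_
            comp_mem := ?_
            inv_mem := ?_ }, fun Q f => ⟨?_, fun h => ?_⟩⟩
  · intro P φ hφ
    refine ⟨piGen_le hφ, fun x => ?_⟩
    have := piGen_mapsTo hS hh hφ x x.2
    rwa [extHom_apply] at this
  · intro P φ hφ
    exact F.injective_of_mem ((isMap_iff_hom F φ).mpr (piGen_isMap hh.le hφ))
  · intro P g hP hg
    exact PiGen.congr (PiGen.conj hP hg) (fun x hx => by rw [extHom_apply' _ hx]; rfl)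
  · intro P Q φ ψ hφ hψ h
    refine PiGen.congr (PiGen.comp hφ hψ (fun x hx => ?_)) (fun x hx => ?_)
    · rw [extHom_apply' φ hx]
      exact h ⟨x, hx⟩
    · rw [extHom_apply' _ hx]
      show ψ (φ.codRestrict Q h ⟨x, hx⟩) = extHom ψ (extHom φ x)
      rw [extHom_apply' φ hx, extHom_apply' ψ (h ⟨x, hx⟩)]
      rfl
  · intro P φ hφ
    obtain ⟨g, hg, hgf⟩ := piGen_exists_inv hS hh hφ
    have himg : img P (extHom φ) = φ.range := img_eq_range (fun x => (extHom_apply φ x).symm)
    rw [himg] at hg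
    obtain ⟨ψ, hψ, hψg⟩ := piGen_isMap hh.le hg
    refine ⟨ψ, PiGen.congr hg (fun y hy => ?_), fun x => ?_⟩
    · rw [extHom_apply' ψ hy]
      exact hψg ⟨y, hy⟩
    · rw [hψg]
      have := hgf x x.2
      rwa [extHom_apply] at this
  · rintro ⟨φ, hφ, hφf⟩
    exact PiGen.congr hφ (fun x hx => by rw [extHom_apply' φ hx]; exact (hφf ⟨x, hx⟩).symm)
  · obtain ⟨φ, hφ, hφf⟩ := piGen_isMap hh.le h
    exact ⟨φ, PiGen.congr h (fun x hx => by rw [extHom_apply' φ hx]; exact hφf ⟨x, hx⟩), hφf⟩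

end Cfsg.Agent.Helper41.PiSUB
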