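import Cfsg.Agent.Helper85.PiDefs
import Cfsg.Agent.Helper84.FusionIso
import Cfsg.Agent.Helper85.Residual

/-!
# CALL S5113, piece TR (helper41): transport of `O^p` of the automizer along an isomorphism of the system
-/

set_option autoImplicit false

namespace Cfsg.Agent.Helper41.PiTR

open Cfsg Cfsg.FusionSystem Cfsg.Agent.Helper85 Cfsg.Agent.Helper88

variable {Ω : Type*} [Group Ω] {S : Subgroup Ω}

theorem pi_transport [Finite S] {p : ℕ} [Fact p.Prime] (F : FusionSystem S) : PiTr F p := by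
  intro A B χ α hχ hB hα
  obtain ⟨φ, hφ, hf, he⟩ := hχ.img_eq
  have hr : φ.range = B := he.symm.trans hB
  let e : A ≃* B := Helper84.isoOfHom φ (F.injective_of_mem hφ) hr
  have hiso : Helper84.IsFIso F e := Helper84.isFIso_isoOfHom F hφ hr
  let Ψ : F.autGroup A →* F.autGroup B :=
    ((MulAut.congr e).toMonoidHom.comp (F.autGroup A).subtype).codRestrict (F.autGroup B)
      (fun a => Helper84.congr_mem_autGroup hiso a.2)
  obtain ⟨a, ha, rfl⟩ := hα
  refine ⟨(Ψ a : MulAut B), ⟨Ψ a, map_pResidual_le p Ψ ha, rfl⟩, fun x hx => ?_⟩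
  have hxB : χ x ∈ B := by
    rw [← hr]
    exact ⟨⟨x, hx⟩, hf ⟨x, hx⟩⟩
  rw [autFun_apply' _ hxB, autFun_apply' _ hx, ← hf]
  have h1 : (⟨χ x, hxB⟩ : B) = e ⟨x, hx⟩ := by
    apply Subtype.ext
    show χ x = φ ⟨x, hx⟩
    exact (hf ⟨x, hx⟩).symm
  rw [h1]
  show ((e ((a : MulAut A) (e.symm (e ⟨x, hx⟩))) : B) : Ω) = _
  rw [MulEquiv.symm_apply_apply]
  rfl

end Cfsg.Agent.Helper41.PiTR
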