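import Cfsg.Agent.Helper41.RVRad

set_option autoImplicit false

/-!
# Ruiz–Viruel bounds, part 7: when all elements of `P` are conjugate, every plane is radical
(helper41)
-/

namespace Cfsg.Agent.Helper41.RV

open Matrix

variable {G : Type*} [Group G] {p : ℕ} [Fact p.Prime]

theorem Heis.exists_cross_one {P : Subgroup G} {c : G → Fin 2 → ZMod p} {z : G} (H : Heis P c z)
    {x : G} (hcx : c x ≠ 0) : ∃ u ∈ P, c u 0 * c x 1 - c u 1 * c x 0 = 1 := by
  by_cases h1 : c x 1 = 0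
  · have h0 : c x 0 ≠ 0 := fun h0 => hcx (by funext i; fin_cases i <;> simpa)
    obtain ⟨u, hu, hcu⟩ := H.c_surj ![0, -(c x 0)⁻¹]
    exact ⟨u, hu, by rw [hcu]; simp; field_simp⟩
  · obtain ⟨u, hu, hcu⟩ := H.c_surj ![(c x 1)⁻¹, 0]
    exact ⟨u, hu, by rw [hcu]; simp; field_simp⟩

/-- if `x ∈ P ∖ Z` is conjugate to `z`, then some element of `G` acts on `⟨z, x⟩` by the
transvection `z ↦ z x`, `x ↦ x`. -/
theorem conj_radical [Finite G] (P : Sylow p G) {c : G → Fin 2 → ZMod p} {z : G}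
    (H : Heis (P : Subgroup G) c z) {x : G} (hx : x ∈ (P : Subgroup G)) (hcx : c x ≠ 0)
    (hconj : ∃ g : G, g * z * g⁻¹ = x) :
    ∃ g : G, g * z * g⁻¹ = z * x ∧ g * x * g⁻¹ = x := by
  obtain ⟨g0, hg0⟩ := hconj
  have hR0 : ((g0 • P : Sylow p G) : Subgroup G) ≤ Subgroup.centralizer {x} := by
    intro y hy
    rw [Sylow.coe_subgroup_smul, Subgroup.mem_pointwise_smul_iff_inv_smul_mem] at hy
    have hy' : g0⁻¹ * y * g0 ∈ (P : Subgroup G) := by simpa [MulAut.smul_def] using hy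
    rw [Subgroup.mem_centralizer_iff]
    intro t ht
    rw [Set.mem_singleton_iff] at ht
    subst ht
    have e := H.z_central _ hy'
    calc t * y = g0 * (z * (g0⁻¹ * y * g0)) * g0⁻¹ := by rw [← hg0]; group
      _ = g0 * ((g0⁻¹ * y * g0) * z) * g0⁻¹ := by rw [e]
      _ = y * t := by rw [← hg0]; group
  have hzΓ : z ∈ Subgroup.centralizer {x} := by
    rw [Subgroup.mem_centralizer_iff]
    intro t ht
    rw [Set.mem_singleton_iff] at ht
    subst ht
    exact H.z_central t hx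
  have hQ : IsPGroup p ((Subgroup.zpowers z).subgroupOf (Subgroup.centralizer {x})) := by
    have h1 : IsPGroup p (Subgroup.zpowers z) := by
      rintro ⟨y, hy⟩
      refine ⟨1, ?_⟩
      obtain ⟨i, rfl⟩ := Subgroup.mem_zpowers_iff.mp hy
      apply Subtype.ext
      show (z ^ i) ^ (p ^ 1) = 1
      rw [pow_one, ← zpow_natCast, ← _root_.zpow_mul, mul_comm, _root_.zpow_mul, zpow_natCast,
        H.z_pow, _root_.one_zpow]
    exact h1.comap_subtype
  obtain ⟨S', hS'⟩ := hQ.exists_le_sylow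
  obtain ⟨c0, hc0⟩ := MulAction.exists_smul_eq ↥(Subgroup.centralizer {x})
    ((g0 • P).subtype hR0) S'
  rw [Sylow.smul_subtype] at hc0
  have hz' : (⟨z, hzΓ⟩ : ↥(Subgroup.centralizer {x})) ∈ (S' : Subgroup ↥(Subgroup.centralizer {x})) :=
    hS' (Subgroup.mem_subgroupOf.mpr (Subgroup.mem_zpowers z))
  rw [← hc0] at hz'
  have hz'' : z ∈ ((c0 • (g0 • P) : Sylow p G) : Subgroup G) := by
    simpa [Sylow.coe_subtype, Subgroup.mem_subgroupOf] using hz'
  have e : (c0 • (g0 • P) : Sylow p G) = ((c0 : G) * g0) • P := by rw [mul_smul]; rfl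
  rw [e, Sylow.coe_subgroup_smul, Subgroup.mem_pointwise_smul_iff_inv_smul_mem] at hz''
  set g1 := (c0 : G) * g0 with hg1
  have hw : g1⁻¹ * z * g1 ∈ (P : Subgroup G) := by simpa [MulAut.smul_def] using hz''
  have hg1z : g1 * z * g1⁻¹ = x := by
    have hc : (c0 : G) * x = x * c0 :=
      (Subgroup.mem_centralizer_iff.mp c0.2 x (Set.mem_singleton x)).symm
    calc g1 * z * g1⁻¹ = c0 * (g0 * z * g0⁻¹) * (c0 : G)⁻¹ := by rw [hg1]; group
      _ = c0 * x * (c0 : G)⁻¹ := by rw [hg0]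
      _ = x := by rw [hc]; group
  have hcw : c (g1⁻¹ * z * g1) ≠ 0 := by
    intro h0
    obtain ⟨k, hk⟩ := H.c_ker _ hw h0
    have hzx : z = x ^ k := by
      calc z = g1 * (g1⁻¹ * z * g1) * g1⁻¹ := by group
        _ = g1 * z ^ k * g1⁻¹ := by rw [hk]
        _ = (g1 * z * g1⁻¹) ^ k := by rw [conj_pow]
        _ = x ^ k := by rw [hg1z]
    have h1 := H.c_z
    rw [hzx, H.c_pow hx] at h1
    obtain ⟨i, hi⟩ := Function.ne_iff.mp hcx
    have h2 := congrFun h1 i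
    simp only [Pi.smul_apply, nsmul_eq_mul, Pi.zero_apply] at h2
    have h3 : (k : ZMod p) = 0 := (mul_eq_zero.mp h2).resolve_right hi
    have h4 : x ^ k = 1 := by
      rw [← pz_natCast (H.exp x hx) k, h3, pz_zero]
    exact H.z_ne (hzx.trans h4)
  obtain ⟨u, hu, hcu⟩ := H.exists_cross_one hcw
  have huw : u * (g1⁻¹ * z * g1) * u⁻¹ = z * (g1⁻¹ * z * g1) := by
    have h := H.pair u hu _ hw
    rw [hcu, pz_one] at h
    exact mul_inv_eq_iff_eq_mul.mp h
  refine ⟨g1 * u * g1⁻¹, ?_, ?_⟩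
  · calc g1 * u * g1⁻¹ * z * (g1 * u * g1⁻¹)⁻¹
        = g1 * (u * (g1⁻¹ * z * g1) * u⁻¹) * g1⁻¹ := by group
      _ = g1 * (z * (g1⁻¹ * z * g1)) * g1⁻¹ := by rw [huw]
      _ = (g1 * z * g1⁻¹) * z := by group
      _ = x * z := by rw [hg1z]
      _ = z * x := H.z_central x hx
  · have hxz : g1⁻¹ * x * g1 = z := by rw [← hg1z]; group
    calc g1 * u * g1⁻¹ * x * (g1 * u * g1⁻¹)⁻¹
        = g1 * (u * (g1⁻¹ * x * g1) * u⁻¹) * g1⁻¹ := by group
      _ = g1 * (u * z * u⁻¹) * g1⁻¹ := by rw [hxz]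
      _ = g1 * z * g1⁻¹ := by rw [H.z_central u hu, mul_inv_cancel_right]
      _ = x := hg1z

end Cfsg.Agent.Helper41.RV
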