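import Cfsg.Agent.Helper41.RVHeis

set_option autoImplicit false

/-!
# Ruiz–Viruel bounds, part 4: the action of `N_G(P)` on `P/Z(P)` by matrices (helper41)
-/

namespace Cfsg.Agent.Helper41.RV

open Matrix

variable {G : Type*} [Group G] {p : ℕ} [Fact p.Prime]

/-- Heisenberg coordinates on a subgroup `P` of `G`: `c : P → 𝔽_p²` is a surjective homomorphism
with kernel `⟨z⟩`, and commutators are given by the determinant pairing. -/
structure Heis (P : Subgroup G) (c : G → Fin 2 → ZMod p) (z : G) : Prop where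
  z_mem : z ∈ P
  z_ne : z ≠ 1
  exp : ∀ x ∈ P, x ^ p = 1
  z_central : ∀ x ∈ P, x * z = z * x
  c_mul : ∀ x ∈ P, ∀ y ∈ P, c (x * y) = c x + c y
  c_ker : ∀ x ∈ P, c x = 0 → ∃ k : ℕ, x = z ^ k
  c_z : c z = 0
  c_surj : ∀ v : Fin 2 → ZMod p, ∃ x ∈ P, c x = v
  pair : ∀ x ∈ P, ∀ y ∈ P, x * y * x⁻¹ * y⁻¹ = z ^ (c x 0 * c y 1 - c x 1 * c y 0).val

theorem exists_heis (P : Subgroup G) [Finite P] (hE : Cfsg.IsExtraspecial p ↥P)
    (hcard : Nat.card P = p ^ 3) (hexp : Monoid.exponent ↥P = p) :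
    ∃ (c : G → Fin 2 → ZMod p) (z : G), Heis P c z := by
  classical
  obtain ⟨c, z, hz1, hzc, hmul, hker, hcz, hsurj, hpair⟩ := heis_type ↥P p hE hcard hexp
  set cG : G → Fin 2 → ZMod p := fun x => if h : x ∈ P then c ⟨x, h⟩ else 0 with hcG
  have hc : ∀ x (hx : x ∈ P), cG x = c ⟨x, hx⟩ := fun x hx => by rw [hcG]; exact dif_pos hx
  refine ⟨cG, z.1, ?_⟩
  constructor
  · exact z.2
  · intro h; exact hz1 (Subtype.ext h)
  · intro x hx
    have h := Monoid.pow_exponent_eq_one (⟨x, hx⟩ : ↥P)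
    rw [hexp] at h
    exact congrArg Subtype.val h
  · intro x hx; exact congrArg Subtype.val (hzc ⟨x, hx⟩)
  · intro x hx y hy
    rw [hc x hx, hc y hy, hc (x * y) (P.mul_mem hx hy)]
    exact hmul ⟨x, hx⟩ ⟨y, hy⟩
  · intro x hx h0
    rw [hc x hx] at h0
    obtain ⟨k, hk⟩ := hker ⟨x, hx⟩ h0
    exact ⟨k, by have h := congrArg Subtype.val hk; simpa using h⟩
  · rw [hc z.1 z.2]; exact hcz
  · intro v
    obtain ⟨x, hx⟩ := hsurj v
    exact ⟨x.1, x.2, by rw [hc x.1 x.2]; exact hx⟩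
  · intro x hx y hy
    rw [hc x hx, hc y hy]
    have h := congrArg Subtype.val (hpair ⟨x, hx⟩ ⟨y, hy⟩)
    simpa using h

namespace Heis

variable {P : Subgroup G} {c : G → Fin 2 → ZMod p} {z : G} (H : Heis P c z)
include H

theorem c_one : c 1 = 0 := by
  have h := H.c_mul 1 P.one_mem 1 P.one_mem
  rw [mul_one] at h
  exact left_eq_add.mp h

theorem c_inv {x : G} (hx : x ∈ P) : c x⁻¹ = - c x := by
  have h := H.c_mul x hx x⁻¹ (P.inv_mem hx)
  rw [mul_inv_cancel, H.c_one] at h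
  exact (neg_eq_of_add_eq_zero_right h.symm).symm

theorem c_pow {x : G} (hx : x ∈ P) (n : ℕ) : c (x ^ n) = n • c x := by
  induction n with
  | zero => simp [H.c_one]
  | succ n ih => rw [pow_succ, H.c_mul _ (P.pow_mem hx n) _ hx, ih, succ_nsmul]

theorem c_pz {x : G} (hx : x ∈ P) (t : ZMod p) : c (x ^ t.val) = t • c x := by
  rw [H.c_pow hx]
  funext i
  simp

theorem z_pow : z ^ p = 1 := H.exp z H.z_mem

theorem c_zpow (k : ℕ) : c (z ^ k) = 0 := by rw [H.c_pow H.z_mem, H.c_z, smul_zero]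

theorem comm_iff {x y : G} (hx : x ∈ P) (hy : y ∈ P) :
    x * y = y * x ↔ c x 0 * c y 1 - c x 1 * c y 0 = 0 := by
  have hp := H.pair x hx y hy
  constructor
  · intro h
    have h1 : x * y * x⁻¹ * y⁻¹ = 1 := by rw [h]; group
    rw [hp] at h1
    exact pz_inj H.z_pow H.z_ne (by rw [h1, pz_zero])
  · intro h
    rw [h, pz_zero] at hp
    have h2 := mul_inv_eq_one.mp hp
    exact mul_inv_eq_iff_eq_mul.mp h2

theorem c_conj {u x : G} (hu : u ∈ P) (hx : x ∈ P) : c (u * x * u⁻¹) = c x := by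
  rw [H.c_mul _ (P.mul_mem hu hx) _ (P.inv_mem hu), H.c_mul _ hu _ hx, H.c_inv hu]; abel

/-- central elements of `P` have trivial coordinates. -/
theorem c_central {x : G} (hx : x ∈ P) (h : ∀ y ∈ P, x * y = y * x) : c x = 0 := by
  obtain ⟨a, ha, hca⟩ := H.c_surj ![1, 0]
  obtain ⟨b, hb, hcb⟩ := H.c_surj ![0, 1]
  have h1 := (H.comm_iff hx ha).mp (h a ha)
  have h2 := (H.comm_iff hx hb).mp (h b hb)
  rw [hca] at h1
  rw [hcb] at h2
  simp at h1 h2
  funext i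
  fin_cases i
  · simpa using h2
  · simpa using h1

/-- the normal form `x = a^i b^j z^k`. -/
theorem nf {a b : G} (ha : a ∈ P) (hb : b ∈ P) (hca : c a = ![1, 0]) (hcb : c b = ![0, 1])
    {x : G} (hx : x ∈ P) :
    ∃ k : ℕ, x = a ^ (c x 0).val * b ^ (c x 1).val * z ^ k := by
  have hm : a ^ (c x 0).val * b ^ (c x 1).val ∈ P :=
    P.mul_mem (P.pow_mem ha _) (P.pow_mem hb _)
  obtain ⟨k, hk⟩ := H.c_ker _ (P.mul_mem (P.inv_mem hm) hx) (by
    rw [H.c_mul _ (P.inv_mem hm) _ hx, H.c_inv hm,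
      H.c_mul _ (P.pow_mem ha _) _ (P.pow_mem hb _), H.c_pow ha, H.c_pow hb, hca, hcb]
    funext i
    fin_cases i <;> simp)
  exact ⟨k, by rw [← hk]; group⟩

end Heis

/-- `h` normalizes `P` and acts on `P/Z` by the matrix `M`. -/
def Acts (P : Subgroup G) (c : G → Fin 2 → ZMod p) (h : G)
    (M : Matrix (Fin 2) (Fin 2) (ZMod p)) : Prop :=
  h ∈ Subgroup.normalizer (P : Set G) ∧ ∀ x ∈ P, c (h * x * h⁻¹) = M *ᵥ c x

theorem conj_mem_of_normalizer {P : Subgroup G} {h : G} (hh : h ∈ Subgroup.normalizer (P : Set G)) {x : G}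
    (hx : x ∈ P) : h * x * h⁻¹ ∈ P :=
  (Subgroup.mem_normalizer_iff.mp hh x).mp hx

theorem acts_one (P : Subgroup G) (c : G → Fin 2 → ZMod p) : Acts P c 1 1 :=
  ⟨Subgroup.one_mem _, fun x _ => by simp⟩

theorem acts_mul {P : Subgroup G} {c : G → Fin 2 → ZMod p} {h h' : G}
    {M M' : Matrix (Fin 2) (Fin 2) (ZMod p)} (a : Acts P c h M) (a' : Acts P c h' M') :
    Acts P c (h * h') (M * M') := by
  refine ⟨Subgroup.mul_mem _ a.1 a'.1, fun x hx => ?_⟩
  have e : h * h' * x * (h * h')⁻¹ = h * (h' * x * h'⁻¹) * h⁻¹ := by group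
  rw [e, a.2 _ (conj_mem_of_normalizer a'.1 hx), a'.2 x hx, Matrix.mulVec_mulVec]

theorem acts_pow {P : Subgroup G} {c : G → Fin 2 → ZMod p} {h : G}
    {M : Matrix (Fin 2) (Fin 2) (ZMod p)} (a : Acts P c h M) (n : ℕ) :
    Acts P c (h ^ n) (M ^ n) := by
  induction n with
  | zero => simpa using acts_one P c
  | succ n ih => rw [pow_succ, pow_succ]; exact acts_mul ih a

/-- the monoid of matrices induced by `N_G(P)` on `P/Z`. -/
def SP (P : Subgroup G) (c : G → Fin 2 → ZMod p) :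
    Submonoid (Matrix (Fin 2) (Fin 2) (ZMod p)) where
  carrier := {M | ∃ h, Acts P c h M}
  mul_mem' := by
    rintro _ _ ⟨h, a⟩ ⟨h', a'⟩
    exact ⟨h * h', acts_mul a a'⟩
  one_mem' := ⟨1, acts_one P c⟩

namespace Heis

variable {P : Subgroup G} {c : G → Fin 2 → ZMod p} {z : G} (H : Heis P c z)
include H

theorem conj_z_central {h : G} (hh : h ∈ Subgroup.normalizer (P : Set G)) : c (h * z * h⁻¹) = 0 := by
  refine H.c_central (conj_mem_of_normalizer hh H.z_mem) (fun y hy => ?_)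
  have hy' : h⁻¹ * y * h ∈ P := by
    have h1 := conj_mem_of_normalizer (Subgroup.inv_mem _ hh) hy
    simpa using h1
  have e := H.z_central _ hy'
  calc h * z * h⁻¹ * y = h * (z * (h⁻¹ * y * h)) * h⁻¹ := by group
    _ = h * ((h⁻¹ * y * h) * z) * h⁻¹ := by rw [e]
    _ = y * (h * z * h⁻¹) := by group

theorem exists_acts {h : G} (hh : h ∈ Subgroup.normalizer (P : Set G)) : ∃ M, Acts P c h M := by
  obtain ⟨a, ha, hca⟩ := H.c_surj ![1, 0]
  obtain ⟨b, hb, hcb⟩ := H.c_surj ![0, 1]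
  refine ⟨Matrix.of ![![c (h * a * h⁻¹) 0, c (h * b * h⁻¹) 0],
    ![c (h * a * h⁻¹) 1, c (h * b * h⁻¹) 1]], hh, fun x hx => ?_⟩
  obtain ⟨k, hk⟩ := H.nf ha hb hca hcb hx
  have e1 : h * x * h⁻¹ = (h * a * h⁻¹) ^ (c x 0).val * (h * b * h⁻¹) ^ (c x 1).val *
      (h * z * h⁻¹) ^ k := by
    rw [conj_pow, conj_pow, conj_pow, conj_mul, conj_mul, ← hk]
  have ma := conj_mem_of_normalizer hh ha
  have mb := conj_mem_of_normalizer hh hb
  have mz := conj_mem_of_normalizer hh H.z_mem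
  rw [e1, H.c_mul _ (P.mul_mem (P.pow_mem ma _) (P.pow_mem mb _)) _ (P.pow_mem mz _),
    H.c_mul _ (P.pow_mem ma _) _ (P.pow_mem mb _), H.c_pow ma, H.c_pow mb, H.c_pow mz,
    H.conj_z_central hh, smul_zero, add_zero]
  funext i
  simp only [Pi.add_apply, Pi.smul_apply]
  simp only [nsmul_eq_mul, ZMod.natCast_zmod_val]
  fin_cases i <;> simp [Matrix.mulVec, dotProduct, Fin.sum_univ_two] <;> ring

/-- the action on the centre is by the determinant. -/
theorem acts_z {h : G} {M : Matrix (Fin 2) (Fin 2) (ZMod p)} (a : Acts P c h M) :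
    h * z * h⁻¹ = z ^ (M.det).val := by
  obtain ⟨a0, ha, hca⟩ := H.c_surj ![1, 0]
  obtain ⟨b0, hb, hcb⟩ := H.c_surj ![0, 1]
  have hz : a0 * b0 * a0⁻¹ * b0⁻¹ = z := by
    rw [H.pair a0 ha b0 hb, hca, hcb]
    have : ((![1, 0] : Fin 2 → ZMod p) 0 * (![0, 1] : Fin 2 → ZMod p) 1 -
        (![1, 0] : Fin 2 → ZMod p) 1 * (![0, 1] : Fin 2 → ZMod p) 0) = 1 := by simp
    rw [this, pz_one]
  have h1 := H.pair _ (conj_mem_of_normalizer a.1 ha) _ (conj_mem_of_normalizer a.1 hb)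
  rw [a.2 a0 ha, a.2 b0 hb, hca, hcb] at h1
  have e : h * z * h⁻¹ =
      h * a0 * h⁻¹ * (h * b0 * h⁻¹) * (h * a0 * h⁻¹)⁻¹ * (h * b0 * h⁻¹)⁻¹ := by
    rw [← hz]; group
  rw [e, h1]
  congr 2
  simp [Matrix.mulVec, dotProduct, Fin.sum_univ_two, Matrix.det_fin_two]
  ring

end Heis

/-- the matrices induced by `N_G(P)` have order prime to `p` when `P` is a Sylow subgroup. -/
theorem Heis.acts_order [Finite G] (P : Sylow p G) {c : G → Fin 2 → ZMod p} {z : G}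
    (H : Heis (P : Subgroup G) c z) {h : G} {M : Matrix (Fin 2) (Fin 2) (ZMod p)}
    (a : Acts (P : Subgroup G) c h M) : ∃ n : ℕ, ¬ p ∣ n ∧ M ^ n = 1 := by
  have hp := (Fact.out : p.Prime)
  obtain ⟨k, m, hm, ho⟩ := Nat.exists_eq_pow_mul_and_not_dvd (orderOf_pos h).ne' p hp.ne_one
  refine ⟨m, hm, ?_⟩
  have hu : (h ^ m) ^ (p ^ k) = 1 := by
    rw [← pow_mul, mul_comm, ← ho, pow_orderOf_eq_one]
  have hun : h ^ m ∈ Subgroup.normalizer ((P : Subgroup G) : Set G) := Subgroup.pow_mem _ a.1 m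
  have huP : h ^ m ∈ (P : Subgroup G) := by
    have hpg : IsPGroup p (Subgroup.zpowers (h ^ m)) := by
      rintro ⟨g, hg⟩
      refine ⟨k, ?_⟩
      obtain ⟨i, rfl⟩ := Subgroup.mem_zpowers_iff.mp hg
      apply Subtype.ext
      show ((h ^ m) ^ i) ^ (p ^ k) = 1
      rw [← zpow_natCast, ← _root_.zpow_mul, mul_comm, _root_.zpow_mul, zpow_natCast, hu, _root_.one_zpow]
    have h1 := hpg.inf_normalizer_sylow P
    have h2 : h ^ m ∈ Subgroup.zpowers (h ^ m) ⊓ Subgroup.normalizer (P : Set G) :=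
      ⟨Subgroup.mem_zpowers _, hun⟩
    rw [h1] at h2
    exact h2.2
  have ha := acts_pow a m
  have hv : ∀ v, (M ^ m) *ᵥ v = v := by
    intro v
    obtain ⟨x, hx, rfl⟩ := H.c_surj v
    rw [← ha.2 x hx, H.c_conj huP hx]
  ext i j
  have h3 := congrFun (hv (Pi.single j 1)) i
  rw [Matrix.mulVec_single_one] at h3
  simpa [Matrix.one_apply, Pi.single_apply] using h3

end Cfsg.Agent.Helper41.RV
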