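import Mathlib
import Cfsg.Prelude.Def_Transfer

set_option autoImplicit false

/-!
# Ruiz–Viruel bounds, part 3: Heisenberg coordinates of an extraspecial group of order `p³`
and exponent `p` (helper41)
-/

namespace Cfsg.Agent.Helper41.RV

section pz

variable {Γ : Type*} [Group Γ] {p : ℕ} [Fact p.Prime]

theorem pz_natCast {z : Γ} (hz : z ^ p = 1) (n : ℕ) : z ^ (n : ZMod p).val = z ^ n := by
  rw [ZMod.val_natCast, ← pow_eq_pow_mod n hz]

theorem pz_add {z : Γ} (hz : z ^ p = 1) (s t : ZMod p) :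
    z ^ (s + t).val = z ^ s.val * z ^ t.val := by
  rw [← pow_add, ZMod.val_add, ← pow_eq_pow_mod _ hz]

theorem pz_mul {z : Γ} (hz : z ^ p = 1) (s t : ZMod p) :
    z ^ (s * t).val = (z ^ s.val) ^ t.val := by
  rw [← pow_mul, ZMod.val_mul, ← pow_eq_pow_mod _ hz]

theorem pz_inj {z : Γ} (hz : z ^ p = 1) (hz1 : z ≠ 1) {s t : ZMod p}
    (h : z ^ s.val = z ^ t.val) : s = t := by
  have ho : orderOf z = p := orderOf_eq_prime hz hz1
  have h1 := pow_inj_mod.mp h
  rw [ho, Nat.mod_eq_of_lt (ZMod.val_lt s), Nat.mod_eq_of_lt (ZMod.val_lt t)] at h1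
  exact ZMod.val_injective p h1

theorem pz_one (z : Γ) : z ^ (1 : ZMod p).val = z := by
  haveI : Fact (1 < p) := ⟨(Fact.out : p.Prime).one_lt⟩
  rw [ZMod.val_one, pow_one]

theorem pz_zero (z : Γ) : z ^ (0 : ZMod p).val = 1 := by
  rw [ZMod.val_zero, pow_zero]

theorem hc_one (a b z : Γ) (hz : a * b = z * (b * a)) (hzb : Commute z b) (j : ℕ) :
    a * b ^ j = z ^ j * (b ^ j * a) := by
  induction j with
  | zero => simp
  | succ j ih =>
    calc a * b ^ (j + 1) = (a * b ^ j) * b := by rw [pow_succ, mul_assoc]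
      _ = z ^ j * (b ^ j * a) * b := by rw [ih]
      _ = z ^ j * (b ^ j * (a * b)) := by simp only [mul_assoc]
      _ = z ^ j * (b ^ j * (z * (b * a))) := by rw [hz]
      _ = z ^ j * ((b ^ j * z) * (b * a)) := by simp only [mul_assoc]
      _ = z ^ j * ((z * b ^ j) * (b * a)) := by rw [(hzb.symm.pow_left j).eq]
      _ = z ^ (j + 1) * (b ^ (j + 1) * a) := by rw [pow_succ, pow_succ]; simp only [mul_assoc]

theorem hc_two (a b z : Γ) (hz : a * b = z * (b * a)) (hza : Commute z a) (hzb : Commute z b)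
    (i j : ℕ) : a ^ i * b ^ j = z ^ (i * j) * (b ^ j * a ^ i) := by
  induction i with
  | zero => simp
  | succ i ih =>
    calc a ^ (i + 1) * b ^ j = a * (a ^ i * b ^ j) := by rw [pow_succ', mul_assoc]
      _ = a * (z ^ (i * j) * (b ^ j * a ^ i)) := by rw [ih]
      _ = (a * z ^ (i * j)) * (b ^ j * a ^ i) := by simp only [mul_assoc]
      _ = (z ^ (i * j) * a) * (b ^ j * a ^ i) := by rw [(hza.pow_left (i * j)).eq]
      _ = z ^ (i * j) * ((a * b ^ j) * a ^ i) := by simp only [mul_assoc]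
      _ = z ^ (i * j) * ((z ^ j * (b ^ j * a)) * a ^ i) := by rw [hc_one a b z hz hzb j]
      _ = z ^ ((i + 1) * j) * (b ^ j * a ^ (i + 1)) := by
        rw [add_mul, one_mul, pow_add, pow_succ']; simp only [mul_assoc]

theorem cen_swap (A B ζ ζ' : Γ) (hζ : Commute ζ B) : (A * ζ) * (B * ζ') = A * B * (ζ * ζ') := by
  rw [mul_assoc, ← mul_assoc ζ, hζ.eq]
  simp only [mul_assoc]

theorem hc_side (a b z ζ ζ' : Γ) (hz : a * b = z * (b * a)) (hzc : ∀ w, Commute z w)
    (hζ : ∀ w, Commute ζ w) (i j k l : ℕ) :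
    z ^ (k * j) * ((a ^ i * b ^ j * ζ) * (a ^ k * b ^ l * ζ')) =
      a ^ (i + k) * b ^ (j + l) * (ζ * ζ') := by
  rw [cen_swap _ _ _ _ (hζ _), ← mul_assoc]
  congr 1
  calc z ^ (k * j) * (a ^ i * b ^ j * (a ^ k * b ^ l))
      = (z ^ (k * j) * a ^ i) * (b ^ j * a ^ k) * b ^ l := by simp only [mul_assoc]
    _ = (a ^ i * z ^ (k * j)) * (b ^ j * a ^ k) * b ^ l := by
        rw [((hzc (a ^ i)).pow_left (k * j)).eq]
    _ = a ^ i * (z ^ (k * j) * (b ^ j * a ^ k)) * b ^ l := by simp only [mul_assoc]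
    _ = a ^ i * (a ^ k * b ^ j) * b ^ l := by rw [← hc_two a b z hz (hzc a) (hzc b) k j]
    _ = a ^ (i + k) * b ^ (j + l) := by rw [pow_add, pow_add]; simp only [mul_assoc]

theorem hc_pair (a b z ζ ζ' : Γ) (hz : a * b = z * (b * a)) (hzc : ∀ w, Commute z w)
    (hζ : ∀ w, Commute ζ w) (hζ' : ∀ w, Commute ζ' w) (i j k l : ℕ) :
    z ^ (k * j) * ((a ^ i * b ^ j * ζ) * (a ^ k * b ^ l * ζ')) =
      z ^ (i * l) * ((a ^ k * b ^ l * ζ') * (a ^ i * b ^ j * ζ)) := by
  rw [hc_side a b z ζ ζ' hz hzc hζ i j k l, hc_side a b z ζ' ζ hz hzc hζ' k l i j,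
    add_comm k i, add_comm l j, (hζ ζ').eq]

end pz

theorem exists_crd' (p : ℕ) [Fact p.Prime] (V : Type*) [AddCommGroup V] [Module (ZMod p) V]
    [Finite V] (hcard : Nat.card V = p ^ 2) : Nonempty (V ≃+ (Fin 2 → ZMod p)) := by
  classical
  haveI : Fintype V := Fintype.ofFinite _
  have hfin : Module.finrank (ZMod p) V = 2 := by
    have h := Module.card_eq_pow_finrank (K := ZMod p) (V := V)
    rw [ZMod.card] at h
    have h2 : Fintype.card V = p ^ 2 := by
      rw [← Nat.card_eq_fintype_card]; exact hcard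
    rw [h2] at h
    exact (Nat.pow_right_injective (Fact.out : p.Prime).two_le h).symm
  exact ⟨(Module.finBasisOfFinrankEq (ZMod p) V hfin).equivFun.toAddEquiv⟩

theorem exists_crd (Q : Type*) [CommGroup Q] [Finite Q] (p : ℕ) [Fact p.Prime]
    (hexp : ∀ q : Q, q ^ p = 1) (hcard : Nat.card Q = p ^ 2) :
    ∃ c : Q → (Fin 2 → ZMod p), Function.Bijective c ∧ ∀ x y, c (x * y) = c x + c y := by
  letI : Module (ZMod p) (Additive Q) := AddCommGroup.zmodModule (fun x => by
    show Additive.ofMul (x.toMul ^ p) = 0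
    rw [hexp]; rfl)
  obtain ⟨e⟩ := exists_crd' p (Additive Q) hcard
  exact ⟨fun q => e (Additive.ofMul q), e.bijective, fun x y => map_add e _ _⟩

/-- the Heisenberg coordinates of an extraspecial group of order `p³` and exponent `p`. -/
theorem heis_type (R : Type*) [Group R] [Finite R] (p : ℕ) [Fact p.Prime]
    (hE : Cfsg.IsExtraspecial p R) (hcard : Nat.card R = p ^ 3) (hexp : Monoid.exponent R = p) :
    ∃ (c : R → Fin 2 → ZMod p) (z : R), z ≠ 1 ∧ (∀ x, x * z = z * x) ∧
      (∀ x y, c (x * y) = c x + c y) ∧ (∀ x, c x = 0 → ∃ k : ℕ, x = z ^ k) ∧ c z = 0 ∧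
      Function.Surjective c ∧
      ∀ x y, x * y * x⁻¹ * y⁻¹ = z ^ (c x 0 * c y 1 - c x 1 * c y 0).val := by
  have hcomm : commutator R = Subgroup.center R := hE.1.2.2
  have hcen : Nat.card (Subgroup.center R) = p := hE.2
  have hxp : ∀ x : R, x ^ p = 1 := fun x => by rw [← hexp]; exact Monoid.pow_exponent_eq_one x
  have hp := (Fact.out : p.Prime)
  have hQcard : Nat.card (Abelianization R) = p ^ 2 := by
    have h := Subgroup.card_eq_card_quotient_mul_card_subgroup (commutator R)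
    have h2 : Nat.card (commutator R) = p := by rw [hcomm]; exact hcen
    rw [hcard, h2] at h
    have h3 : Nat.card (Abelianization R) * p = p ^ 2 * p := by
      show Nat.card (R ⧸ commutator R) * p = p ^ 2 * p
      rw [← h]; ring
    exact Nat.eq_of_mul_eq_mul_right hp.pos h3
  have hQexp : ∀ q : Abelianization R, q ^ p = 1 := by
    intro q
    obtain ⟨x, rfl⟩ := QuotientGroup.mk_surjective q
    have h : (Abelianization.of x) ^ p = 1 := by rw [← map_pow, hxp, map_one]
    exact h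
  obtain ⟨c0, hc0b, hc0m⟩ := exists_crd (Abelianization R) p hQexp hQcard
  have c0_one : c0 1 = 0 := by
    have h := hc0m 1 1
    rw [mul_one] at h
    exact left_eq_add.mp h
  let c : R → Fin 2 → ZMod p := fun x => c0 (Abelianization.of x)
  have c_mul : ∀ x y, c (x * y) = c x + c y := fun x y => by
    show c0 (Abelianization.of (x * y)) = _
    rw [map_mul, hc0m]
  have c_one : c 1 = 0 := by
    show c0 (Abelianization.of 1) = 0
    rw [map_one, c0_one]
  have c_inv : ∀ x, c x⁻¹ = - c x := fun x => by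
    have h := c_mul x x⁻¹
    rw [mul_inv_cancel, c_one] at h
    exact (neg_eq_of_add_eq_zero_right h.symm).symm
  have c_pow : ∀ x (n : ℕ), c (x ^ n) = n • c x := by
    intro x n
    induction n with
    | zero => simp [c_one]
    | succ n ih => rw [pow_succ, c_mul, ih, succ_nsmul]
  have c_ker : ∀ x, c x = 0 → x ∈ Subgroup.center R := by
    intro x hx
    have h0 : c0 (Abelianization.of x) = c0 1 := by rw [c0_one]; exact hx
    have h1 := hc0b.1 h0
    rw [← hcomm, ← Abelianization.ker_of]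
    exact h1
  have c_cen : ∀ x ∈ Subgroup.center R, c x = 0 := by
    intro x hx
    rw [← hcomm, ← Abelianization.ker_of] at hx
    show c0 (Abelianization.of x) = 0
    rw [MonoidHom.mem_ker.mp hx, c0_one]
  have c_surj : Function.Surjective c := by
    intro v
    obtain ⟨q, hq⟩ := hc0b.2 v
    obtain ⟨x, rfl⟩ := QuotientGroup.mk_surjective q
    exact ⟨x, hq⟩
  obtain ⟨a, ha⟩ := c_surj ![1, 0]
  obtain ⟨b, hb⟩ := c_surj ![0, 1]
  have nf : ∀ x, ∃ ζ ∈ Subgroup.center R, x = a ^ (c x 0).val * b ^ (c x 1).val * ζ := by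
    intro x
    refine ⟨(a ^ (c x 0).val * b ^ (c x 1).val)⁻¹ * x, c_ker _ ?_, by group⟩
    rw [c_mul, c_inv, c_mul, c_pow, c_pow, ha, hb]
    funext i
    fin_cases i <;> simp
  set z := a * b * a⁻¹ * b⁻¹ with hz
  have hzc : z ∈ Subgroup.center R :=
    c_ker z (by rw [hz, c_mul, c_mul, c_mul, c_inv, c_inv]; abel)
  have hzcomm : ∀ x, x * z = z * x := fun x => (Subgroup.mem_center_iff.mp hzc x)
  have hab : a * b = z * (b * a) := by rw [hz]; group
  have hz1 : z ≠ 1 := by
    intro h1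
    have hab' : a * b = b * a := by rw [hab, h1, one_mul]
    have hac : a ∈ Subgroup.center R := by
      rw [Subgroup.mem_center_iff]
      intro x
      obtain ⟨ζ, hζ, hx⟩ := nf x
      have hζa := Subgroup.mem_center_iff.mp hζ a
      rw [hx]
      have h1 : Commute a (a ^ (c x 0).val) := (Commute.refl a).pow_right _
      have h2 : Commute a (b ^ (c x 1).val) := (show Commute a b from hab').pow_right _
      have h3 : Commute a ζ := hζa
      exact ((h1.mul_right h2).mul_right h3).eq.symm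
    have h := c_cen a hac
    rw [ha] at h
    have h' := congrFun h 0
    simp at h'
  have hzp : z ^ p = 1 := hxp z
  have cen_pow : ∀ ζ ∈ Subgroup.center R, ∃ k : ℕ, ζ = z ^ k := by
    intro ζ hζ
    have h1 : (⟨ζ, hζ⟩ : Subgroup.center R) ∈
        Subgroup.zpowers (⟨z, hzc⟩ : Subgroup.center R) :=
      mem_zpowers_of_prime_card hcen (by intro h; exact hz1 (congrArg Subtype.val h))
    have h2 := (isOfFinOrder_of_finite
      (⟨z, hzc⟩ : Subgroup.center R)).mem_powers_iff_mem_zpowers.mpr h1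
    obtain ⟨k, hk⟩ := (Submonoid.mem_powers_iff _ _).mp h2
    exact ⟨k, by have h := congrArg Subtype.val hk; simpa using h.symm⟩
  refine ⟨c, z, hz1, hzcomm, c_mul, fun x hx => cen_pow x (c_ker x hx), c_cen z hzc, c_surj, ?_⟩
  intro x y
  obtain ⟨ζ, hζ, hx⟩ := nf x
  obtain ⟨ζ', hζ', hy⟩ := nf y
  have hκ : x * y * x⁻¹ * y⁻¹ ∈ Subgroup.center R :=
    c_ker _ (by rw [c_mul, c_mul, c_mul, c_inv, c_inv]; abel)
  obtain ⟨m, hm⟩ := cen_pow _ hκ
  have cm : ∀ ζ ∈ Subgroup.center R, ∀ w, Commute ζ w := fun ζ hζ w =>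
    (Subgroup.mem_center_iff.mp hζ w).symm
  have key : z ^ ((c y 0).val * (c x 1).val) * (x * y) =
      z ^ ((c x 0).val * (c y 1).val) * (y * x) := by
    have h := hc_pair a b z ζ ζ' hab (cm z hzc) (cm ζ hζ) (cm ζ' hζ') (c x 0).val (c x 1).val
      (c y 0).val (c y 1).val
    rw [← hx, ← hy] at h
    exact h
  have hxy : x * y = z ^ m * (y * x) := by rw [← hm]; group
  rw [hxy, ← mul_assoc, ← pow_add] at key
  have h2 := mul_right_cancel key
  have h3 : (((c y 0).val * (c x 1).val + m : ℕ) : ZMod p) =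
      (((c x 0).val * (c y 1).val : ℕ) : ZMod p) :=
    pz_inj hzp hz1 (by rw [pz_natCast hzp, pz_natCast hzp, h2])
  push_cast at h3
  rw [ZMod.natCast_zmod_val, ZMod.natCast_zmod_val, ZMod.natCast_zmod_val,
    ZMod.natCast_zmod_val] at h3
  have h4 : (m : ZMod p) = c x 0 * c y 1 - c x 1 * c y 0 := by linear_combination h3
  rw [hm, ← pz_natCast hzp m, h4]

end Cfsg.Agent.Helper41.RV
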