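import Cfsg.Agent.Helper41.DkMain
import Cfsg.Agent.Helper41.DkSol3g
import Cfsg.Agent.Helper41.DkMax

set_option autoImplicit false

/-!
# Ruiz–Viruel bounds, part 1: linear algebra of `2 × 2` matrices (helper41)
-/

namespace Cfsg.Agent.Helper41.RV

open Cfsg.Agent.Helper41 Cfsg.Agent.Helper41.Dk Matrix

section lin

variable {K : Type*} [Field K]

theorem cross_mulVec (N : Matrix (Fin 2) (Fin 2) K) (u w : Fin 2 → K) :
    (N *ᵥ u) 0 * (N *ᵥ w) 1 - (N *ᵥ u) 1 * (N *ᵥ w) 0 = N.det * (u 0 * w 1 - u 1 * w 0) := by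
  simp only [Matrix.mulVec, dotProduct, Fin.sum_univ_two, Matrix.det_fin_two]
  ring

/-- a `2 × 2` matrix with two independent eigenvectors for one eigenvalue is scalar. -/
theorem scalar_of_two (N : Matrix (Fin 2) (Fin 2) K) (u w : Fin 2 → K) (lam : K)
    (hu : N *ᵥ u = lam • u) (hw : N *ᵥ w = lam • w) (h : u 0 * w 1 - u 1 * w 0 ≠ 0) :
    N = lam • (1 : Matrix (Fin 2) (Fin 2) K) := by
  have u0 := congrFun hu 0
  have u1 := congrFun hu 1
  have w0 := congrFun hw 0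
  have w1 := congrFun hw 1
  simp only [Matrix.mulVec, dotProduct, Fin.sum_univ_two, Pi.smul_apply, smul_eq_mul]
    at u0 u1 w0 w1
  have e00 : (N 0 0 - lam) * (u 0 * w 1 - u 1 * w 0) = 0 := by
    linear_combination w 1 * u0 - u 1 * w0
  have e01 : N 0 1 * (u 0 * w 1 - u 1 * w 0) = 0 := by
    linear_combination u 0 * w0 - w 0 * u0
  have e10 : N 1 0 * (u 0 * w 1 - u 1 * w 0) = 0 := by
    linear_combination w 1 * u1 - u 1 * w1
  have e11 : (N 1 1 - lam) * (u 0 * w 1 - u 1 * w 0) = 0 := by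
    linear_combination u 0 * w1 - w 0 * u1
  have f00 : N 0 0 = lam := sub_eq_zero.mp ((mul_eq_zero.mp e00).resolve_right h)
  have f01 : N 0 1 = 0 := (mul_eq_zero.mp e01).resolve_right h
  have f10 : N 1 0 = 0 := (mul_eq_zero.mp e10).resolve_right h
  have f11 : N 1 1 = lam := sub_eq_zero.mp ((mul_eq_zero.mp e11).resolve_right h)
  ext i j
  fin_cases i <;> fin_cases j
  · simpa using f00
  · simpa using f01
  · simpa using f10
  · simpa using f11

theorem pow_mulVec_eig (N : Matrix (Fin 2) (Fin 2) K) (v : Fin 2 → K) (x : K)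
    (h : N *ᵥ v = x • v) (k : ℕ) : (N ^ k) *ᵥ v = x ^ k • v := by
  induction k with
  | zero => simp
  | succ k ih =>
    rw [pow_succ, ← Matrix.mulVec_mulVec, h, Matrix.mulVec_smul, ih, smul_smul, pow_succ,
      mul_comm]

/-- if `N` and `N'` commute, have eigenvalue `x` on independent `v`, `v'` and determinant
`x * y` with `x ≠ y`, then `N'` has eigenvalue `y` on `v`. -/
theorem eig_other (N N' : Matrix (Fin 2) (Fin 2) K) (v v' : Fin 2 → K) (x y : K)
    (hxy : x ≠ y) (hx : x ≠ 0)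
    (hN : N *ᵥ v = x • v) (hN' : N' *ᵥ v' = x • v')
    (dN : N.det = x * y) (dN' : N'.det = x * y) (hc : N * N' = N' * N)
    (hi : v 0 * v' 1 - v 1 * v' 0 ≠ 0) : N' *ᵥ v = y • v := by
  set w := N' *ᵥ v with hw
  have hNw : N *ᵥ w = x • w := by
    rw [hw, Matrix.mulVec_mulVec, hc, ← Matrix.mulVec_mulVec, hN, Matrix.mulVec_smul]
  have c1 : v 0 * w 1 - v 1 * w 0 = 0 := by
    by_contra hne
    have hs := scalar_of_two N v w x hN hNw hne
    rw [hs, Matrix.det_smul, Matrix.det_one, Fintype.card_fin, mul_one] at dN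
    apply hxy
    have : x * (x - y) = 0 := by linear_combination dN
    exact sub_eq_zero.mp ((mul_eq_zero.mp this).resolve_left hx)
  have c2 := cross_mulVec N' v' v
  rw [hN', dN', ← hw] at c2
  simp only [Pi.smul_apply, smul_eq_mul] at c2
  -- c2 : x * v' 0 * w 1 - x * v' 1 * w 0 = x * y * (v' 0 * v 1 - v' 1 * v 0)
  have c3 : v' 0 * w 1 - v' 1 * w 0 = y * (v' 0 * v 1 - v' 1 * v 0) := by
    apply mul_left_cancel₀ hx
    linear_combination c2
  have e0 : (w 0 - y * v 0) * (v 0 * v' 1 - v 1 * v' 0) = 0 := by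
    linear_combination v' 0 * c1 - v 0 * c3
  have e1 : (w 1 - y * v 1) * (v 0 * v' 1 - v 1 * v' 0) = 0 := by
    linear_combination v' 1 * c1 - v 1 * c3
  funext i
  fin_cases i
  · simpa using sub_eq_zero.mp ((mul_eq_zero.mp e0).resolve_right hi)
  · simpa using sub_eq_zero.mp ((mul_eq_zero.mp e1).resolve_right hi)

/-- three pairwise commuting matrices with eigenvalue `x` on pairwise independent vectors and
determinant `x * y`, `x ≠ y`: impossible. -/
theorem three_commuting (N1 N2 N3 : Matrix (Fin 2) (Fin 2) K) (v1 v2 v3 : Fin 2 → K) (x y : K)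
    (hxy : x ≠ y) (hx : x ≠ 0)
    (h1 : N1 *ᵥ v1 = x • v1) (h2 : N2 *ᵥ v2 = x • v2) (h3 : N3 *ᵥ v3 = x • v3)
    (d1 : N1.det = x * y) (d2 : N2.det = x * y) (d3 : N3.det = x * y)
    (c12 : N1 * N2 = N2 * N1) (c13 : N1 * N3 = N3 * N1) (c23 : N2 * N3 = N3 * N2)
    (i12 : v1 0 * v2 1 - v1 1 * v2 0 ≠ 0) (i13 : v1 0 * v3 1 - v1 1 * v3 0 ≠ 0)
    (i23 : v2 0 * v3 1 - v2 1 * v3 0 ≠ 0) : False := by
  have e31 : N3 *ᵥ v1 = y • v1 := eig_other N1 N3 v1 v3 x y hxy hx h1 h3 d1 d3 c13 i13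
  have e32 : N3 *ᵥ v2 = y • v2 := eig_other N2 N3 v2 v3 x y hxy hx h2 h3 d2 d3 c23 i23
  have hs := scalar_of_two N3 v1 v2 y e31 e32 i12
  rw [hs, Matrix.smul_mulVec, Matrix.one_mulVec] at h3
  have a0 := congrFun h3 0
  have a1 := congrFun h3 1
  simp only [Pi.smul_apply, smul_eq_mul] at a0 a1
  have hyx : y - x ≠ 0 := sub_ne_zero.mpr (Ne.symm hxy)
  have b0 : v3 0 = 0 := by
    have : (y - x) * v3 0 = 0 := by linear_combination a0
    exact (mul_eq_zero.mp this).resolve_left hyx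
  have b1 : v3 1 = 0 := by
    have : (y - x) * v3 1 = 0 := by linear_combination a1
    exact (mul_eq_zero.mp this).resolve_left hyx
  apply i13
  rw [b0, b1]; ring

/-- a power of a matrix with eigenvalue `r⁻¹` and determinant `r` is scalar only if
`r ^ (3k) = 1`. -/
theorem r_pow_of_scalar (N : Matrix (Fin 2) (Fin 2) K) (v : Fin 2 → K) (r c : K) (k : ℕ)
    (hr : r ≠ 0) (hv : v ≠ 0) (h : N *ᵥ v = r⁻¹ • v) (hd : N.det = r)
    (hc : N ^ k = c • (1 : Matrix (Fin 2) (Fin 2) K)) : r ^ (3 * k) = 1 := by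
  have e := pow_mulVec_eig N v r⁻¹ h k
  rw [hc, Matrix.smul_mulVec, Matrix.one_mulVec] at e
  obtain ⟨i, hi⟩ := Function.ne_iff.mp hv
  have ei := congrFun e i
  simp only [Pi.smul_apply, smul_eq_mul] at ei
  have hc' : c = r⁻¹ ^ k := mul_right_cancel₀ hi ei
  have hdk : (N ^ k).det = r ^ k := by rw [Matrix.det_pow, hd]
  rw [hc, Matrix.det_smul, Matrix.det_one, Fintype.card_fin, mul_one, hc'] at hdk
  have h2 : (r⁻¹ ^ k) ^ 2 = r ^ k := hdk
  calc r ^ (3 * k) = r ^ k * (r ^ k) ^ 2 := by ring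
    _ = (r⁻¹ ^ k) ^ 2 * (r ^ k) ^ 2 := by rw [h2]
    _ = 1 := by rw [← mul_pow, ← mul_pow, inv_mul_cancel₀ hr, one_pow, one_pow]

end lin

end Cfsg.Agent.Helper41.RV
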