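import Cfsg.Agent.Helper41.RVLin

set_option autoImplicit false

/-!
# Ruiz–Viruel bounds, part 2: the matrix lemma (helper41)

`rv_matrix`: a monoid `S` of `2 × 2` matrices over `ZMod p` all of whose members have order prime
to `p` cannot contain matrices `M i` with determinant `r` and eigenvalue `r⁻¹` on pairwise
independent vectors `v i`, when `r` has large order and there are at least three (or nine) `i`.
Proof: lift to `SL₂(F_{p²})` and apply Dickson's theorem.
-/

namespace Cfsg.Agent.Helper41.RV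

open Cfsg.Agent.Helper41 Cfsg.Agent.Helper41.Dk Matrix

set_option maxRecDepth 1000000 in
theorem s4_pow : ∀ σ : Equiv.Perm (Fin 4), σ ^ 4 = 1 ∨ σ ^ 3 = 1 := by decide

set_option maxRecDepth 1000000 in
theorem s4_cls : ∀ σ τ : Equiv.Perm (Fin 4), σ ^ 2 ≠ 1 → σ ^ 3 ≠ 1 → τ ^ 2 ≠ 1 → τ ^ 3 ≠ 1 →
    σ (σ 0) = τ (τ 0) → τ = σ ∨ τ = σ⁻¹ := by decide

set_option maxRecDepth 1000000 in
theorem a4_pow : ∀ σ : alternatingGroup (Fin 4), σ ^ 2 = 1 ∨ σ ^ 3 = 1 := by decide

set_option maxRecDepth 1000000 in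
theorem a5_pow : ∀ σ : alternatingGroup (Fin 5), σ ^ 2 = 1 ∨ σ ^ 3 = 1 ∨ σ ^ 5 = 1 := by decide

section link

variable {p : ℕ} [Fact p.Prime] {F : Type*} [Field F] [Algebra (ZMod p) F]

local notation "SL2" => Matrix.SpecialLinearGroup (Fin 2) F

/-- `g ∈ SL₂(F)` is a nonzero scalar multiple of the image of `M`. -/
def Link (g : Matrix.SpecialLinearGroup (Fin 2) F) (M : Matrix (Fin 2) (Fin 2) (ZMod p)) : Prop :=
  ∃ s : F, s ≠ 0 ∧ s • g.1 = (algebraMap (ZMod p) F).mapMatrix M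

theorem link_one : Link (1 : SL2) (1 : Matrix (Fin 2) (Fin 2) (ZMod p)) :=
  ⟨1, one_ne_zero, by rw [one_smul, map_one]; rfl⟩

theorem link_mul {g g' : Matrix.SpecialLinearGroup (Fin 2) F}
    {M M' : Matrix (Fin 2) (Fin 2) (ZMod p)} (h : Link g M) (h' : Link g' M') :
    Link (g * g') (M * M') := by
  obtain ⟨s, hs, e⟩ := h
  obtain ⟨s', hs', e'⟩ := h'
  refine ⟨s * s', mul_ne_zero hs hs', ?_⟩
  rw [map_mul, ← e, ← e', Matrix.SpecialLinearGroup.coe_mul, Matrix.smul_mul, Matrix.mul_smul,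
    smul_smul]

theorem link_pow {g : Matrix.SpecialLinearGroup (Fin 2) F}
    {M : Matrix (Fin 2) (Fin 2) (ZMod p)} (h : Link g M) (k : ℕ) : Link (g ^ k) (M ^ k) := by
  induction k with
  | zero => simpa using (link_one (p := p) (F := F))
  | succ k ih => rw [pow_succ, pow_succ]; exact link_mul ih h

theorem map_inj : Function.Injective
    ((algebraMap (ZMod p) F).mapMatrix : Matrix (Fin 2) (Fin 2) (ZMod p) → Matrix (Fin 2) (Fin 2) F) := by
  intro A B h
  exact Matrix.map_injective (algebraMap (ZMod p) F).injective h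

theorem link_comm {g g' : Matrix.SpecialLinearGroup (Fin 2) F}
    {M M' : Matrix (Fin 2) (Fin 2) (ZMod p)} (h : Link g M) (h' : Link g' M')
    (hc : g * g' = g' * g) : M * M' = M' * M := by
  obtain ⟨s, hs, e⟩ := h
  obtain ⟨s', hs', e'⟩ := h'
  apply map_inj (F := F)
  have hc' : g.1 * g'.1 = g'.1 * g.1 := by
    rw [← Matrix.SpecialLinearGroup.coe_mul, hc, Matrix.SpecialLinearGroup.coe_mul]
  rw [map_mul, map_mul, ← e, ← e', Matrix.smul_mul, Matrix.mul_smul, Matrix.smul_mul,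
    Matrix.mul_smul, smul_smul, smul_smul, hc', mul_comm s s']

theorem link_center {g : Matrix.SpecialLinearGroup (Fin 2) F}
    {M : Matrix (Fin 2) (Fin 2) (ZMod p)} (h : Link g M) (hg : g ∈ Subgroup.center SL2) :
    ∃ c : ZMod p, M = c • (1 : Matrix (Fin 2) (Fin 2) (ZMod p)) := by
  obtain ⟨s, hs, e⟩ := h
  obtain ⟨h10, h01, h00⟩ := (center_iff_entries g).mp hg
  have en : ∀ i j, s * g.1 i j = algebraMap (ZMod p) F (M i j) := fun i j => by
    have := congrFun (congrFun e i) j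
    simpa [RingHom.mapMatrix_apply, Matrix.smul_apply] using this
  have inj := (algebraMap (ZMod p) F).injective
  have m10 : M 1 0 = 0 := inj (by rw [← en, h10, mul_zero, map_zero])
  have m01 : M 0 1 = 0 := inj (by rw [← en, h01, mul_zero, map_zero])
  have m00 : M 0 0 = M 1 1 := inj (by rw [← en, ← en, h00])
  refine ⟨M 0 0, ?_⟩
  ext i j
  fin_cases i <;> fin_cases j
  · simp
  · simpa using m01
  · simpa using m10
  · simpa using m00.symm

theorem link_one_center {g : Matrix.SpecialLinearGroup (Fin 2) F}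
    (h : Link g (1 : Matrix (Fin 2) (Fin 2) (ZMod p))) : g ∈ Subgroup.center SL2 := by
  obtain ⟨s, hs, e⟩ := h
  rw [map_one] at e
  have en : ∀ i j, s * g.1 i j = (1 : Matrix (Fin 2) (Fin 2) F) i j := fun i j => by
    have := congrFun (congrFun e i) j
    simpa [Matrix.smul_apply] using this
  rw [center_iff_entries]
  refine ⟨?_, ?_, ?_⟩
  · have := en 1 0
    simp at this
    exact this.resolve_left hs
  · have := en 0 1
    simp at this
    exact this.resolve_left hs
  · have a := en 0 0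
    have b := en 1 1
    simp at a b
    exact mul_left_cancel₀ hs (a.trans b.symm)

/-- the monoid of lifts to `SL₂(F)`. -/
def HhatM (F : Type*) [Field F] [Algebra (ZMod p) F]
    (S : Submonoid (Matrix (Fin 2) (Fin 2) (ZMod p))) :
    Submonoid (Matrix.SpecialLinearGroup (Fin 2) F) where
  carrier := {g | ∃ M ∈ S, Link g M}
  mul_mem' := by
    rintro a b ⟨M, hM, h⟩ ⟨M', hM', h'⟩
    exact ⟨M * M', S.mul_mem hM hM', link_mul h h'⟩
  one_mem' := ⟨1, S.one_mem, link_one⟩

/-- the group of lifts to `SL₂(F)`. -/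
def Hhat (F : Type*) [Field F] [Algebra (ZMod p) F] [Fintype F]
    (S : Submonoid (Matrix (Fin 2) (Fin 2) (ZMod p))) :
    Subgroup (Matrix.SpecialLinearGroup (Fin 2) F) where
  toSubmonoid := HhatM F S
  inv_mem' := by
    intro g hg
    have hfin : IsOfFinOrder g := isOfFinOrder_of_finite g
    have h1 : g⁻¹ ∈ Submonoid.powers g :=
      hfin.mem_powers_iff_mem_zpowers.mpr (Subgroup.inv_mem _ (Subgroup.mem_zpowers g))
    exact (Submonoid.powers_le.mpr hg) h1

end link


theorem rv_matrix_F {p : ℕ} [Fact p.Prime] (hp2 : p ≠ 2)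
    (F : Type*) [Field F] [Fintype F] [Algebra (ZMod p) F] [CharP F p]
    (S : Submonoid (Matrix (Fin 2) (Fin 2) (ZMod p)))
    (hS : ∀ M ∈ S, ∃ n : ℕ, ¬ p ∣ n ∧ M ^ n = 1)
    (r : ZMod p) (hr0 : r ≠ 0) (hsq : ∃ s : F, s ^ 2 = algebraMap (ZMod p) F r)
    (hr3 : r ^ 3 ≠ 1) (hr6 : r ^ 6 ≠ 1) (hr9 : r ^ 9 ≠ 1) (hr15 : r ^ 15 ≠ 1)
    {I : Type} [Fintype I]
    (M : I → Matrix (Fin 2) (Fin 2) (ZMod p)) (v : I → Fin 2 → ZMod p)
    (hM : ∀ i, M i ∈ S) (hv : ∀ i, M i *ᵥ v i = r⁻¹ • v i) (hd : ∀ i, (M i).det = r)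
    (hind : ∀ i j, i ≠ j → v i 0 * v j 1 - v i 1 * v j 0 ≠ 0)
    (hI : (r ^ 12 ≠ 1 ∧ 3 ≤ Fintype.card I) ∨ 9 ≤ Fintype.card I) : False := by
  classical
  obtain ⟨s, hs⟩ := hsq
  have hs0 : s ≠ 0 := by
    rintro rfl
    rw [zero_pow two_ne_zero] at hs
    exact hr0 ((algebraMap (ZMod p) F).injective (by rw [← hs, map_zero]))
  have hdet : ∀ i, (s⁻¹ • (algebraMap (ZMod p) F).mapMatrix (M i)).det = 1 := by
    intro i
    rw [Matrix.det_smul, Fintype.card_fin, ← RingHom.map_det, hd, ← hs]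
    field_simp
  let g : I → Matrix.SpecialLinearGroup (Fin 2) F := fun i => ⟨_, hdet i⟩
  have hg : ∀ i, Link (g i) (M i) := fun i => ⟨s, hs0, by
    show s • (s⁻¹ • (algebraMap (ZMod p) F).mapMatrix (M i)) = _
    rw [smul_smul, mul_inv_cancel₀ hs0, one_smul]⟩
  set Hh := Hhat F S with hHh
  have hgH : ∀ i, g i ∈ Hh := fun i => ⟨M i, hM i, hg i⟩
  have hcen : Subgroup.center (Matrix.SpecialLinearGroup (Fin 2) F) ≤ Hh := by
    intro z hz
    rcases (mem_center_iff_pm z).mp hz with h | h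
    · exact ⟨1, S.one_mem, 1, one_ne_zero, by rw [one_smul, map_one]; exact h⟩
    · refine ⟨1, S.one_mem, -1, neg_ne_zero.mpr one_ne_zero, ?_⟩
      rw [map_one]
      show (-1 : F) • z.1 = 1
      rw [h]; simp
  have h2F : (2 : F) ≠ 0 := by
    intro h
    have h' : ((2 : ℕ) : F) = 0 := by exact_mod_cast h
    rw [CharP.cast_eq_zero_iff F p] at h'
    exact hp2 ((Nat.prime_dvd_prime_iff_eq Fact.out Nat.prime_two).mp h')
  -- elements of trace 2 are trivial
  have ha : ∀ k : Matrix.SpecialLinearGroup (Fin 2) F, k ∈ Hh → tr k = 2 → k = 1 := by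
    intro k hk ht
    have hkc : k ∈ Subgroup.center (Matrix.SpecialLinearGroup (Fin 2) F) := by
      by_contra hkZ
      obtain ⟨Q, β, hβ, hQ⟩ := exists_conj_Ux k ht hkZ
      obtain ⟨M0, hM0, hl⟩ := hk
      obtain ⟨n, hn, hMn⟩ := hS M0 hM0
      have hl' := link_pow hl n
      rw [hMn] at hl'
      have hc := link_one_center hl'
      have hkn : k ^ n = Q * Ux ((n : F) * β) * Q⁻¹ := by
        rw [← hQ, conj_pow, Ux_pow]
      rw [hkn, conj_center_iff] at hc
      have h0 : (n : F) * β = 0 := by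
        by_contra h
        exact Ux_not_center _ h hc
      rcases mul_eq_zero.mp h0 with h | h
      · exact hn ((CharP.cast_eq_zero_iff F p n).mp h)
      · exact hβ h
    rcases (mem_center_iff_pm k).mp hkc with h | h
    · exact Subtype.ext h
    · exfalso
      have ht' : k.1 0 0 + k.1 1 1 = 2 := by rw [← tr_eq]; exact ht
      rw [h] at ht'
      simp at ht'
      apply h2F
      have : (2 : F) * 2 = 0 := by linear_combination -ht'
      exact (mul_eq_zero.mp this).elim id id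
  have h3c : 2 < Fintype.card I := by
    rcases hI with ⟨_, h⟩ | h <;> omega
  obtain ⟨i0, i1, i2, h01, h02, h12⟩ := Fintype.two_lt_card_iff.mp h3c
  have hvne : ∀ i, v i ≠ 0 := by
    intro i hi
    by_cases h : i = i0
    · have := hind i i1 (h ▸ h01)
      rw [hi] at this
      simp at this
    · have := hind i i0 h
      rw [hi] at this
      simp at this
  have fin : ∀ (e : ℕ) (i j k : I), i ≠ j → i ≠ k → j ≠ k → r ^ (3 * e) ≠ 1 →
      M i ^ e * M j ^ e = M j ^ e * M i ^ e → M i ^ e * M k ^ e = M k ^ e * M i ^ e →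
      M j ^ e * M k ^ e = M k ^ e * M j ^ e → False := by
    intro e i j k hij hik hjk hre c1 c2 c3
    have hdd : ∀ a, (M a ^ e).det = r⁻¹ ^ e * r ^ (2 * e) := by
      intro a
      rw [Matrix.det_pow, hd]
      have : r ^ (2 * e) = r ^ e * r ^ e := by ring
      rw [this, ← mul_assoc, ← mul_pow, inv_mul_cancel₀ hr0, one_pow, one_mul]
    refine three_commuting (M i ^ e) (M j ^ e) (M k ^ e) (v i) (v j) (v k) (r⁻¹ ^ e)
      (r ^ (2 * e)) ?_ (pow_ne_zero _ (inv_ne_zero hr0)) (pow_mulVec_eig _ _ _ (hv i) e)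
      (pow_mulVec_eig _ _ _ (hv j) e) (pow_mulVec_eig _ _ _ (hv k) e) (hdd i) (hdd j) (hdd k)
      c1 c2 c3 (hind i j hij) (hind i k hik) (hind j k hjk)
    intro h
    apply hre
    have : r ^ (3 * e) = r ^ e * r ^ (2 * e) := by ring
    rw [this, ← h, ← mul_pow, mul_inv_cancel₀ hr0, one_pow]
  have hpow : ∀ i k, (g i) ^ k ∈ Subgroup.center (Matrix.SpecialLinearGroup (Fin 2) F) →
      r ^ (3 * k) = 1 := by
    intro i k hc
    obtain ⟨c, hc'⟩ := link_center (link_pow (hg i) k) hc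
    exact r_pow_of_scalar (M i) (v i) r c k hr0 (hvne i) (hv i) (hd i) hc'
  have qp : ∀ (Q : Type) [Group Q]
      (e : ↥Hh ⧸ (Subgroup.center (Matrix.SpecialLinearGroup (Fin 2) F)).subgroupOf Hh ≃* Q)
      (i : I) (k : ℕ), (e (QuotientGroup.mk ⟨g i, hgH i⟩)) ^ k = 1 → r ^ (3 * k) = 1 := by
    intro Q _ e i k h
    apply hpow i k
    have h1 : e ((QuotientGroup.mk ⟨g i, hgH i⟩ :
        ↥Hh ⧸ (Subgroup.center (Matrix.SpecialLinearGroup (Fin 2) F)).subgroupOf Hh) ^ k) = 1 := by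
      rw [map_pow]; exact h
    have h2 := (MulEquiv.map_eq_one_iff e).mp h1
    rw [← QuotientGroup.mk_pow, QuotientGroup.eq_one_iff] at h2
    exact Subgroup.mem_subgroupOf.mp h2
  rcases dickson_subgroup p Hh hcen with h1 | h2 | h3 | h4 | h5 | h6
  · -- a common eigenvector
    obtain ⟨w, hw, hev⟩ := h1
    have comm : ∀ a b : Matrix.SpecialLinearGroup (Fin 2) F, a ∈ Hh → b ∈ Hh →
        a * b = b * a := by
      intro a b ha' hb'
      obtain ⟨ca, hca⟩ := hev ⟨a, ha'⟩
      obtain ⟨cb, hcb⟩ := hev ⟨b, hb'⟩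
      obtain ⟨da, hda⟩ := hev ⟨a⁻¹, Hh.inv_mem ha'⟩
      obtain ⟨db, hdb⟩ := hev ⟨b⁻¹, Hh.inv_mem hb'⟩
      change a.1 *ᵥ w = ca • w at hca
      change b.1 *ᵥ w = cb • w at hcb
      change (a⁻¹).1 *ᵥ w = da • w at hda
      change (b⁻¹).1 *ᵥ w = db • w at hdb
      obtain ⟨i, hi⟩ := Function.ne_iff.mp hw
      have hcda : ca * da = 1 := by
        have h : (a * a⁻¹).1 *ᵥ w = (ca * da) • w := by
          rw [Matrix.SpecialLinearGroup.coe_mul, ← Matrix.mulVec_mulVec, hda,
            Matrix.mulVec_smul, hca, smul_smul, mul_comm]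
        rw [mul_inv_cancel, Matrix.SpecialLinearGroup.coe_one, Matrix.one_mulVec] at h
        have e := congrFun h i
        simp only [Pi.smul_apply, smul_eq_mul] at e
        have : (ca * da - 1) * w i = 0 := by linear_combination -e
        exact sub_eq_zero.mp ((mul_eq_zero.mp this).resolve_right hi)
      have hcdb : cb * db = 1 := by
        have h : (b * b⁻¹).1 *ᵥ w = (cb * db) • w := by
          rw [Matrix.SpecialLinearGroup.coe_mul, ← Matrix.mulVec_mulVec, hdb,
            Matrix.mulVec_smul, hcb, smul_smul, mul_comm]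
        rw [mul_inv_cancel, Matrix.SpecialLinearGroup.coe_one, Matrix.one_mulVec] at h
        have e := congrFun h i
        simp only [Pi.smul_apply, smul_eq_mul] at e
        have : (cb * db - 1) * w i = 0 := by linear_combination -e
        exact sub_eq_zero.mp ((mul_eq_zero.mp this).resolve_right hi)
      have hk : (a * b * a⁻¹ * b⁻¹).1 *ᵥ w = w := by
        rw [Matrix.SpecialLinearGroup.coe_mul, Matrix.SpecialLinearGroup.coe_mul,
          Matrix.SpecialLinearGroup.coe_mul, ← Matrix.mulVec_mulVec, hdb, Matrix.mulVec_smul,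
          ← Matrix.mulVec_mulVec, hda, Matrix.mulVec_smul, ← Matrix.mulVec_mulVec, hcb,
          Matrix.mulVec_smul, hca, smul_smul, smul_smul, smul_smul]
        have : db * da * cb * ca = 1 := by linear_combination (cb * db) * hcda + hcdb
        rw [this, one_smul]
      have htr := tr_eq_two_of_fix _ w hw hk
      have h1 := ha _ (Hh.mul_mem (Hh.mul_mem (Hh.mul_mem ha' hb') (Hh.inv_mem ha'))
        (Hh.inv_mem hb')) htr
      have h2 := mul_inv_eq_one.mp h1
      exact mul_inv_eq_iff_eq_mul.mp h2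
    have cm : ∀ i j, M i ^ 1 * M j ^ 1 = M j ^ 1 * M i ^ 1 := by
      intro i j
      rw [pow_one, pow_one]
      exact link_comm (hg i) (hg j) (comm _ _ (hgH i) (hgH j))
    exact fin 1 i0 i1 i2 h01 h02 h12 (by simpa using hr3) (cm _ _) (cm _ _) (cm _ _)
  · -- the normalizer of a torus
    obtain ⟨x, hxZ, -, hx⟩ := h2
    have hxc : x.1 ∉ Subgroup.center (Matrix.SpecialLinearGroup (Fin 2) F) :=
      fun h => hxZ (Subgroup.mem_subgroupOf.mpr h)
    have sq : ∀ a : Matrix.SpecialLinearGroup (Fin 2) F, a ∈ Hh → a * a ∈ cen x.1 := by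
      intro a ha'
      rw [Dk.mem_cen]
      rcases hx ⟨a, ha'⟩ with h | h
      · have h' : a * x.1 * a⁻¹ = x.1 := congrArg Subtype.val h
        have h'' : a * x.1 = x.1 * a := mul_inv_eq_iff_eq_mul.mp h'
        show a * a * x.1 = x.1 * (a * a)
        rw [mul_assoc, h'', ← mul_assoc, h'', mul_assoc]
      · have h' : a * x.1 * a⁻¹ = x.1⁻¹ := congrArg Subtype.val h
        show a * a * x.1 = x.1 * (a * a)
        have h1 : a * x.1 = x.1⁻¹ * a := mul_inv_eq_iff_eq_mul.mp h'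
        have h2 : a * x.1⁻¹ = x.1 * a := by
          have h3 : a * x.1⁻¹ * a⁻¹ = x.1 := by
            have h4 := congrArg (fun t => t⁻¹) h'
            simp only [_root_.mul_inv_rev, inv_inv] at h4
            rw [← mul_assoc] at h4
            exact h4
          exact mul_inv_eq_iff_eq_mul.mp h3
        rw [mul_assoc, h1, ← mul_assoc, h2, mul_assoc]
    have comm2 : ∀ i j, M i ^ 2 * M j ^ 2 = M j ^ 2 * M i ^ 2 := by
      intro i j
      have hc : Commute (g i * g i) (g j * g j) :=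
        sl2_CA.cen_comm hxc (sq _ (hgH i)) (sq _ (hgH j))
      have := link_comm (link_mul (hg i) (hg i)) (link_mul (hg j) (hg j)) hc.eq
      rwa [← pow_two, ← pow_two] at this
    exact fin 2 i0 i1 i2 h01 h02 h12 (by simpa using hr6) (comm2 _ _) (comm2 _ _) (comm2 _ _)
  · -- A4
    obtain ⟨-, ⟨e⟩⟩ := h3
    rcases a4_pow (e (QuotientGroup.mk ⟨g i0, hgH i0⟩)) with h | h
    · exact hr6 (qp _ e i0 2 h)
    · exact hr9 (qp _ e i0 3 h)
  · -- S4
    obtain ⟨-, ⟨e⟩⟩ := h4
    have hσ2 : ∀ i, (e (QuotientGroup.mk ⟨g i, hgH i⟩)) ^ 2 ≠ 1 := fun i h => hr6 (qp _ e i 2 h)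
    have hσ3 : ∀ i, (e (QuotientGroup.mk ⟨g i, hgH i⟩)) ^ 3 ≠ 1 := fun i h => hr9 (qp _ e i 3 h)
    rcases hI with ⟨h12', -⟩ | h9
    · rcases s4_pow (e (QuotientGroup.mk ⟨g i0, hgH i0⟩)) with h | h
      · exact h12' (qp _ e i0 4 h)
      · exact hσ3 i0 h
    · obtain ⟨y, hy⟩ := Fintype.exists_lt_card_fiber_of_mul_lt_card
        (fun i => (e (QuotientGroup.mk ⟨g i, hgH i⟩)) ((e (QuotientGroup.mk ⟨g i, hgH i⟩)) 0))
        (n := 2) (by simp; omega)
      obtain ⟨i, hi, j, hj, k, hk, hij, hik, hjk⟩ := Finset.two_lt_card.mp hy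
      simp only [Finset.mem_filter, Finset.mem_univ, true_and] at hi hj hk
      have cm : ∀ a b : I,
          (e (QuotientGroup.mk ⟨g a, hgH a⟩)) ((e (QuotientGroup.mk ⟨g a, hgH a⟩)) 0) =
          (e (QuotientGroup.mk ⟨g b, hgH b⟩)) ((e (QuotientGroup.mk ⟨g b, hgH b⟩)) 0) →
          M a ^ 1 * M b ^ 1 = M b ^ 1 * M a ^ 1 := by
        intro a b hab
        have h := s4_cls _ _ (hσ2 a) (hσ3 a) (hσ2 b) (hσ3 b) hab
        rw [pow_one, pow_one]
        apply link_comm (hg a) (hg b)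
        have h5 : g a = (g b)⁻¹ * g a * g b := by
          rcases h with h | h
          · have h1 := e.injective h
            have h2 := QuotientGroup.eq.mp h1
            have h3 : (g b)⁻¹ * g a ∈ Subgroup.center (Matrix.SpecialLinearGroup (Fin 2) F) :=
              Subgroup.mem_subgroupOf.mp h2
            have h4 := Subgroup.mem_center_iff.mp h3 (g b)
            rw [mul_inv_cancel_left] at h4
            exact h4
          · have h1 : (QuotientGroup.mk ⟨g b, hgH b⟩ :
                ↥Hh ⧸ (Subgroup.center (Matrix.SpecialLinearGroup (Fin 2) F)).subgroupOf Hh) =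
                (QuotientGroup.mk ⟨g a, hgH a⟩)⁻¹ :=
              e.injective (by rw [map_inv]; exact h)
            rw [← QuotientGroup.mk_inv] at h1
            have h2 := QuotientGroup.eq.mp h1
            have h3 : (g b)⁻¹ * (g a)⁻¹ ∈
                Subgroup.center (Matrix.SpecialLinearGroup (Fin 2) F) :=
              Subgroup.mem_subgroupOf.mp h2
            have h4 := Subgroup.mem_center_iff.mp h3 (g b)
            rw [mul_inv_cancel_left] at h4
            have h6 := congrArg (fun t => t⁻¹) h4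
            simp only [_root_.mul_inv_rev, inv_inv] at h6
            rw [mul_assoc]
            exact h6
        calc g a * g b = g b * ((g b)⁻¹ * g a * g b) := by group
          _ = g b * g a := by rw [← h5]
      exact fin 1 i j k hij hik hjk (by simpa using hr3) (cm i j (hi.trans hj.symm))
        (cm i k (hi.trans hk.symm)) (cm j k (hj.trans hk.symm))
  · -- A5
    obtain ⟨-, ⟨e⟩⟩ := h5
    rcases a5_pow (e (QuotientGroup.mk ⟨g i0, hgH i0⟩)) with h | h | h
    · exact hr6 (qp _ e i0 2 h)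
    · exact hr9 (qp _ e i0 3 h)
    · exact hr15 (qp _ e i0 5 h)
  · -- a subfield group: contains a transvection
    obtain ⟨Q, hQ, K0, h6'⟩ := h6
    have hm : MemK K0 (Ux (1 : F)).1 := by
      rw [memK_iff, Ux_e00, Ux_e01, Ux_e10, Ux_e11]
      exact ⟨one_mem _, one_mem _, zero_mem _, one_mem _⟩
    have hmem : Ux (1 : F) ∈ ((conjGL Q hQ).comp Hh.subtype).range := by
      rcases h6' with h | ⟨lam, -, -, h⟩
      · exact (h _).mpr hm
      · exact (h _).mpr (Or.inl hm)
    obtain ⟨k, hk⟩ := hmem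
    have hk' : conjGL Q hQ k.1 = Ux 1 := hk
    have ht : tr k.1 = 2 := by
      have h := tr_conjGL Q hQ k.1
      rw [hk'] at h
      rw [← h, tr_eq, Ux_e00, Ux_e11]; norm_num
    have h1 := ha k.1 k.2 ht
    rw [h1, map_one] at hk'
    have h7 := congrArg (fun t : Matrix.SpecialLinearGroup (Fin 2) F => t.1 0 1) hk'
    simp [Ux_e01] at h7

/-- **The matrix lemma.** -/
theorem rv_matrix {p : ℕ} [Fact p.Prime] (hp2 : p ≠ 2)
    (S : Submonoid (Matrix (Fin 2) (Fin 2) (ZMod p)))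
    (hS : ∀ M ∈ S, ∃ n : ℕ, ¬ p ∣ n ∧ M ^ n = 1)
    (r : ZMod p) (hr0 : r ≠ 0)
    (hr3 : r ^ 3 ≠ 1) (hr6 : r ^ 6 ≠ 1) (hr9 : r ^ 9 ≠ 1) (hr15 : r ^ 15 ≠ 1)
    {I : Type} [Fintype I]
    (M : I → Matrix (Fin 2) (Fin 2) (ZMod p)) (v : I → Fin 2 → ZMod p)
    (hM : ∀ i, M i ∈ S) (hv : ∀ i, M i *ᵥ v i = r⁻¹ • v i) (hd : ∀ i, (M i).det = r)
    (hind : ∀ i j, i ≠ j → v i 0 * v j 1 - v i 1 * v j 0 ≠ 0)
    (hI : (r ^ 12 ≠ 1 ∧ 3 ≤ Fintype.card I) ∨ 9 ≤ Fintype.card I) : False := by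
  haveI : Fintype (GaloisField p 2) := Fintype.ofFinite _
  refine rv_matrix_F hp2 (GaloisField p 2) S hS r hr0 ?_ hr3 hr6 hr9 hr15 M v hM hv hd hind hI
  have hcard : Fintype.card (GaloisField p 2) = p ^ 2 := by
    rw [← Nat.card_eq_fintype_card]; exact GaloisField.card p 2 two_ne_zero
  have hchar : ringChar (GaloisField p 2) ≠ 2 := by
    rw [ringChar.eq _ p]; exact hp2
  have hne : algebraMap (ZMod p) (GaloisField p 2) r ≠ 0 := by
    intro h
    exact hr0 ((algebraMap (ZMod p) (GaloisField p 2)).injective (by rw [h, map_zero]))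
  have hsq : IsSquare (algebraMap (ZMod p) (GaloisField p 2) r) := by
    rw [FiniteField.isSquare_iff hchar hne, hcard, ← map_pow]
    obtain ⟨m, hm⟩ := (Nat.Prime.odd_of_ne_two (Fact.out : p.Prime) hp2)
    have h1 : p ^ 2 / 2 = (p - 1) * (m + 1) := by
      subst hm
      have h2 : (2 * m + 1) ^ 2 = 2 * (2 * m * (m + 1)) + 1 := by ring
      rw [h2, Nat.add_sub_cancel]
      omega
    rw [h1, pow_mul, ZMod.pow_card_sub_one_eq_one hr0, one_pow, map_one]
  obtain ⟨s, hs⟩ := hsq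
  exact ⟨s, by rw [hs, pow_two]⟩

end Cfsg.Agent.Helper41.RV
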