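import Cfsg.Agent.Helper41.RVRad

set_option autoImplicit false

/-!
# Ruiz–Viruel bounds, part 6: subgroups of order `p²` of `P` (helper41)
-/

namespace Cfsg.Agent.Helper41.RV

open Matrix

variable {G : Type*} [Group G] {p : ℕ} [Fact p.Prime]

theorem exists_smul_of_cross {K : Type*} [Field K] (v w : Fin 2 → K) (hw : w ≠ 0)
    (h : v 0 * w 1 - v 1 * w 0 = 0) : ∃ lam : K, v = lam • w := by
  by_cases h0 : w 0 = 0
  · have h1 : w 1 ≠ 0 := fun h1 => hw (by funext i; fin_cases i <;> simpa)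
    refine ⟨v 1 / w 1, ?_⟩
    rw [h0, mul_zero, sub_zero] at h
    have hv0 : v 0 = 0 := (mul_eq_zero.mp h).resolve_right h1
    funext i
    fin_cases i
    · simp [hv0, h0]
    · simp; field_simp
  · refine ⟨v 0 / w 0, ?_⟩
    funext i
    fin_cases i
    · simp; field_simp
    · simp; field_simp; linear_combination -h

theorem prim_root (p : ℕ) [Fact p.Prime] :
    ∃ r : ZMod p, r ≠ 0 ∧ ∀ k : ℕ, r ^ k = 1 → (p - 1) ∣ k := by
  obtain ⟨g, hg⟩ := IsCyclic.exists_generator (α := (ZMod p)ˣ)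
  have ho : orderOf g = p - 1 := by
    rw [orderOf_eq_card_of_forall_mem_zpowers hg, Nat.card_eq_fintype_card, ZMod.card_units]
  refine ⟨(g : ZMod p), g.ne_zero, fun k hk => ?_⟩
  rw [← ho]
  apply orderOf_dvd_of_pow_eq_one
  exact Units.ext (by rw [Units.val_pow_eq_pow_val, hk]; rfl)

/-- a subgroup of order `p²` of `P` contains `z` and is `{z^i x^j}` for any of its elements `x`
outside the centre. -/
theorem plane_data [Finite G] {P : Subgroup G} {c : G → Fin 2 → ZMod p} {z : G} (H : Heis P c z)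
    (A : Subgroup G) (hAP : A ≤ P) (hAcard : Nat.card A = p ^ 2) :
    ∃ x ∈ A, c x ≠ 0 ∧ z ∈ A ∧ ∀ y ∈ A, ∃ v : Fin 2 → ZMod p, y = E z x v := by
  have hp := (Fact.out : p.Prime)
  have hab : ∀ a b : ↥A, a * b = b * a := IsPGroup.commutative_of_card_eq_prime_sq hAcard
  obtain ⟨x, hxA, hcx⟩ : ∃ x ∈ A, c x ≠ 0 := by
    by_contra hno
    push_neg at hno
    have hle : A ≤ Subgroup.zpowers z := fun y hy => by
      obtain ⟨k, hk⟩ := H.c_ker y (hAP hy) (hno y hy)
      rw [hk]
      exact Subgroup.pow_mem _ (Subgroup.mem_zpowers z) k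
    have hd := Subgroup.card_dvd_of_le hle
    rw [hAcard, Nat.card_zpowers, orderOf_eq_prime H.z_pow H.z_ne] at hd
    have h1 := Nat.le_of_dvd hp.pos hd
    nlinarith [hp.two_le]
  have hxP := hAP hxA
  have hall : ∀ y ∈ A, ∃ v : Fin 2 → ZMod p, y = E z x v := by
    intro y hy
    have hyx : y * x = x * y := congrArg Subtype.val (hab ⟨y, hy⟩ ⟨x, hxA⟩)
    have hcr := (H.comm_iff (hAP hy) hxP).mp hyx
    obtain ⟨lam, hlam⟩ := exists_smul_of_cross (c y) (c x) hcx hcr
    have hm : x ^ lam.val ∈ P := P.pow_mem hxP _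
    obtain ⟨k, hk⟩ := H.c_ker (y * (x ^ lam.val)⁻¹) (P.mul_mem (hAP hy) (P.inv_mem hm)) (by
      rw [H.c_mul _ (hAP hy) _ (P.inv_mem hm), H.c_inv hm, H.c_pz hxP, hlam]; abel)
    refine ⟨![(k : ZMod p), lam], ?_⟩
    rw [E_mk, pz_natCast H.z_pow, ← hk]
    group
  have hzA : z ∈ A := by
    have hsub : (A : Set G) ⊆ Set.range (E (p := p) z x) := fun y hy => by
      obtain ⟨v, hv⟩ := hall y hy
      exact ⟨v, hv.symm⟩
    have hfin : (Set.range (E (p := p) z x)).Finite := Set.finite_range _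
    have hcard : (Set.range (E (p := p) z x)).ncard ≤ (A : Set G).ncard := by
      have h1 : (Set.range (E (p := p) z x)).ncard ≤ Nat.card (Fin 2 → ZMod p) := by
        rw [← Nat.card_coe_set_eq]
        exact Finite.card_range_le _
      have h2 : Nat.card (Fin 2 → ZMod p) = p ^ 2 := by
        rw [Nat.card_eq_fintype_card, Fintype.card_fun, ZMod.card, Fintype.card_fin]
      have h3 : (A : Set G).ncard = p ^ 2 := by
        rw [← Nat.card_coe_set_eq]
        exact hAcard
      omega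
    have heq := Set.eq_of_subset_of_ncard_le hsub hcard hfin
    have hz : z ∈ Set.range (E (p := p) z x) :=
      ⟨![1, 0], by rw [E_mk, pz_one, pz_zero, mul_one]⟩
    rw [← heq] at hz
    exact hz
  exact ⟨x, hxA, hcx, hzA, hall⟩

/-- the transvection `z ↦ z x`, `x ↦ x` of a plane, as an automorphism of order `p`. -/
theorem plane_aut {P : Subgroup G} {c : G → Fin 2 → ZMod p} {z : G} (H : Heis P c z)
    (A : Subgroup G) (hAP : A ≤ P) {x : G} (hx : x ∈ A) (hcx : c x ≠ 0) (hz : z ∈ A)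
    (hall : ∀ y ∈ A, ∃ v : Fin 2 → ZMod p, y = E z x v) :
    ∃ φ : MulAut ↥A, orderOf φ = p ∧ (φ ⟨z, hz⟩ : G) = z * x ∧ (φ ⟨x, hx⟩ : G) = x := by
  have hxP := hAP hx
  have hzp := H.z_pow
  have hxp := H.exp x hxP
  have hzx : Commute z x := (H.z_central x hxP).symm
  have hEA : ∀ v : Fin 2 → ZMod p, E z x v ∈ A := fun v =>
    A.mul_mem (A.pow_mem hz _) (A.pow_mem hx _)
  have hinj : Function.Injective (fun v : Fin 2 → ZMod p => (⟨E z x v, hEA v⟩ : ↥A)) := by
    intro v w hvw
    have h : E z x v = E z x w := congrArg Subtype.val hvw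
    have hc := congrArg c h
    unfold E at hc
    rw [H.c_mul _ (P.pow_mem H.z_mem _) _ (P.pow_mem hxP _), H.c_zpow, zero_add, H.c_pz hxP,
      H.c_mul _ (P.pow_mem H.z_mem _) _ (P.pow_mem hxP _), H.c_zpow, zero_add, H.c_pz hxP] at hc
    have h1 : v 1 = w 1 := by
      obtain ⟨i, hi⟩ := Function.ne_iff.mp hcx
      have h2 := congrFun hc i
      simp only [Pi.smul_apply, smul_eq_mul] at h2
      exact mul_right_cancel₀ hi h2
    have h0 : v 0 = w 0 := by
      unfold E at h
      rw [h1] at h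
      exact pz_inj hzp H.z_ne (mul_right_cancel h)
    funext i
    fin_cases i
    · exact h0
    · exact h1
  have hsurj : Function.Surjective (fun v : Fin 2 → ZMod p => (⟨E z x v, hEA v⟩ : ↥A)) :=
    fun y => by
      obtain ⟨v, hv⟩ := hall y.1 y.2
      exact ⟨v, Subtype.ext hv.symm⟩
  let e : (Fin 2 → ZMod p) ≃ ↥A := Equiv.ofBijective _ ⟨hinj, hsurj⟩
  have he : ∀ v, (e v : G) = E z x v := fun v => rfl
  have he_add : ∀ v w, e (v + w) = e v * e w := fun v w =>
    Subtype.ext (E_add hzx hzp hxp v w)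
  have hes_mul : ∀ y y' : ↥A, e.symm (y * y') = e.symm y + e.symm y' := fun y y' => by
    apply e.injective
    rw [he_add, e.apply_symm_apply, e.apply_symm_apply, e.apply_symm_apply]
  let L : Matrix (Fin 2) (Fin 2) (ZMod p) := !![1, 0; 1, 1]
  let L' : Matrix (Fin 2) (Fin 2) (ZMod p) := !![1, 0; -1, 1]
  have hLL' : L * L' = 1 := by
    simp [L, L', Matrix.mul_fin_two, Matrix.one_fin_two]
  have hL'L : L' * L = 1 := by
    simp [L, L', Matrix.mul_fin_two, Matrix.one_fin_two]
  let φ : MulAut ↥A :=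
    { toFun := fun y => e (L *ᵥ e.symm y)
      invFun := fun y => e (L' *ᵥ e.symm y)
      left_inv := fun y => by
        simp only [e.symm_apply_apply, Matrix.mulVec_mulVec, hL'L, Matrix.one_mulVec,
          e.apply_symm_apply]
      right_inv := fun y => by
        simp only [e.symm_apply_apply, Matrix.mulVec_mulVec, hLL', Matrix.one_mulVec,
          e.apply_symm_apply]
      map_mul' := fun y y' => by rw [hes_mul, Matrix.mulVec_add, he_add] }
  have hφ : ∀ y, φ y = e (L *ᵥ e.symm y) := fun y => rfl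
  have hpow : ∀ (n : ℕ) (y : ↥A), (φ ^ n) y = e ((L ^ n) *ᵥ e.symm y) := by
    intro n
    induction n with
    | zero => intro y; simp
    | succ n ih =>
      intro y
      rw [pow_succ, MulAut.mul_apply, ih, hφ, e.symm_apply_apply, Matrix.mulVec_mulVec,
        pow_succ]
  have hsz : e.symm ⟨z, hz⟩ = ![1, 0] := by
    apply e.injective
    rw [e.apply_symm_apply]
    apply Subtype.ext
    rw [he, E_mk, pz_one, pz_zero, mul_one]
  have hsx : e.symm ⟨x, hx⟩ = ![0, 1] := by
    apply e.injective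
    rw [e.apply_symm_apply]
    apply Subtype.ext
    rw [he, E_mk, pz_one, pz_zero, one_mul]
  have hφz : (φ ⟨z, hz⟩ : G) = z * x := by
    rw [hφ, hsz, he]
    have e1 : L *ᵥ ![1, 0] = ![1, 1] := by
      funext i
      fin_cases i <;> simp [L, Matrix.mulVec, dotProduct, Fin.sum_univ_two]
    rw [e1, E_mk, pz_one, pz_one]
  have hφx : (φ ⟨x, hx⟩ : G) = x := by
    rw [hφ, hsx, he]
    have e1 : L *ᵥ ![0, 1] = ![0, 1] := by
      funext i
      fin_cases i <;> simp [L, Matrix.mulVec, dotProduct, Fin.sum_univ_two]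
    rw [e1, E_mk, pz_one, pz_zero, one_mul]
  refine ⟨φ, ?_, hφz, hφx⟩
  apply orderOf_eq_prime
  · ext y
    rw [hpow, L_pow, CharP.cast_eq_zero, ← Matrix.one_fin_two, Matrix.one_mulVec,
      e.apply_symm_apply]
    rfl
  · intro h1
    have h2 := congrArg (fun ψ : MulAut ↥A => ((ψ ⟨z, hz⟩ : ↥A) : G)) h1
    simp only [MulAut.one_apply] at h2
    rw [hφz] at h2
    have h3 : x = 1 := by
      have h4 : z * x = z * 1 := by rw [h2, mul_one]
      exact mul_left_cancel h4
    apply hcx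
    rw [h3, H.c_one]

end Cfsg.Agent.Helper41.RV
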