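import Cfsg.Agent.Helper41.RVGrp

set_option autoImplicit false

/-!
# Ruiz–Viruel bounds, part 5: a radical plane gives a torus element of `N_G(P)` (helper41)
-/

namespace Cfsg.Agent.Helper41.RV

open Matrix

variable {G : Type*} [Group G] {p : ℕ} [Fact p.Prime]

/-- `E z x v = z ^ v₀ * x ^ v₁`. -/
def E (z x : G) (v : Fin 2 → ZMod p) : G := z ^ (v 0).val * x ^ (v 1).val

theorem E_mk (z x : G) (s t : ZMod p) : E z x ![s, t] = z ^ s.val * x ^ t.val := by
  simp [E]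

theorem E_add {z x : G} (hzx : Commute z x) (hz : z ^ p = 1) (hx : x ^ p = 1)
    (v w : Fin 2 → ZMod p) : E z x (v + w) = E z x v * E z x w := by
  unfold E
  rw [Pi.add_apply, Pi.add_apply, pz_add hz, pz_add hx]
  have h : Commute (z ^ (w 0).val) (x ^ (v 1).val) := (hzx.pow_left _).pow_right _
  calc z ^ (v 0).val * z ^ (w 0).val * (x ^ (v 1).val * x ^ (w 1).val)
      = z ^ (v 0).val * (z ^ (w 0).val * x ^ (v 1).val) * x ^ (w 1).val := by
        simp only [mul_assoc]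
    _ = z ^ (v 0).val * (x ^ (v 1).val * z ^ (w 0).val) * x ^ (w 1).val := by rw [h.eq]
    _ = z ^ (v 0).val * x ^ (v 1).val * (z ^ (w 0).val * x ^ (w 1).val) := by
        simp only [mul_assoc]

theorem E_smul {z x : G} (hzx : Commute z x) (hz : z ^ p = 1) (hx : x ^ p = 1)
    (t : ZMod p) (v : Fin 2 → ZMod p) : E z x (t • v) = (E z x v) ^ t.val := by
  unfold E
  rw [Pi.smul_apply, Pi.smul_apply, smul_eq_mul, smul_eq_mul, mul_comm t, mul_comm t,
    pz_mul hz, pz_mul hx, ((hzx.pow_left _).pow_right _).mul_pow]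

/-- `g` normalizes `⟨z, x⟩` and acts on it by the matrix `A` (in the basis `z, x`). -/
def ActsV (z x : G) (g : G) (A : Matrix (Fin 2) (Fin 2) (ZMod p)) : Prop :=
  ∀ v, g * E z x v * g⁻¹ = E z x (A *ᵥ v)

theorem actsV_of_gen {z x : G} (hzx : Commute z x) (hz : z ^ p = 1) (hx : x ^ p = 1) {g : G}
    {A : Matrix (Fin 2) (Fin 2) (ZMod p)}
    (h0 : g * z * g⁻¹ = E z x ![A 0 0, A 1 0]) (h1 : g * x * g⁻¹ = E z x ![A 0 1, A 1 1]) :
    ActsV z x g A := by
  intro v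
  have e : g * E z x v * g⁻¹ = (g * z * g⁻¹) ^ (v 0).val * (g * x * g⁻¹) ^ (v 1).val := by
    unfold E
    rw [conj_pow, conj_pow, conj_mul]
  rw [e, h0, h1, ← E_smul hzx hz hx, ← E_smul hzx hz hx, ← E_add hzx hz hx]
  congr 1
  funext i
  fin_cases i <;> simp [Matrix.mulVec, dotProduct, Fin.sum_univ_two] <;> ring

theorem actsV_one (z x : G) : ActsV (p := p) z x 1 1 := by
  intro v
  simp

theorem actsV_mul {z x g g' : G} {A A' : Matrix (Fin 2) (Fin 2) (ZMod p)}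
    (a : ActsV z x g A) (a' : ActsV z x g' A') : ActsV z x (g * g') (A * A') := by
  intro v
  have e : g * g' * E z x v * (g * g')⁻¹ = g * (g' * E z x v * g'⁻¹) * g⁻¹ := by group
  rw [e, a' v, a _, Matrix.mulVec_mulVec]

theorem actsV_inv {z x g : G} {A A' : Matrix (Fin 2) (Fin 2) (ZMod p)}
    (a : ActsV z x g A) (hA : A * A' = 1) : ActsV z x g⁻¹ A' := by
  intro v
  have h := a (A' *ᵥ v)
  rw [Matrix.mulVec_mulVec, hA, Matrix.one_mulVec] at h
  rw [← h]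
  group

/-- the matrices induced on `⟨z, x⟩` by `G`. -/
def GV (z x : G) : Submonoid (Matrix (Fin 2) (Fin 2) (ZMod p)) where
  carrier := {A | ∃ g : G, ActsV z x g A}
  mul_mem' := by
    rintro _ _ ⟨g, a⟩ ⟨g', a'⟩
    exact ⟨g * g', actsV_mul a a'⟩
  one_mem' := ⟨1, actsV_one z x⟩

theorem U_pow (n : ℕ) : (!![1, 1; 0, 1] : Matrix (Fin 2) (Fin 2) (ZMod p)) ^ n =
    !![1, (n : ZMod p); 0, 1] := by
  induction n with
  | zero => simp [Matrix.one_fin_two]
  | succ n ih =>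
    rw [pow_succ, ih, Matrix.mul_fin_two]
    simp [add_comm]

theorem L_pow (n : ℕ) : (!![1, 0; 1, 1] : Matrix (Fin 2) (Fin 2) (ZMod p)) ^ n =
    !![1, 0; (n : ZMod p), 1] := by
  induction n with
  | zero => simp [Matrix.one_fin_two]
  | succ n ih =>
    rw [pow_succ, ih, Matrix.mul_fin_two]
    simp

theorem D_mem (r : ZMod p) (hr : r ≠ 0) (S : Submonoid (Matrix (Fin 2) (Fin 2) (ZMod p)))
    (hU : !![1, 1; 0, 1] ∈ S) (hL : !![1, 0; 1, 1] ∈ S) : !![r, 0; 0, r⁻¹] ∈ S := by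
  have hU' : ∀ t : ZMod p, !![1, t; 0, 1] ∈ S := fun t => by
    have h := S.pow_mem hU t.val
    rwa [U_pow, ZMod.natCast_zmod_val] at h
  have hL' : ∀ t : ZMod p, !![1, 0; t, 1] ∈ S := fun t => by
    have h := S.pow_mem hL t.val
    rwa [L_pow, ZMod.natCast_zmod_val] at h
  have e : (!![r, 0; 0, r⁻¹] : Matrix (Fin 2) (Fin 2) (ZMod p)) =
      !![1, r; 0, 1] * !![1, 0; -r⁻¹, 1] * !![1, r; 0, 1] * !![1, -1; 0, 1] * !![1, 0; 1, 1] *
        !![1, -1; 0, 1] := by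
    simp only [Matrix.mul_fin_two]
    ext i j
    fin_cases i <;> fin_cases j <;> simp <;> field_simp <;> ring
  rw [e]
  exact S.mul_mem (S.mul_mem (S.mul_mem (S.mul_mem (S.mul_mem (hU' r) (hL' _)) (hU' r)) (hU' _))
    (hL' 1)) (hU' _)

/-- the elements acting on `⟨z, x⟩` by upper unitriangular matrices. -/
def TV (p : ℕ) [Fact p.Prime] (z x : G) : Subgroup G where
  carrier := {t | ∃ m : ZMod p, ActsV z x t !![1, m; 0, 1]}
  mul_mem' := by
    rintro a b ⟨m, ha⟩ ⟨m', hb⟩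
    refine ⟨m' + m, ?_⟩
    have h := actsV_mul ha hb
    rwa [show (!![1, m; 0, 1] : Matrix (Fin 2) (Fin 2) (ZMod p)) * !![1, m'; 0, 1] =
      !![1, m' + m; 0, 1] by rw [Matrix.mul_fin_two]; simp] at h
  one_mem' := ⟨0, by have h := actsV_one (p := p) z x; rwa [Matrix.one_fin_two] at h⟩
  inv_mem' := by
    rintro a ⟨m, ha⟩
    exact ⟨-m, actsV_inv ha (by rw [Matrix.mul_fin_two, Matrix.one_fin_two]; simp)⟩

/-- **The torus element of a radical plane.**  If `g` acts on `⟨z, x⟩` by `z ↦ z x`, `x ↦ x`,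
then for every `r ≠ 0` some element of `N_G(P)` acts on `P/Z` with eigenvalue `r⁻¹` on the
line of `x` and determinant `r`. -/
theorem radical_core [Finite G] (P : Sylow p G) {c : G → Fin 2 → ZMod p} {z : G}
    (H : Heis (P : Subgroup G) c z) {x g : G} (hx : x ∈ (P : Subgroup G)) (hcx : c x ≠ 0)
    (hgz : g * z * g⁻¹ = z * x) (hgx : g * x * g⁻¹ = x) (r : ZMod p) (hr : r ≠ 0) :
    ∃ M ∈ SP (P : Subgroup G) c, M *ᵥ c x = r⁻¹ • c x ∧ M.det = r := by
  have hz := H.z_pow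
  have hxp := H.exp x hx
  have hzx : Commute z x := (H.z_central x hx).symm
  obtain ⟨u, hu, hcu⟩ : ∃ u ∈ (P : Subgroup G), c u 0 * c x 1 - c u 1 * c x 0 = 1 := by
    by_cases h1 : c x 1 = 0
    · have h0 : c x 0 ≠ 0 := fun h0 => hcx (by funext i; fin_cases i <;> simpa)
      obtain ⟨u, hu, hcu⟩ := H.c_surj ![0, -(c x 0)⁻¹]
      exact ⟨u, hu, by rw [hcu]; simp; field_simp⟩
    · obtain ⟨u, hu, hcu⟩ := H.c_surj ![(c x 1)⁻¹, 0]
      exact ⟨u, hu, by rw [hcu]; simp; field_simp⟩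
  have hPact : ∀ y ∈ (P : Subgroup G),
      ActsV z x y !![1, c y 0 * c x 1 - c y 1 * c x 0; 0, 1] := by
    intro y hy
    apply actsV_of_gen hzx hz hxp
    · show y * z * y⁻¹ = E z x ![1, 0]
      rw [H.z_central y hy, mul_inv_cancel_right, E_mk, pz_one, pz_zero, mul_one]
    · show y * x * y⁻¹ = E z x ![c y 0 * c x 1 - c y 1 * c x 0, 1]
      have h := H.pair y hy x hx
      rw [E_mk, pz_one]
      exact mul_inv_eq_iff_eq_mul.mp h
  have aU : ActsV (p := p) z x u !![1, 1; 0, 1] := by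
    have h := hPact u hu
    rwa [hcu] at h
  have aL : ActsV (p := p) z x g !![1, 0; 1, 1] := by
    apply actsV_of_gen hzx hz hxp
    · show g * z * g⁻¹ = E z x ![1, 1]
      rw [hgz, E_mk, pz_one, pz_one]
    · show g * x * g⁻¹ = E z x ![0, 1]
      rw [hgx, E_mk, pz_one, pz_zero, one_mul]
  obtain ⟨n, an⟩ : !![r, 0; 0, r⁻¹] ∈ GV (p := p) z x :=
    D_mem r hr (GV z x) ⟨u, aU⟩ ⟨g, aL⟩
  have an' : ActsV (p := p) z x n⁻¹ !![r⁻¹, 0; 0, r] := actsV_inv an (by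
    rw [Matrix.mul_fin_two, Matrix.one_fin_two]; simp [hr])
  have hPT : (P : Subgroup G) ≤ TV p z x := fun y hy => ⟨_, hPact y hy⟩
  have hP'T : ((n • P : Sylow p G) : Subgroup G) ≤ TV p z x := by
    intro y hy
    rw [Sylow.coe_subgroup_smul, Subgroup.mem_pointwise_smul_iff_inv_smul_mem] at hy
    have hy' : n⁻¹ * y * n ∈ (P : Subgroup G) := by simpa [MulAut.smul_def] using hy
    have h := actsV_mul (actsV_mul an (hPact _ hy')) an'
    have e : n * (n⁻¹ * y * n) * n⁻¹ = y := by group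
    rw [e] at h
    refine ⟨r * (c (n⁻¹ * y * n) 0 * c x 1 - c (n⁻¹ * y * n) 1 * c x 0) * r, ?_⟩
    have e2 : ∀ m : ZMod p, (!![r, 0; 0, r⁻¹] : Matrix (Fin 2) (Fin 2) (ZMod p)) *
        !![1, m; 0, 1] * !![r⁻¹, 0; 0, r] = !![1, r * m * r; 0, 1] := by
      intro m
      rw [Matrix.mul_fin_two, Matrix.mul_fin_two]
      simp [hr]
    rwa [e2] at h
  obtain ⟨t, ht⟩ := MulAction.exists_smul_eq ↥(TV p z x) ((n • P).subtype hP'T) (P.subtype hPT)
  rw [Sylow.smul_subtype] at ht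
  have ht' := Sylow.subtype_injective ht
  have ht'' : ((t : G) * n) • P = P := by rw [mul_smul]; exact ht'
  have hh : (t : G) * n ∈ Subgroup.normalizer ((P : Subgroup G) : Set G) :=
    Sylow.smul_eq_iff_mem_normalizer.mp ht''
  obtain ⟨m, at'⟩ := t.2
  have ah := actsV_mul at' an
  have hhz : (t : G) * n * z * ((t : G) * n)⁻¹ = z ^ r.val := by
    have h := ah ![1, 0]
    rw [E_mk, pz_one, pz_zero, mul_one] at h
    rw [h]
    have e3 : (!![1, m; 0, 1] * !![r, 0; 0, r⁻¹] : Matrix (Fin 2) (Fin 2) (ZMod p)) *ᵥ ![1, 0] =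
        ![r, 0] := by
      rw [Matrix.mul_fin_two]
      funext i
      fin_cases i <;> simp [Matrix.mulVec, dotProduct, Fin.sum_univ_two]
    rw [e3, E_mk, pz_zero, mul_one]
  have hhx : (t : G) * n * x * ((t : G) * n)⁻¹ = z ^ (m * r⁻¹).val * x ^ (r⁻¹).val := by
    have h := ah ![0, 1]
    rw [E_mk, pz_one, pz_zero, one_mul] at h
    rw [h]
    have e3 : (!![1, m; 0, 1] * !![r, 0; 0, r⁻¹] : Matrix (Fin 2) (Fin 2) (ZMod p)) *ᵥ ![0, 1] =
        ![m * r⁻¹, r⁻¹] := by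
      rw [Matrix.mul_fin_two]
      funext i
      fin_cases i <;> simp [Matrix.mulVec, dotProduct, Fin.sum_univ_two]
    rw [e3, E_mk]
  obtain ⟨M, aM⟩ := H.exists_acts hh
  refine ⟨M, ⟨_, aM⟩, ?_, ?_⟩
  · rw [← aM.2 x hx, hhx, H.c_mul _ (Subgroup.pow_mem _ H.z_mem _) _ (Subgroup.pow_mem _ hx _),
      H.c_zpow, zero_add, H.c_pz hx]
  · have h := H.acts_z aM
    rw [hhz] at h
    exact (pz_inj hz H.z_ne h).symm

end Cfsg.Agent.Helper41.RV
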