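import Mathlib
import Cfsg.Agent.Helper41.SmallSimple

set_option autoImplicit false

namespace Cfsg.Agent.Helper41

/-- Prime factorization of `p² q r` for distinct primes. -/
theorem factorization_sq_mul_mul {p q r : ℕ} (hp : p.Prime) (hq : q.Prime) (hr : r.Prime)
    (hpq : p ≠ q) (hpr : p ≠ r) (hqr : q ≠ r) :
    (p ^ 2 * q * r).factorization p = 2 ∧ (p ^ 2 * q * r).factorization q = 1 ∧
      (p ^ 2 * q * r).factorization r = 1 := by
  have h1 : p ^ 2 ≠ 0 := pow_ne_zero _ hp.ne_zero
  have h2 : p ^ 2 * q ≠ 0 := mul_ne_zero h1 hq.ne_zero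
  rw [Nat.factorization_mul h2 hr.ne_zero, Nat.factorization_mul h1 hq.ne_zero,
    Nat.factorization_pow, hp.factorization, hq.factorization, hr.factorization]
  simp [hpq, hpr, hqr, hpq.symm, hpr.symm, hqr.symm]

/-- A simple group of order `p² q r` has order `60`. -/
theorem card_eq_sixty_of_sq_mul_mul {G : Type*} [Group G] [Finite G] [IsSimpleGroup G]
    (p q r : ℕ) (hp : p.Prime) (hq : q.Prime) (hr : r.Prime)
    (hG : Nat.card G = p ^ 2 * q * r) : Nat.card G = 60 := by
  classical
  have hp2 := hp.two_le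
  have hq2 := hq.two_le
  have hr2 := hr.two_le
  have hqr4 : 4 ≤ q * r := by nlinarith
  have hpp : 4 ≤ p ^ 2 := by nlinarith
  have hnp : ¬ (Nat.card G).Prime := by
    rw [hG]
    intro h
    have hd : p ∣ p ^ 2 * q * r := ⟨p * q * r, by ring⟩
    rcases (Nat.dvd_prime h).mp hd with h1 | h1
    · omega
    · have : p ^ 2 * q * r = p * (p * (q * r)) := by ring
      nlinarith
  have hns := not_solvable_of_not_prime hnp
  have hpq : p ≠ q := by
    rintro rfl
    exact hns (Cfsg.Agent.Helper3.isSolvable_of_card_eq p r 3 1 hp hr (by rw [hG]; ring))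
  have hpr : p ≠ r := by
    rintro rfl
    exact hns (Cfsg.Agent.Helper3.isSolvable_of_card_eq p q 3 1 hp hq (by rw [hG]; ring))
  have hqr : q ≠ r := by
    rintro rfl
    exact hns (Cfsg.Agent.Helper3.isSolvable_of_card_eq p q 2 2 hp hq (by rw [hG]; ring))
  obtain ⟨hfp, hfq, hfr⟩ := factorization_sq_mul_mul hp hq hr hpq hpr hqr
  -- the smallest prime is `p`
  have hmin : (Nat.card G).minFac = p := by
    have hn1 : Nat.card G ≠ 1 := by
      rw [hG]
      have : p ^ 2 * q * r = p ^ 2 * (q * r) := by ring
      nlinarith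
    have hsp := Nat.minFac_prime hn1
    have hsd := Nat.minFac_dvd (Nat.card G)
    obtain ⟨s, hs⟩ : ∃ s, (Nat.card G).minFac = s := ⟨_, rfl⟩
    rw [hs] at hsp hsd
    have := Fact.mk hsp
    let S : Sylow s G := default
    have hSnc := not_isCyclic_sylow_minFac hns hs S
    have hScard := S.card_eq_multiplicity
    have hv : (Nat.card G).factorization s ≠ 1 := by
      intro h1
      rw [h1, pow_one] at hScard
      exact hSnc (isCyclic_of_prime_card hScard)
    rw [hG] at hsd hv
    have hcases : s = p ∨ s = q ∨ s = r := by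
      rcases (Nat.Prime.dvd_mul hsp).mp hsd with h | h
      · rcases (Nat.Prime.dvd_mul hsp).mp h with h | h
        · left; exact (Nat.prime_dvd_prime_iff_eq hsp hp).mp (hsp.dvd_of_dvd_pow h)
        · right; left; exact (Nat.prime_dvd_prime_iff_eq hsp hq).mp h
      · right; right; exact (Nat.prime_dvd_prime_iff_eq hsp hr).mp h
    rcases hcases with h | h | h
    · rw [hs, h]
    · rw [h] at hv; exact absurd hfq hv
    · rw [h] at hv; exact absurd hfr hv
  have hpq' : p < q := by
    have h1 : (Nat.card G).minFac ≤ q :=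
      Nat.minFac_le_of_dvd hq.two_le (hG ▸ ⟨p ^ 2 * r, by ring⟩)
    rw [hmin] at h1
    omega
  have hpr' : p < r := by
    have h1 : (Nat.card G).minFac ≤ r :=
      Nat.minFac_le_of_dvd hr.two_le (hG ▸ ⟨p ^ 2 * q, by ring⟩)
    rw [hmin] at h1
    omega
  have := Fact.mk hp
  let P : Sylow p G := default
  have hPcard : Nat.card (P : Subgroup G) = p ^ 2 := by
    rw [Sylow.card_eq_multiplicity, hG, hfp]
  have hPcomm : IsMulCommutative (P : Subgroup G) :=
    IsPGroup.isMulCommutative_of_card_eq_prime_sq hPcard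
  have hPC : (P : Subgroup G) ≤ Subgroup.centralizer ((P : Subgroup G) : Set G) := by
    intro x hx
    rw [Subgroup.mem_centralizer_iff]
    intro y hy
    exact congrArg Subtype.val (mul_comm' (⟨y, hy⟩ : (P : Subgroup G)) ⟨x, hx⟩)
  have hNC : ¬ Subgroup.normalizer ((P : Subgroup G) : Set G) ≤
      Subgroup.centralizer ((P : Subgroup G) : Set G) := by
    intro h
    refine false_of_normalizer_le_centralizer P ?_ ?_ h
    · rw [hPcard]; omega
    · rw [hPcard, hG]
      have : p ^ 2 * q * r = p ^ 2 * (q * r) := by ring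
      nlinarith
  have hrel : (Subgroup.centralizer ((P : Subgroup G) : Set G)).relIndex
      (Subgroup.normalizer ((P : Subgroup G) : Set G)) ≠ 1 :=
    fun h => hNC (Subgroup.relIndex_eq_one.mp h)
  have key1 : (Subgroup.centralizer ((P : Subgroup G) : Set G)).relIndex
      (Subgroup.normalizer ((P : Subgroup G) : Set G)) ∣ Nat.card (MulAut (P : Subgroup G)) := by
    have key := Subgroup.card_dvd_of_injective _
      (QuotientGroup.kerLift_injective (P : Subgroup G).normalizerMonoidHom)
    rw [Subgroup.normalizerMonoidHom_ker, ← Subgroup.index, ← Subgroup.relIndex] at key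
    exact key
  have hPidx : (P : Subgroup G).index = q * r := by
    have := (P : Subgroup G).card_mul_index
    rw [hPcard, hG, mul_assoc] at this
    exact Nat.eq_of_mul_eq_mul_left (by positivity) this
  have key2 : (Subgroup.centralizer ((P : Subgroup G) : Set G)).relIndex
      (Subgroup.normalizer ((P : Subgroup G) : Set G)) ∣ q * r := by
    rw [← hPidx]
    exact (Subgroup.relIndex_dvd_of_le_left _ hPC).trans
      (Subgroup.relIndex_dvd_index_of_le Subgroup.le_normalizer)
  obtain ⟨t, ht⟩ : ∃ t, t = ((Subgroup.centralizer ((P : Subgroup G) : Set G)).relIndex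
      (Subgroup.normalizer ((P : Subgroup G) : Set G))).minFac := ⟨_, rfl⟩
  have htp : t.Prime := ht ▸ Nat.minFac_prime hrel
  have htd : t ∣ (Subgroup.centralizer ((P : Subgroup G) : Set G)).relIndex
      (Subgroup.normalizer ((P : Subgroup G) : Set G)) := ht ▸ Nat.minFac_dvd _
  have htqr : t = q ∨ t = r := by
    rcases (Nat.Prime.dvd_mul htp).mp (htd.trans key2) with h | h
    · left; exact (Nat.prime_dvd_prime_iff_eq htp hq).mp h
    · right; exact (Nat.prime_dvd_prime_iff_eq htp hr).mp h
  have hlt : p < t := by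
    rcases htqr with h | h <;> rw [h] <;> assumption
  obtain ⟨hp2', ht3⟩ := two_three_of_dvd hp htp hlt
    (prime_dvd_card_mulAut hp htp hPcard (htd.trans key1))
  rw [hp2'] at hG
  rcases htqr with h | h
  · have hq3 : q = 3 := by omega
    have hr5 := eq_five_of_card_eq_twelve_mul r hr (by omega) (by omega)
      (by rw [hG, hq3]; ring)
    rw [hG, hq3, hr5]
    norm_num
  · have hr3 : r = 3 := by omega
    have hq5 := eq_five_of_card_eq_twelve_mul q hq (by omega) (by omega)
      (by rw [hG, hr3]; ring)
    rw [hG, hr3, hq5]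
    norm_num

end Cfsg.Agent.Helper41
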